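import Cfsg.Agent.TO.X.Conn
import Cfsg.Agent.TO.E6.Tool

/-!
# N2, `G₂(q)` and `³D₄(q)`, box [A]: rational points of centralisers (helper52)

`NF X` : `F` has no fixed points on the fundamental group; `NF.cen` (after `KM/Ev/TD4`, with a small import closure).
-/

set_option autoImplicit false
set_option linter.unusedSectionVars false

namespace Cfsg.Agent.N2.G2.A

open Cfsg Cfsg.Agent.DL Cfsg.Agent.Nodes.Reps Cfsg.Agent.Nodes.BNOf Matrix Subgroup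
open Cfsg.Agent.TO.X.Cn (cl exists_exp χ_exp comm_exp exists_cl cl_add cl_smul cl_zero cl_sr WZ mem_WZ Tr stab_vec rf_exp)
open Cfsg.Agent.ChevalleyStructure.CoxeterGeom Cfsg.Agent.Tits.Roots Cfsg.Agent.DL.Base Cfsg.Agent.Nodes.SubComb

variable {p : ℕ} [Fact p.Prime] {k : Type} [Field k] [CharP k p] {Y : Type} [Group Y] {N : Type} [Fintype N]
  [DecidableEq N] {ρ : Y →* GL N k} {F : MulAut Y} {G : Subgroup Y} [IsAlgClosed k] (X : Datum p ρ F G)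

/-- the coroot lattice -/
def Q : Submodule ℤ (X.R → ℤ) where
  carrier := {v | ∃ β, v = cl X β}
  add_mem' := fun ⟨β, h⟩ ⟨γ, h'⟩ => ⟨β + γ, by rw [cl_add, h, h']⟩
  zero_mem' := ⟨0, (cl_zero X).symm⟩
  smul_mem' c _ := fun ⟨β, h⟩ => ⟨c • β, by rw [cl_smul, h]⟩

/-- no fixed points on the fundamental group -/
def NF : Prop := ∀ μ, X.Mx *ᵥ μ - μ ∈ Q X → μ ∈ Q X

variable {X} {w : X.W} {u μ : X.R → ℤ} {ζ : kˣ} {t y : Y}

theorem sub_mem_Q (w : X.W) (v : X.R → ℤ) : X.Wm w *ᵥ v - v ∈ Q X :=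
  let ⟨β, h⟩ := exists_cl X v w
  ⟨β, sub_eq_of_eq_add' h⟩

theorem cor_mem {a : X.I → ℤ} (ha : X.Rt a) : X.cor a ∈ Q X := by
  obtain ⟨v, i, rfl⟩ := ha
  rw [X.cor_act_sr]
  simpa only [sub_add_cancel] using add_mem (sub_mem_Q v (X.cw i)) (show X.cw i ∈ Q X from ⟨_, (cl_sr X i).symm⟩)

theorem fix_exp (h : F (X.τ (coch u ζ)) = X.τ (coch u ζ)) : ∃ ν, X.Mx *ᵥ u = u + (orderOf ζ : ℤ) • ν := by
  rw [X.F_τ, mon_coch] at h
  have h1 : ∀ j, (orderOf ζ : ℤ) ∣ (X.Mx *ᵥ u) j - u j := fun j => by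
    rw [orderOf_dvd_iff_zpow_eq_one, _root_.zpow_sub, show ζ ^ (X.Mx *ᵥ u) j = ζ ^ u j from congrFun (X.τ_inj h) j,
      mul_inv_cancel]
  choose κ hκ using h1
  exact ⟨κ, funext fun j => eq_add_of_sub_eq' (hκ j)⟩

attribute [local instance] fintypeSmp decSmp in
theorem mem_closure {Z : Set Y} (hZ : Z ⊆ X.T) (hF : ∀ z ∈ Z, F z ∈ Z) (h : w ∈ WZ X Z) :
    w ∈ closure (X.rf '' X.Sz Z) := by
  obtain ⟨x, h1, h2⟩ := h
  have h3 := fun a ha => X.g_mem_Sz hZ hF (a := a) ha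
  obtain ⟨v, hv⟩ : x ∈ (X.sub hZ h3 rfl).NN := by
    rw [Datum.sub_NN]
    exact ⟨⟨w, h2⟩, h1⟩
  exact X.range_subW (Z := Z) ▸ ⟨v, X.rp_unique (X.rp_of_sub hZ h3 rfl hv) h2⟩

theorem wz_iff (h0 : 0 < orderOf ζ) (hF : F (X.τ (coch u ζ)) = X.τ (coch u ζ))
    (h : X.Wm w *ᵥ u = u + (orderOf ζ : ℤ) • μ) : w ∈ WZ X {X.τ (coch u ζ)} ↔ μ ∈ Q X := by
  refine ⟨fun h1 => ?_, fun ⟨β, e⟩ => stab_vec X (Int.natCast_pos.2 h0) (e ▸ h) rf_exp⟩
  have h2 := mem_closure (Set.singleton_subset_iff.2 (X.τ_mem _)) (fun _ e => e ▸ hF) h1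
  have h3 : Tr X (orderOf ζ) u w 0 := by
    clear h h1
    induction h2 using closure_induction with
    | mem _ h =>
      obtain ⟨a, ha, rfl⟩ := h
      obtain ⟨c, hc⟩ := (χ_exp X a u ζ).1 (ha.2 _ rfl)
      obtain ⟨β, hβ⟩ := (Q X).smul_mem (-c) (cor_mem ha.1)
      refine ⟨β, ?_⟩
      rw [X.Wm_rf ha.1, sub_mulVec, one_mulVec, vecMulVec_mulVec, op_smul_eq_smul, hc, ← hβ]
      module
    | one => exact ⟨0, by rw [X.Wm_one, one_mulVec, cl_zero, add_zero, smul_zero, add_zero]⟩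
    | mul _ _ _ _ h h' => simpa only [add_zero] using h.mul h'
    | inv _ _ h => simpa only [neg_zero] using h.inv
  obtain ⟨β, hβ⟩ := h3
  exact ⟨β, smul_right_injective _ (Int.natCast_pos.2 h0).ne' (add_left_cancel (h.symm.trans (hβ.trans (by rw [zero_add]))))⟩

theorem NF.conj (h : NF X) (hy : y ∈ G) (hF : y⁻¹ * F y ∈ X.NN) : NF (X.conj hy hF) := fun μ e => by
  have h1 : (X.conj hy hF).Mx *ᵥ μ - X.Mx *ᵥ μ ∈ Q X := by
    rw [X.conj_Mx, ← mulVec_mulVec]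
    exact sub_mem_Q _ _
  exact h μ (by simpa only [sub_sub_sub_cancel_left] using sub_mem (show _ ∈ Q X from e) h1)

/-- rational elements of the centraliser lie in the connected centraliser -/
theorem NF.cen (h : NF X) (ht : t ∈ X.T) (h1 : F t = t) (hy : y ∈ GF F G) (h2 : y * t = t * y) : y ∈ X.cen {t} := by
  have hZ := Set.singleton_subset_iff.2 ht
  obtain ⟨c, hc, m, ⟨w, hm⟩, h3, rfl⟩ := X.exists_cen_form hZ hy.1 (mem_centralizer_singleton_iff.2 h2)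
  have h4 : F m * m⁻¹ ∈ X.cen {t} := by
    have h4 := (mem_GF.1 hy).2
    rw [map_mul] at h4
    rw [eq_inv_mul_of_mul_eq h4, mul_assoc, mul_inv_cancel_right]
    exact X.S_le_cen _ (mul_mem (inv_mem (X.F_mem_S X.Sz_root (fun _ => X.g_mem_Sz hZ fun _ e => e ▸ h1) hc)) hc)
  obtain ⟨ζ, v, h0, -, rfl⟩ := exists_exp X ht
  obtain ⟨ν, hν⟩ := fix_exp h1
  choose μ hμ using comm_exp X hm h3
  have h5 : X.Wm w *ᵥ v = v + (orderOf ζ : ℤ) • μ := funext fun j => eq_add_of_sub_eq' (hμ j)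
  obtain ⟨δ, hδ⟩ := neg_mem (sub_mem_Q (X.Fw w) ν)
  have h6 : Tr X (orderOf ζ) v (X.Fw w) (X.Mx *ᵥ μ) := ⟨δ, by
    have h6 := congrArg (· *ᵥ v) (X.Mx_Wm w)
    simp only [← mulVec_mulVec, h5, hν, mulVec_add, mulVec_smul] at h6
    rw [← hδ]
    linear_combination (norm := module) -h6⟩
  obtain ⟨β, hβ⟩ := h6.mul (Tr.inv (μ := μ) ⟨0, by rw [cl_zero, add_zero, h5]⟩)
  have h7 := sub_mem ((wz_iff h0 h1 hβ).1 ((mem_WZ X ((Datum.Rp.mapF hm).mul hm.inv)).2 h4)) (show _ ∈ Q X from ⟨β, rfl⟩)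
  rw [add_sub_cancel_right, ← sub_eq_add_neg] at h7
  exact mul_mem (X.S_le_cen _ hc) ((mem_WZ X hm).1 ((wz_iff h0 h1 h5).2 (h μ h7)))

/-- two commuting rational `p'`-elements lie in a common rational torus -/
theorem NF.two (h : NF X) {s : Y} (hs : s ∈ GF F G) (ht : t ∈ GF F G) (h1 : ¬ p ∣ orderOf s) (h2 : ¬ p ∣ orderOf t)
    (hc : s * t = t * s) : ∃ g, g * s * g⁻¹ ∈ X.T ∧ g * t * g⁻¹ ∈ X.T := by
  obtain ⟨y, hy, hF, h3⟩ := TO.E6.exists_frame X ht h2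
  have hZ := Set.singleton_subset_iff.2 h3
  obtain ⟨z, hz, -, h4⟩ := TO.E6.exists_frame_cen (X.conj hy hF) hZ (fun _ e => e ▸ ht.2)
    ((h.conj hy hF).cen h3 ht.2 hs hc) hs.2 h1
  have h5 : z⁻¹ * t * z = t := by
    rw [mul_assoc, (X.conj hy hF).cen_le_centralizer hZ hz t rfl, inv_mul_cancel_left]
  refine ⟨y⁻¹ * z⁻¹, ?_, ?_⟩
  · simpa only [_root_.mul_inv_rev, inv_inv, mul_assoc] using mem_cj.1 h4
  · simpa only [_root_.mul_inv_rev, inv_inv, mul_assoc] using mem_cj.1 (h5.symm ▸ h3 : z⁻¹ * t * z ∈ _)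

end Cfsg.Agent.N2.G2.A
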