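import Cfsg.Agent.N2.G2.Defs

/-!
# N2, `G₂(q)` and `³D₄(q)`: numbers (helper9)

Recipe for a polynomial inequality: `obtain ⟨a, rfl⟩ := Nat.exists_eq_add_of_le' hq`, `zify`,
`simp only [ordZ1, ...]` (or `castS`), `rw [← sub_nonneg]; push_cast; ring_nf; positivity`.
-/

set_option autoImplicit false

namespace Cfsg.Agent.N2.G2

/-- the parameters -/
abbrev Par (k q : ℕ) : Prop := k = 1 ∧ 3 ≤ q ∨ k = 3 ∧ 2 ≤ q

variable {k q n : ℕ}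

theorem ord1 (q : ℕ) : ord 1 q = q ^ 6 * (q ^ 2 - 1) * (q ^ 6 - 1) := if_pos rfl
theorem ord3 (q : ℕ) : ord 3 q = q ^ 12 * (q ^ 2 - 1) * (q ^ 6 - 1) * (q ^ 8 + q ^ 4 + 1) := if_neg (by decide)
theorem tau1 (q : ℕ) : tau 1 q = (q + 1) ^ 2 := if_pos rfl
theorem tau3 (q : ℕ) : tau 3 q = (q ^ 2 + q + 1) ^ 2 := if_neg (by decide)
theorem ww1 : ww 1 = 12 := rfl
theorem ww3 : ww 3 = 24 := rfl
theorem cm1 (q : ℕ) : cm 1 q = q * (q ^ 2 - 1) * (q + 1) := by rw [cm, pow_one]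
theorem cm3 (q : ℕ) : cm 3 q = q * (q ^ 2 - 1) * (q ^ 3 + 1) := rfl

theorem castS (a j : ℕ) : (((a + 1) ^ j - 1 : ℕ) : ℤ) = (a + 1) ^ j - 1 := by
  rw [Nat.cast_sub (Nat.one_le_pow _ _ a.succ_pos)]
  push_cast
  rfl

theorem castP {q : ℕ} (h : 0 < q) (j : ℕ) : ((q ^ j - 1 : ℕ) : ℤ) = (q : ℤ) ^ j - 1 := by
  rw [Nat.cast_sub (Nat.one_le_pow _ _ h)]
  push_cast
  rfl

theorem castH (q : ℕ) : ((q ^ 2 - q : ℕ) : ℤ) = (q : ℤ) ^ 2 - q := by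
  rw [Nat.cast_sub (Nat.le_self_pow two_ne_zero q)]
  push_cast
  rfl

theorem castF (q : ℕ) : ((q ^ 4 - q ^ 2 : ℕ) : ℤ) = (q : ℤ) ^ 4 - q ^ 2 := by
  rcases Nat.eq_zero_or_pos q with rfl | h
  · simp
  rw [Nat.cast_sub (Nat.pow_le_pow_right h (by decide))]
  push_cast
  rfl

theorem ordZ1 (h : 0 < q) : (ord 1 q : ℤ) = (q : ℤ) ^ 6 * (q ^ 2 - 1) * (q ^ 6 - 1) := by
  rw [ord1]; push_cast [castP h]; rfl
theorem ordZ3 (h : 0 < q) : (ord 3 q : ℤ) = (q : ℤ) ^ 12 * (q ^ 2 - 1) * (q ^ 6 - 1) * (q ^ 8 + q ^ 4 + 1) := by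
  rw [ord3]; push_cast [castP h]; rfl
theorem tauZ1 (q : ℕ) : (tau 1 q : ℤ) = ((q : ℤ) + 1) ^ 2 := by
  rw [tau1]; push_cast; rfl
theorem tauZ3 (q : ℕ) : (tau 3 q : ℤ) = ((q : ℤ) ^ 2 + q + 1) ^ 2 := by
  rw [tau3]; push_cast; rfl
theorem cmZ1 (h : 0 < q) : (cm 1 q : ℤ) = (q : ℤ) * (q ^ 2 - 1) * (q + 1) := by
  rw [cm1]; push_cast [castP h]; rfl
theorem cmZ3 (h : 0 < q) : (cm 3 q : ℤ) = (q : ℤ) * (q ^ 2 - 1) * (q ^ 3 + 1) := by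
  rw [cm3]; push_cast [castP h]; rfl

theorem Par.two_le (h : Par k q) : 2 ≤ q := by omega

theorem Tor.le_tau (h : Tor k q n) : n ≤ tau k q := by
  have h1 : ∀ j, q ^ j - 1 ≤ q ^ j + 1 := fun j => by omega
  have h2 : q - 1 ≤ q + 1 := by omega
  have h3 : (q ^ 3 + 1) * (q + 1) ≤ (q ^ 2 + q + 1) ^ 2 := by nlinarith [Nat.zero_le (q ^ 3), Nat.zero_le (q ^ 2)]
  rcases h with ⟨rfl, h⟩ | ⟨rfl, h⟩
  · rw [tau1]
    rcases h with rfl | rfl | rfl | rfl | rfl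
    · exact Nat.pow_le_pow_left h2 2
    · rfl
    · exact (Nat.sub_le _ _).trans (Nat.pow_le_pow_left q.le_succ 2)
    · nlinarith
    · nlinarith [Nat.sub_le (q ^ 2) q]
  · rw [tau3]
    rcases h with rfl | rfl | rfl | rfl | rfl | rfl | rfl
    · exact (Nat.mul_le_mul (h1 3) h2).trans h3
    · exact (Nat.mul_le_mul (h1 3) le_rfl).trans h3
    · exact (Nat.mul_le_mul le_rfl h2).trans h3
    · exact h3
    · rfl
    · exact Nat.pow_le_pow_left (by omega) 2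
    · nlinarith [Nat.sub_le (q ^ 4) (q ^ 2), Nat.zero_le (q ^ 3), Nat.zero_le (q ^ 2)]

theorem tau_le_cm (h : Par k q) : tau k q ≤ cm k q := by
  rcases h with ⟨rfl, h⟩ | ⟨rfl, h⟩ <;> obtain ⟨a, rfl⟩ := Nat.exists_eq_add_of_le' h <;> zify
  · rw [tauZ1, cmZ1 (by omega), ← sub_nonneg]; push_cast; ring_nf; positivity
  · rw [tauZ3, cmZ3 (by omega), ← sub_nonneg]; push_cast; ring_nf; positivity

/-- `τ³ w τ ≤ |T|` -/
theorem num_reg (h : Par k q) : tau k q ^ 3 * (ww k * tau k q) ≤ ord k q := by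
  rcases h with ⟨rfl, h⟩ | ⟨rfl, h⟩ <;> obtain ⟨a, rfl⟩ := Nat.exists_eq_add_of_le' h <;> zify
  · rw [tauZ1, ordZ1 (by omega), ww1, ← sub_nonneg]; push_cast; ring_nf; positivity
  · rw [tauZ3, ordZ3 (by omega), ww3, ← sub_nonneg]; push_cast; ring_nf; positivity

/-- `(6 τ)³ q^(4 (k + 1)) ≤ 20³ |T|` -/
theorem num_big (h : Par k q) : (6 * tau k q) ^ 3 * q ^ (4 * (k + 1)) ≤ 20 ^ 3 * ord k q := by
  rcases h with ⟨rfl, h⟩ | ⟨rfl, h⟩ <;> obtain ⟨a, rfl⟩ := Nat.exists_eq_add_of_le' h <;> zify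
  · rw [tauZ1, ordZ1 (by omega), ← sub_nonneg]; push_cast; ring_nf; positivity
  · rw [tauZ3, ordZ3 (by omega), ← sub_nonneg]; push_cast; ring_nf; positivity

/-- `cm³ 24 τ ≤ |T|` for `³D₄` -/
theorem num_cm (h : 2 ≤ q) : cm 3 q ^ 3 * (24 * tau 3 q) ≤ ord 3 q := by
  obtain ⟨a, rfl⟩ := Nat.exists_eq_add_of_le' h
  zify
  rw [tauZ3, ordZ3 (by omega), cmZ3 (by omega), ← sub_nonneg]; push_cast; ring_nf; positivity

/-- `cm³ q⁹ ≤ |T|`, with room `q - 1`, for `³D₄` -/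
theorem num_cm9 (h : 2 ≤ q) : cm 3 q ^ 3 * (q ^ 9 * (q - 1)) ≤ ord 3 q := by
  obtain ⟨a, rfl⟩ := Nat.exists_eq_add_of_le' h
  zify
  rw [ordZ3 (by omega), cmZ3 (by omega), show a + 2 - 1 = a + 1 from rfl, ← sub_nonneg]; push_cast; ring_nf; positivity

theorem num_tau1 (h : 3 ≤ q) : tau 1 q ^ 3 * q ^ 6 ≤ ord 1 q := by
  obtain ⟨a, rfl⟩ := Nat.exists_eq_add_of_le' h
  zify
  rw [tauZ1, ordZ1 (by omega), ← sub_nonneg]; push_cast; ring_nf; positivity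

theorem num_tau3 (h : 2 ≤ q) : tau 3 q ^ 3 * q ^ 10 ≤ ord 3 q := by
  obtain ⟨a, rfl⟩ := Nat.exists_eq_add_of_le' h
  zify
  rw [tauZ3, ordZ3 (by omega), ← sub_nonneg]; push_cast; ring_nf; positivity

/-- the `p`-part of the order -/
theorem ord_eq (h : Par k q) : ∃ m, ord k q = q ^ (3 * (k + 1)) * m ∧ m.Coprime q ∧
    ∀ r : ℕ, r.Prime → r ∣ m → r ∣ q ^ (3 * (k + 1)) - 1 := by
  have h0 : 0 < q := by omega
  have h1 : ∀ j, 0 < j → (q ^ j - 1).Coprime q := fun j hj => by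
    have h2 : (q ^ j - 1).Coprime (q ^ j) := by
      conv_rhs => rw [← Nat.sub_add_cancel (Nat.one_le_pow j q h0)]
      exact Nat.coprime_self_add_right.2 (Nat.coprime_one_right _)
    exact h2.coprime_dvd_right (dvd_pow_self q hj.ne')
  have h2 : ∀ i j, q ^ i - 1 ∣ q ^ (i * j) - 1 := fun i j => by
    rw [pow_mul]
    exact Nat.sub_one_dvd_pow_sub_one _ _
  rcases h with ⟨rfl, -⟩ | ⟨rfl, -⟩
  · refine ⟨(q ^ 2 - 1) * (q ^ 6 - 1), by rw [ord1, mul_assoc], Nat.Coprime.mul_left (h1 2 two_pos) (h1 6 (by decide)),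
      fun r hr h => ?_⟩
    exact ((Nat.Prime.dvd_mul hr).1 h).elim (fun k => k.trans (h2 2 3)) id
  · have h3 : q ^ 12 - 1 = (q ^ 8 + q ^ 4 + 1) * (q ^ 4 - 1) := by
      zify [Nat.one_le_pow 12 q h0, Nat.one_le_pow 4 q h0]
      ring
    refine ⟨(q ^ 2 - 1) * (q ^ 6 - 1) * (q ^ 8 + q ^ 4 + 1), by rw [ord3]; ring,
      Nat.Coprime.mul_left (Nat.Coprime.mul_left (h1 2 two_pos) (h1 6 (by decide)))
        ((h1 12 (by decide)).coprime_dvd_left ⟨_, h3⟩), fun r hr h => ?_⟩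
    rcases (Nat.Prime.dvd_mul hr).1 h with k | k
    · exact ((Nat.Prime.dvd_mul hr).1 k).elim (fun k => k.trans (h2 2 6)) fun k => k.trans (h2 6 2)
    · exact k.trans ⟨_, h3⟩

end Cfsg.Agent.N2.G2
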