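import Cfsg.Agent.N2.G2.Tri
import Cfsg.Agent.N2.G2.Num
import Cfsg.Agent.N2.D4m.Up

/-!
# N2, `G₂(q)` and `³D₄(q)`: consequences of the sheet and the criteria (helper9)
-/

set_option autoImplicit false
set_option linter.unusedSectionVars false

namespace Cfsg.Agent.N2.G2

open Subgroup Cfsg Cfsg.Agent.FP3 Cfsg.Agent.N2C.N4
open Cfsg.Agent.SB.Low (EA Nz Cz)

/-- an element of order `r` is conjugate to a power which is neither `x` nor `x⁻¹` -/
def Fu (S : Type*) [Group S] (r : ℕ) : Prop := ∃ x : S, orderOf x = r ∧ ∃ y ∈ zpowers x, IsConj x y ∧ y ≠ x ∧ y ≠ x⁻¹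

theorem Fu.map {S S' : Type*} [Group S] [Group S'] (f : S →* S') (hf : Function.Injective f) {r : ℕ} (h : Fu S r) : Fu S' r := by
  obtain ⟨x, h1, _, ⟨i, rfl⟩, h2, h3, h4⟩ := h
  exact ⟨f x, (orderOf_injective f hf x).trans h1, f (x ^ i), ⟨i, (map_zpow f x i).symm⟩, f.map_isConj h2,
    fun k => h3 (hf k), fun k => h4 (hf (k.trans (map_inv f x).symm))⟩

theorem norm_le_two {S : Type*} [Group S] [Finite S] {x : S} (h : ∀ y ∈ zpowers x, IsConj x y → y = x ∨ y = x⁻¹) :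
    Nat.card (normalizer (zpowers x : Set S)) ≤ 2 * cn x :=
  card_norm_le ((Set.ncard_le_ncard (t := {x, x⁻¹}) fun y hy => h y hy.1 hy.2).trans
    ((Set.ncard_insert_le _ _).trans (by rw [Set.ncard_singleton])))

theorem fu_of_norm {S : Type*} [Group S] [Finite S] {x : S} (h : 2 * cn x < Nat.card (normalizer (zpowers x : Set S))) :
    Fu S (orderOf x) := by
  by_contra k
  refine h.not_ge (norm_le_two fun y h1 h2 => ?_)
  by_contra k'
  exact k ⟨x, rfl, y, h1, h2, fun e => k' (Or.inl e), fun e => k' (Or.inr e)⟩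

theorem fu_of_pow {S : Type*} [Group S] {x : S} {r j : ℕ} (h : orderOf x = r) (hc : IsConj x (x ^ j))
    (h1 : j % r ≠ 1 % r) (h2 : (j + 1) % r ≠ 0) : Fu S r := by
  refine ⟨x, h, x ^ j, ⟨j, zpow_natCast x j⟩, hc, fun k => h1 ?_, fun k => h2 ?_⟩
  · rw [← h]
    exact pow_eq_pow_iff_modEq.1 (k.trans (pow_one x).symm)
  · rw [← h]
    exact Nat.mod_eq_zero_of_dvd (orderOf_dvd_of_pow_eq_one (by rw [pow_succ, k, inv_mul_cancel]))

/-- the normaliser of a cyclic group of odd prime power order -/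
theorem norm_le_six {S : Type*} [Group S] [Finite S] {x : S} {r a : ℕ} (hr : r.Prime) (h2 : r ≠ 2) (hx : orderOf x = r ^ a)
    (h : ∀ g ∈ normalizer (zpowers x : Set S), g ^ 6 * x = x * g ^ 6 ∨ g ^ 4 * x = x * g ^ 4) :
    Nat.card (normalizer (zpowers x : Set S)) ≤ 6 * cn x := by
  let f := (zpowers x).normalizerMonoidHom
  have h1 : IsCyclic (MulAut (zpowers x)) := by
    have := ZMod.isCyclic_units_of_prime_pow r hr h2 a
    rw [← hx, ← Nat.card_zpowers] at this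
    exact isCyclic_of_surjective _ (IsCyclic.mulAutMulEquiv (zpowers x)).symm.surjective
  have h3 : ∀ g : normalizer (zpowers x : Set S), f g = 1 ↔ (g : S) * x = x * g := fun g => by
    refine ⟨fun k => ?_, fun k => MulEquiv.ext ?_⟩
    · have h4 := congrArg Subtype.val (DFunLike.congr_fun k ⟨x, mem_zpowers x⟩)
      exact mul_inv_eq_iff_eq_mul.1 h4
    · rintro ⟨_, i, rfl⟩
      refine Subtype.ext ?_
      show (g : S) * x ^ i * (g : S)⁻¹ = x ^ i
      rw [((show Commute (g : S) x from k).zpow_right i).eq, mul_inv_cancel_right]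
  obtain ⟨⟨_, g, rfl⟩, hg⟩ := IsCyclic.exists_generator (α := f.range)
  have h4 : Nat.card f.range ≤ 6 := by
    rw [← orderOf_eq_card_of_forall_mem_zpowers hg, ← orderOf_coe]
    rcases h g g.2 with k | k
    · exact Nat.le_of_dvd (by decide) (orderOf_dvd_of_pow_eq_one ((map_pow f g 6).symm.trans ((h3 _).2 k)))
    · exact (Nat.le_of_dvd (by decide) (orderOf_dvd_of_pow_eq_one ((map_pow f g 4).symm.trans ((h3 _).2 k)))).trans (by decide)
  rw [← f.ker.index_mul_card, index_ker]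
  exact Nat.mul_le_mul h4 (Nat.card_le_card_of_injective
    (fun c => (⟨c.1.1, mem_centralizer_singleton_iff.2 ((h3 _).1 c.2)⟩ : centralizer {x}))
    fun _ _ e => Subtype.ext (Subtype.ext (Subtype.mk.inj e)))

section sheet

variable {p k q : ℕ} {T : Type} [Group T] [Finite T] [IsSimpleGroup T] {d : T → ℕ} {A S : Subgroup T}
  {Γ : Subgroup (MulAut T)}

theorem Sh.d_conj (h : Sh p k q T d) {x y : T} (hc : IsConj x y) : d y = d x := by
  obtain ⟨g, rfl⟩ := isConj_iff.1 hc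
  exact h.conj x g

theorem Sh.d_le (h : Sh p k q T d) {x y : T} (hy : y ∈ zpowers x) : d x ≤ d y := by
  obtain ⟨n, rfl⟩ := (mem_powers_iff_mem_zpowers.2 hy : y ∈ Submonoid.powers x)
  exact h.pow x n

theorem Sh.d_eq (h : Sh p k q T d) {x y : T} (hy : y ∈ zpowers x) (ho : orderOf y = orderOf x) : d y = d x :=
  le_antisymm (h.d_le (zpowers_eq_of_order hy ho ▸ mem_zpowers x)) (h.d_le hy)

/-- `x` is a power of `x y` if the orders are coprime -/
theorem mem_zpowers_mul {x y : T} (hc : x * y = y * x) (ho : (orderOf x).Coprime (orderOf y)) : x ∈ zpowers (x * y) := by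
  obtain ⟨n, h1, h2⟩ := Nat.chineseRemainder ho 1 0
  refine ⟨n, ?_⟩
  show (x * y) ^ (n : ℤ) = x
  rw [zpow_natCast, (show Commute x y from hc).mul_pow, pow_eq_pow_iff_modEq.2 h1, pow_eq_pow_iff_modEq.2 h2, pow_one,
    pow_zero, mul_one]

theorem Sh.le_d (h : Sh p k q T d) {x : T} (ho : (orderOf x).Coprime p) (h1 : x ≠ 1) : k + 1 ≤ d x := by
  rcases h.cls x ho h1 with e | e | e | e <;> omega

theorem Sh.cn_reg (h : Sh p k q T d) {x : T} (ho : (orderOf x).Coprime p) (hd : d x = k + 1) : cn x ≤ tau k q :=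
  (h.reg x ho hd).2.2.1.le_tau

theorem Sh.cn_mild (h : Sh p k q T d) {x : T} (ho : (orderOf x).Coprime p) (hd : d x = k + 3) : cn x ≤ cm k q := by
  obtain ⟨m, h1, h2, -⟩ := h.mild x ho hd
  rw [h2, cm]
  exact Nat.mul_le_mul_left _ (by omega)

/-- regular or mild -/
theorem Sh.reg_or_mild (h : Sh p k q T d) {x : T} (ho : (orderOf x).Coprime p) (h1 : x ≠ 1) (hd : d x ≤ k + 4) :
    d x = k + 1 ∨ d x = k + 3 := by
  have := h.par
  rcases h.cls x ho h1 with e | e | e | e <;> omega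

theorem Sh.cn_le_cm (h : Sh p k q T d) {x : T} (ho : (orderOf x).Coprime p) (h1 : x ≠ 1) (hd : d x ≤ k + 4) :
    cn x ≤ cm k q :=
  (h.reg_or_mild ho h1 hd).elim (fun e => (h.cn_reg ho e).trans (tau_le_cm h.par)) (h.cn_mild ho)

theorem Sh.reg_of_conj (h : Sh p k q T d) {x y : T} (ho : (orderOf x).Coprime p) (hy : y ∈ zpowers x) (hc : IsConj x y)
    (h1 : y ≠ x) (h2 : y ≠ x⁻¹) : d x = k + 1 := by
  by_contra e
  exact (h.pm x ho e y hy hc).elim h1 h2

theorem Sh.norm_le (h : Sh p k q T d) {x : T} (ho : (orderOf x).Coprime p) (hd : d x ≠ k + 1) :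
    Nat.card (Nz (zpowers x)) ≤ 2 * cn x := norm_le_two (h.pm x ho hd)

theorem Sh.norm_six (h : Sh p k q T d) {x : T} {r a : ℕ} (hr : r.Prime) (h2 : r ≠ 2) (hx : orderOf x = r ^ a)
    (ho : (orderOf x).Coprime p) (hd : d x = k + 1) : Nat.card (Nz (zpowers x)) ≤ 6 * tau k q :=
  (norm_le_six hr h2 hx fun g hg => ((h.reg x ho hd).2.2.2.2 g hg).imp id And.right).trans
    (Nat.mul_le_mul_left _ (h.cn_reg ho hd))

/-- `|N⟨x⟩| ≤ 2 cm` or `≤ w τ` -/
theorem Sh.norm_cm (h : Sh p k q T d) {x : T} (ho : (orderOf x).Coprime p) (h1 : x ≠ 1) (hd : d x ≤ k + 4) :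
    Nat.card (Nz (zpowers x)) ≤ max (2 * cm k q) (ww k * tau k q) := by
  rcases h.reg_or_mild ho h1 hd with e | e
  · exact le_max_of_le_right ((h.reg x ho e).2.2.2.1.trans (Nat.mul_le_mul_left _ (h.cn_reg ho e)))
  · exact le_max_of_le_left ((h.norm_le ho (by omega)).trans (Nat.mul_le_mul_left _ (h.cn_mild ho e)))

theorem Sh.good_reg (h : Sh p k q T d) {x : T} (hx : x ∈ A) (ho : (orderOf x).Coprime p) (hd : d x = k + 1) {n : ℕ}
    (hn : Nat.card A ≤ n) (hi : tau k q ^ 3 * n ≤ ord k q) : Good A :=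
  good_of_cn hx (h.cn_reg ho hd) (h.card ▸ (Nat.mul_le_mul_left _ hn).trans hi)

theorem Sh.good_cm (h : Sh p k q T d) {x : T} (hx : x ∈ A) (ho : (orderOf x).Coprime p) (h1 : x ≠ 1) (hd : d x ≤ k + 4)
    {n : ℕ} (hn : Nat.card A ≤ n) (hi : cm k q ^ 3 * n ≤ ord k q) : Good A :=
  good_of_cn hx (h.cn_le_cm ho h1 hd) (h.card ▸ (Nat.mul_le_mul_left _ hn).trans hi)

/-- an element of `A` which is conjugate to a power -/
theorem Sh.good_fu (h : Sh p k q T d) {r : ℕ} (hS : S ≤ A) (hf : Fu S r) (ho : r.Coprime p) {n : ℕ}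
    (hn : Nat.card A ≤ n) (hi : tau k q ^ 3 * n ≤ ord k q) : Good A := by
  obtain ⟨x, h1, _, ⟨i, rfl⟩, h2, h3, h4⟩ := hf
  have h5 : (orderOf (x : T)).Coprime p := by rwa [orderOf_coe, h1]
  exact h.good_reg (hS x.2) h5 (h.reg_of_conj h5 (y := (x ^ i : S)) ⟨i, rfl⟩ (S.subtype.map_isConj h2)
    (fun e => h3 (Subtype.ext e)) fun e => h4 (Subtype.ext e)) hn hi

/-- all elements of order `r` are regular -/
theorem Sh.reg_of_fu (h : Sh p k q T d) {r M : ℕ} (hf : Fu S r) (hc : Cy1 S r M) (ho : r.Coprime p) {y : T} (hy : y ∈ S)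
    (h0 : orderOf y = r) : d y = k + 1 := by
  obtain ⟨x, h1, _, ⟨i, rfl⟩, h2, h3, h4⟩ := hf
  obtain ⟨z, h5, h6, -⟩ := hc
  have h7 : ∀ u : S, orderOf u = r → d u = d z := fun u hu => by
    obtain ⟨g, j, hg⟩ := h6 u hu
    have h8 : ((g : T)⁻¹ * u * (g : T)⁻¹⁻¹) ∈ zpowers (z : T) := ⟨j, by rw [inv_inv]; exact congrArg Subtype.val hg⟩
    rw [← h.conj u (g : T)⁻¹]
    exact h.d_eq h8 (by rw [inv_inv, orderOf_cj, orderOf_coe, orderOf_coe, hu, h5])
  rw [h7 ⟨y, hy⟩ (by rwa [orderOf_mk]), ← h7 x h1]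
  exact h.reg_of_conj (by rwa [orderOf_coe, h1]) (y := (x ^ i : S)) ⟨i, rfl⟩ (S.subtype.map_isConj h2)
    (fun e => h3 (Subtype.ext e)) fun e => h4 (Subtype.ext e)

/-- the criterion with an arbitrary bound for the normalisers -/
theorem Sim.good (C : Cx p A Γ) (hS : Sim A Γ S) {o r M c : ℕ} (ho : Nat.card (MulAut S) ∣ o * Nat.card S)
    (hr : r.Coprime o) (hc : Cy1 S r M) (hM : 0 < M) (hx : ∀ x ∈ S, orderOf x = r → Nat.card (Nz (zpowers x)) ≤ c)
    (hi : c ^ 3 * Nat.card S ≤ M ^ 3 * Nat.card T) : Good A :=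
  good_of_cy1 hS.le (hS.norm C).ge (fun t _ => hS.cent t) ho hr hc hM hx hi

/-- **the criterion** -/
theorem crit_cy (h : Sh p k q T d) (C : Cx p A Γ) (hS : Sim A Γ S) {o r M : ℕ} (ho : Nat.card (MulAut S) ∣ o * Nat.card S)
    (hr : r.Prime) (h2 : r ≠ 2) (hp : r ≠ p) (hro : r.Coprime o) (hc : Cy1 S r M) (hf : Fu S r) (hM : 0 < M)
    (hi : (6 * tau k q) ^ 3 * Nat.card S ≤ M ^ 3 * ord k q) : Good A := by
  have h3 : r.Coprime p := (Nat.coprime_primes hr h.prime).2 hp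
  exact hS.good C ho hro hc hM (fun x hx e => h.norm_six hr h2 (e.trans (pow_one r).symm) (e ▸ h3)
    (h.reg_of_fu hf hc h3 hx e)) (h.card ▸ hi)

/-- **the criterion**, `M ≥ 20` and `|S| ≤ q⁸`, `q¹⁶` -/
theorem crit_cy' (h : Sh p k q T d) (C : Cx p A Γ) (hS : Sim A Γ S) {o r M : ℕ} (ho : Nat.card (MulAut S) ∣ o * Nat.card S)
    (hr : r.Prime) (h2 : r ≠ 2) (hp : r ≠ p) (hro : r.Coprime o) (hc : Cy1 S r M) (hf : Fu S r) (hM : 20 ≤ M)
    (hi : Nat.card S ≤ q ^ (4 * (k + 1))) : Good A :=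
  crit_cy h C hS ho hr h2 hp hro hc hf (by omega) (((Nat.mul_le_mul_left _ hi).trans (num_big h.par)).trans
    (Nat.mul_le_mul_right _ (Nat.pow_le_pow_left hM 3)))

/-- Lagrange -/
theorem Sh.lag (h : Sh p k q T d) {r : ℕ} (hr : r.Prime) (hp : r ≠ p) (hd : r ∣ Nat.card T) : r ∣ q ^ (3 * (k + 1)) - 1 := by
  obtain ⟨m, h1, -, h2⟩ := ord_eq h.par
  obtain ⟨f, -, hf⟩ := h.pw
  rw [h.card, h1] at hd
  refine h2 r hr (((Nat.Prime.dvd_mul hr).1 hd).resolve_left fun e => hp ?_)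
  exact (Nat.prime_dvd_prime_iff_eq hr h.prime).1 (hr.dvd_of_dvd_pow (hf ▸ hr.dvd_of_dvd_pow e))

/-- `A` does not contain a Sylow `p`-subgroup -/
theorem Sh.not_dvd (h : Sh p k q T d) (C : Cx p A Γ) : ¬ q ^ (3 * (k + 1)) ∣ Nat.card A := fun e => by
  obtain ⟨m, h1, h2, -⟩ := ord_eq h.par
  obtain ⟨f, h0, hf⟩ := h.pw
  have h3 := Nat.mul_dvd_mul C.idx e
  rw [A.index_mul_card, h.card, h1, mul_comm p] at h3
  have h4 := Nat.dvd_of_mul_dvd_mul_left (pow_pos (by have := h.par; omega) _) h3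
  exact h.prime.one_lt.ne' (Nat.eq_one_of_dvd_coprimes h2 h4 (hf ▸ dvd_pow_self p h0.ne'))

/-- **the size of a subgroup of Lie type in the defining characteristic** -/
theorem own_size (h : Sh p k q T d) (C : Cx p A Γ) (hS : S ≤ A) {r E D : ℕ} (hr : r.Prime) (hp : r ≠ p)
    (hd : r ∣ Nat.card S) (hE : ∀ m, r ∣ p ^ m - 1 → E ∣ m) (hD : Nat.card S ≤ p ^ D)
    (h3 : 3 * D ≤ 4 * E ∨ (p ^ E ∣ Nat.card S ∧ 3 * D ≤ 8 * E)) : Nat.card S ≤ q ^ (4 * (k + 1)) := by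
  obtain ⟨f, h0, hf⟩ := h.pw
  have h1 := h.lag hr hp (hd.trans S.card_subgroup_dvd_card)
  have h2 := h.not_dvd C
  rw [hf, ← pow_mul] at h1 h2 ⊢
  obtain ⟨c, hc⟩ := hE _ h1
  refine hD.trans (Nat.pow_le_pow_right h.prime.pos ?_)
  have h4 : 0 < f * (3 * (k + 1)) := by positivity
  rcases c with _ | _ | c
  · omega
  · rcases h3 with e | ⟨e, -⟩
    · nlinarith
    · exact absurd (by rw [hc, zero_add, mul_one]; exact e.trans (card_dvd_of_le hS)) h2
  · rcases h3 with e | ⟨-, e⟩ <;> nlinarith [Nat.zero_le (E * c)]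

/-- automisers have exponent dividing `6` or `4` -/
theorem Sh.no_aut (h : Sh p k q T d) {x : T} {r j : ℕ} (hx : orderOf x = r) (ho : r.Coprime p) (hc : IsConj x (x ^ j))
    (h6 : j ^ 6 % r ≠ 1 % r) (h4 : k = 3 → j ^ 4 % r ≠ 1 % r) : False := by
  obtain ⟨g, hg⟩ := isConj_iff.1 hc
  have h1 : ∀ n : ℕ, g ^ n * x * (g ^ n)⁻¹ = x ^ j ^ n := fun n => by
    induction n with
    | zero => simp
    | succ n ih =>
      calc g ^ (n + 1) * x * (g ^ (n + 1))⁻¹ = g ^ n * (g * x * g⁻¹) * (g ^ n)⁻¹ := by rw [pow_succ]; group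
        _ = _ := by rw [hg, ← conj_pow, ih, ← pow_mul, pow_succ]
  have h2 : ∀ n : ℕ, g ^ n * x = x * g ^ n → j ^ n % r = 1 % r := fun n e => by
    have h3 := h1 n
    rw [e, mul_inv_cancel_right] at h3
    rw [← hx]
    exact pow_eq_pow_iff_modEq.1 (h3.symm.trans (pow_one x).symm)
  have h5 : d x = k + 1 := h.reg_of_conj (hx ▸ ho) ⟨j, zpow_natCast x j⟩ hc
    (fun e => h6 (h2 6 ((show Commute g x from mul_inv_eq_iff_eq_mul.1 (hg.trans e)).pow_left 6))) fun e => h6 (h2 6 (by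
      have h7 : g ^ 2 * x = x * g ^ 2 := by
        have h8 := hg.trans e
        refine mul_inv_eq_iff_eq_mul.1 ?_
        calc g ^ 2 * x * (g ^ 2)⁻¹ = g * (g * x * g⁻¹) * g⁻¹ := by rw [pow_two]; group
          _ = g * x⁻¹ * g⁻¹ := by rw [h8]
          _ = (g * x * g⁻¹)⁻¹ := by group
          _ = x := by rw [h8, inv_inv]
      rw [show g ^ 6 = (g ^ 2) ^ 3 by rw [← pow_mul]]
      exact (show Commute (g ^ 2) x from h7).pow_left 3))
  have h9 : g ∈ Nz (zpowers x) := mem_normalizer_fintype (by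
    rintro _ ⟨i, rfl⟩
    show g * x ^ i * g⁻¹ ∈ zpowers x
    rw [← conj_zpow, hg]
    exact zpow_mem (pow_mem (mem_zpowers x) j) i)
  rcases (h.reg x (hx ▸ ho) h5).2.2.2.2 g h9 with e | ⟨e, e'⟩
  exacts [h6 (h2 6 e), h4 e (h2 4 e')]

/-- an element of order prime to `6` which normalises `r × r` centralises it -/
theorem Sh.norm_rr (h : Sh p k q T d) {r : ℕ} {E : Subgroup T} (hE : EA r E) (hp : r ≠ p) (hc : Nat.card E = r ^ 2) {g : T}
    (hg : g ∈ Nz E) (ho : (orderOf g).Coprime 6) : g ∈ Cz E := by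
  obtain ⟨B, -, h1, -, -, -, h2, h3, -⟩ := h.tor r E hE hp hc
  have : (B.subgroupOf (Nz E)).Normal := ⟨fun b hb n => (mem_normalizer_iff.1 (h2 n.2) b).1 hb⟩
  have h4 : g ^ 192 ∈ B := by
    obtain ⟨c, e⟩ := h3
    rw [e, pow_mul]
    exact pow_mem (pow_index_mem (H := B.subgroupOf (Nz E)) ⟨g, hg⟩) c
  have h5 : (192 : ℕ).Coprime (orderOf g) :=
    (Nat.Coprime.pow_left 6 ho.symm).coprime_dvd_left (by decide)
  exact h1 (zpowers_le.2 h4 (mem_zpowers_pow_iff.2 h5))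

/-- no Heisenberg group for `r ≥ 5`, `r ≠ p` -/
theorem Sh.no_heis (h : Sh p k q T d) {r : ℕ} (hr : r.Prime) (h5 : 5 ≤ r) (hp : r ≠ p) {a b z : T} (ha : a ^ r = 1)
    (hb : b ^ r = 1) (hz : z ^ r = 1) (h1 : z ≠ 1) (hab : b * a * b⁻¹ = a * z) (haz : a * z = z * a) (hbz : b * z = z * b) :
    False := by
  have := Fact.mk hr
  have h2 : a ∉ zpowers z := by
    rintro ⟨i, rfl⟩
    have h3 : b * z ^ i * b⁻¹ = z ^ i := by rw [((show Commute b z from hbz).zpow_right i).eq, mul_inv_cancel_right]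
    exact h1 (mul_eq_left.1 (hab.symm.trans h3))
  have h3 : a ≠ 1 := fun e => h2 (e ▸ one_mem _)
  let E := zpowers a ⊔ zpowers z
  have hm : ∀ x ∈ E, ∃ i j : ℤ, x = a ^ i * z ^ j := fun x hx => by
    have h4 : x ∈ ((zpowers a ⊔ zpowers z : Subgroup T) : Set T) := hx
    rw [coe_mul_of_right_le_normalizer_left _ _ ((zpowers_le.2 (mem_centralizer_iff.2 (by
      rintro _ ⟨i, rfl⟩; exact ((show Commute a z from haz).zpow_left i).eq))).trans (centralizer_le_normalizer _))] at h4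
    obtain ⟨_, ⟨i, rfl⟩, _, ⟨j, rfl⟩, e⟩ := h4
    exact ⟨i, j, e.symm⟩
  have hc : Commute a z := haz
  have hE : EA r E := ⟨hr, fun e => h3 (mem_bot.1 (e ▸ mem_sup_left (mem_zpowers a))), fun x hx => by
      obtain ⟨i, j, rfl⟩ := hm x hx
      rw [(hc.zpow_zpow i j).mul_pow, ← zpow_natCast, ← zpow_natCast, ← zpow_mul, ← zpow_mul, mul_comm i, mul_comm j,
        zpow_mul, zpow_mul, zpow_natCast, zpow_natCast, ha, hz, one_zpow, one_zpow, one_mul],
    fun x hx y hy => by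
      obtain ⟨i, j, rfl⟩ := hm x hx
      obtain ⟨i', j', rfl⟩ := hm y hy
      exact (((Commute.refl a).zpow_zpow i i').mul_right (hc.zpow_zpow i j')).mul_left
        ((hc.symm.zpow_zpow j i').mul_right ((Commute.refl z).zpow_zpow j j'))⟩
  have h6 : Nat.card E = r ^ 2 := by
    obtain ⟨n, hn⟩ := IsPGroup.iff_card.1 (ea_pgroup hE)
    have h7 : Nat.card E ≤ r ^ 2 := h.rk r hr (by omega) hp E ⟨⟨fun x y => Subtype.ext (hE.comm _ x.2 _ y.2)⟩⟩ hE.pow
    have h8 : r < Nat.card E := by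
      rw [← orderOf_eq_prime hz h1, ← Nat.card_zpowers]
      exact (card_le_of_le le_sup_right).lt_of_ne fun e =>
        h2 (eq_of_le_of_card_ge le_sup_right e.ge ▸ mem_sup_left (mem_zpowers a))
    rw [hn] at h7 h8 ⊢
    have h9 := (Nat.pow_le_pow_iff_right hr.one_lt).1 h7
    have h10 := (Nat.pow_lt_pow_iff_right hr.one_lt).1 ((pow_one r).symm ▸ h8 : r ^ 1 < r ^ n)
    rw [show n = 2 by omega]
  have h7 : b ∈ Nz E := mem_normalizer_fintype fun x hx => by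
    obtain ⟨i, j, rfl⟩ := hm x hx
    have h8 : b * (a ^ i * z ^ j) * b⁻¹ = (b * a * b⁻¹) ^ i * (b * z * b⁻¹) ^ j := by rw [conj_zpow, conj_zpow]; group
    show _ ∈ E
    rw [h8, hab, hbz, mul_inv_cancel_right]
    exact mul_mem (zpow_mem (mul_mem (mem_sup_left (mem_zpowers a)) (mem_sup_right (mem_zpowers z))) i)
      (zpow_mem (mem_sup_right (mem_zpowers z)) j)
  have h8 := h.norm_rr hE hp h6 h7 (((Nat.Prime.coprime_iff_not_dvd hr).2 fun e => by
    have := Nat.le_of_dvd (by decide) e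
    interval_cases r <;> simp_all (config := {decide := true})).coprime_dvd_left (orderOf_dvd_of_pow_eq_one hb))
  have h9 := h8 a (mem_sup_left (mem_zpowers a))
  rw [← h9, mul_inv_cancel_right] at hab
  exact h1 (mul_eq_left.1 hab.symm)

end sheet

end Cfsg.Agent.N2.G2
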