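import Cfsg.Agent.N2.Tool
import Cfsg.Agent.H316.U6Model
import Cfsg.Agent.DS.Nt.Defs
import Cfsg.Agent.SB.Low.Defs
import Cfsg.Prelude.Def_Quasithin
import Cfsg.Prelude.Def_Spor_ON

/-!
# N2 (S3519), the groups `G₂(q)` (`k = 1`) and `³D₄(q)` (`k = 3`): interface (helper9)

Paper: `notes/N2/g2.md`.  `d x` is the dimension of the fixed space of `x` on the adjoint module (dimension `7 (k + 1)`).

* `Mod p k q T d` : the models; the sheets `ElA ElB ElL Lin Why U5` of facts and their boxes;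
* `Cx`, `Loc`, `Sim`, `Mul` : the frame on `T` itself; `On` : statements over the sheet `Sh`;
* boxes `BoxLocO BoxLoc2 BoxMul BoxList`, `BoxSim P`.
-/

set_option autoImplicit false
set_option linter.unusedVariables false

namespace Cfsg.Agent.N2.G2

open Subgroup Cfsg Cfsg.Lie Cfsg.Agent.FP3 Cfsg.Agent.H316.U6
open Cfsg.Agent.SB.Low (EA Nz Cz hpG2)

/-! ### numbers -/

/-- the order of the group -/
def ord (k q : ℕ) : ℕ :=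
  if k = 1 then q ^ 6 * (q ^ 2 - 1) * (q ^ 6 - 1) else q ^ 12 * (q ^ 2 - 1) * (q ^ 6 - 1) * (q ^ 8 + q ^ 4 + 1)

/-- the largest order of a maximal torus -/
def tau (k q : ℕ) : ℕ := if k = 1 then (q + 1) ^ 2 else (q ^ 2 + q + 1) ^ 2

/-- the largest order of `N(T) / T` -/
def ww (k : ℕ) : ℕ := if k = 1 then 12 else 24

/-- the largest order of a centraliser of type `A₁` -/
def cm (k q : ℕ) : ℕ := q * (q ^ 2 - 1) * (q ^ k + 1)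

/-- the orders of the maximal tori -/
def Tor (k q n : ℕ) : Prop :=
  (k = 1 ∧ (n = (q - 1) ^ 2 ∨ n = (q + 1) ^ 2 ∨ n = q ^ 2 - 1 ∨ n = q ^ 2 + q + 1 ∨ n = q ^ 2 - q + 1)) ∨
  (k = 3 ∧ (n = (q ^ 3 - 1) * (q - 1) ∨ n = (q ^ 3 - 1) * (q + 1) ∨ n = (q ^ 3 + 1) * (q - 1) ∨ n = (q ^ 3 + 1) * (q + 1) ∨
    n = (q ^ 2 + q + 1) ^ 2 ∨ n = (q ^ 2 - q + 1) ^ 2 ∨ n = q ^ 4 - q ^ 2 + 1))

/-- the centralisers of type `A₁³ T₁`, `A₂ T₂` in `³D₄(q)` have order `m n` and a cyclic centre of order `m` -/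
def Bd (q m n : ℕ) : Prop :=
  ((m = q - 1 ∨ m = q + 1) ∧ n = q ^ 3 * (q ^ 6 - 1)) ∨ (m = q ^ 2 + q + 1 ∧ n = q ^ 3 * (q ^ 2 - 1) * (q ^ 3 - 1)) ∨
    (m = q ^ 2 - q + 1 ∧ n = q ^ 3 * (q ^ 2 - 1) * (q ^ 3 + 1))

/-! ### the models and the sheets -/

/-- the two models -/
def Mod (p : ℕ) [Fact p.Prime] (k q : ℕ) (T : Type) [Group T] (d : T → ℕ) : Prop :=
  (k = 1 ∧ 3 ≤ q ∧ (∃ m : MData hpG2 p q T, m.dd = 1 ∧ m.g = AddEquiv.refl _ ∧ ∀ x, d x = DS.Nt.dd p (m.ι x)) ∧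
    ∃ (F : Type) (_ : Field F) (_ : Fintype F) (_ : CharP F p), Fintype.card F = q ∧ Nonempty (T ≃* chevG2.group F)) ∨
  (k = 3 ∧ IsPrimePow q ∧ (∃ m : MData Nodes.RGDTwD4.hp p q T, m.dd = 1 ∧ m.g = H720.TwFr.permE H720.TwFr.rho4 ∧
      ∀ x, d x = DS.Nt.dd p (m.ι x)) ∧
    ∃ (K : Type) (_ : Field K) (_ : Fintype K) (_ : CharP K p), Fintype.card K = q ^ 3 ∧ Nonempty (T ≃* twistedD4 K q))

section sheets

variable (p k q : ℕ) (T : Type) [Group T] (d : T → ℕ)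

/-- [A] tori and the Weyl group -/
structure ElA : Prop where
  conj : ∀ x g, d (g * x * g⁻¹) = d x
  pow : ∀ x (n : ℕ), d x ≤ d (x ^ n)
  cls : ∀ x, (orderOf x).Coprime p → x ≠ 1 →
    d x = k + 1 ∨ d x = k + 3 ∨ (d x = k + 7 ∧ (k = 1 → x ^ 3 = 1)) ∨ (d x = 3 * (k + 1) ∧ x ^ 2 = 1)
  inv : p ≠ 2 → ∀ x, orderOf x = 2 → d x = 3 * (k + 1)
  reg : ∀ x, (orderOf x).Coprime p → d x = k + 1 →
    (∀ a ∈ centralizer {x}, ∀ b ∈ centralizer {x}, a * b = b * a) ∧ (cn x).Coprime p ∧ Tor k q (cn x) ∧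
      Nat.card (Nz (zpowers x)) ≤ ww k * cn x ∧
      ∀ g ∈ Nz (zpowers x), g ^ 6 * x = x * g ^ 6 ∨ (k = 3 ∧ g ^ 4 * x = x * g ^ 4)
  pm : ∀ x, (orderOf x).Coprime p → d x ≠ k + 1 → ∀ y ∈ zpowers x, IsConj x y → y = x ∨ y = x⁻¹
  rk : ∀ r : ℕ, r.Prime → r ≠ 2 → r ≠ p → PRankLE r 2 T
  neg : ∀ r (E : Subgroup T), EA r E → r ≠ 2 → r ≠ p → ∃ g, ∀ x ∈ E, g * x * g⁻¹ = x⁻¹
  tor : ∀ r (E : Subgroup T), EA r E → r ≠ p → Nat.card E = r ^ 2 → ∃ B : Subgroup T, E ≤ B ∧ B ≤ Cz E ∧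
    (∀ a ∈ B, ∀ b ∈ B, a * b = b * a) ∧ (Nat.card B).Coprime p ∧ Tor k q (Nat.card B) ∧ Nz E ≤ Nz B ∧
      B.relIndex (Nz E) ∣ 192 ∧ B.relIndex (Nz E) ≤ ww k ∧ (r ≠ 2 → Cz E ≤ B) ∧
      ∀ g ∈ Cz E, g ^ 4 ∈ B
  nV : k = 1 → p ≠ 2 → ∀ V : Subgroup T, EA 2 V → Nat.card V = 4 → ∃ (n : ℕ) (B : Subgroup T), (n = q - 1 ∨ n = q + 1) ∧
    V ≤ B ∧ B ≤ Cz V ∧ (∀ a ∈ B, ∀ b ∈ B, a * b = b * a) ∧ Nat.card B = n ^ 2 ∧ Nat.card (Cz V) ≤ 2 * n ^ 2 ∧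
      Nat.card (Nz V) = 12 * n ^ 2
  g33 : k = 1 → p ≠ 3 → ∀ E : Subgroup T, EA 3 E → Nat.card E = 9 → ∃ e ∈ E, d e = 8 ∧ ∀ x ∈ E, d x = 8 → x ∈ zpowers e

/-- [B] the orders of the centralisers of the non-regular elements -/
structure ElB : Prop where
  mild : ∀ x, (orderOf x).Coprime p → d x = k + 3 →
    ∃ m, (m = q ^ k - 1 ∨ m = q ^ k + 1) ∧ cn x = q * (q ^ 2 - 1) * m ∧ x ^ m = 1
  bad1 : k = 1 → ∀ x, (orderOf x).Coprime p → d x = 8 →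
    ∃ m, (m = q ^ 3 - 1 ∧ 3 ∣ q - 1 ∨ m = q ^ 3 + 1 ∧ 3 ∣ q + 1) ∧ cn x = q ^ 3 * (q ^ 2 - 1) * m
  bad3 : k = 3 → ∀ x, (orderOf x).Coprime p → d x = 10 →
    ∃ m n z, Bd q m n ∧ cn x = m * n ∧ orderOf z = m ∧ x ∈ zpowers z ∧ d z = 10 ∧ cn z = cn x

/-- [L] facts from the library -/
structure ElL : Prop where
  par : k = 1 ∧ 3 ≤ q ∨ k = 3 ∧ 2 ≤ q
  pw : ∃ f, 0 < f ∧ q = p ^ f
  card : Nat.card T = ord k q
  one : p ≠ 2 → ∀ s t : T, orderOf s = 2 → orderOf t = 2 → IsConj s t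
  cyc : ∃ x : T, orderOf x = (q ^ k - 1) * (q + 1)
  invc : p ≠ 2 → ∀ z : T, orderOf z = 2 → cn z ≤ q * (q ^ 2 - 1) * (q ^ k * ((q ^ k) ^ 2 - 1))
  rk2 : p ≠ 2 → PRankLE 2 3 T
  eight : p ≠ 2 → ∀ E : Subgroup T, EA 2 E → Nat.card E = 8 → Cz E ≤ E
  mu : k = 3 → p = 2 → ∀ S : Subgroup T, IsSimpleGroup S → ¬ IsMulCommutative S → ∀ t : T, orderOf t = 2 →
    (∀ x ∈ S, x * t = t * x) → ∃ (F : Type) (_ : Field F) (_ : Fintype F) (_ : CharP F 2),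
      Nonempty (S ≃* Matrix.SpecialLinearGroup (Fin 2) F)

variable {p T}

/-- the elements of order prime to `2 p` which centralise a four-group of `S` -/
def O4 (p : ℕ) (S : Subgroup T) : Subgroup T :=
  Subgroup.closure {g | (orderOf g).Coprime (2 * p) ∧ ∃ V ≤ S, EA 2 V ∧ Nat.card V = 4 ∧ g ∈ Cz V}

/-- the elements with the same fixed space as a power which lies in `S` -/
def Zd (d : T → ℕ) (S : Subgroup T) : Subgroup T := Subgroup.closure {z | ∃ s ∈ S, s ∈ zpowers z ∧ d z = d s}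

/-- the derived group of the centraliser -/
def Mc (s : T) : Subgroup T := ⁅centralizer {s}, centralizer {s}⁆

variable (p T)

/-- [Lin] linear algebra on the adjoint module -/
structure Lin : Prop where
  sq : k = 3 → ∀ r (E : Subgroup T), EA r E → 5 ≤ r → r ≠ p → Nat.card E = r ^ 2 → ∃ x ∈ E, x ≠ 1 ∧ d x ≤ 6
  b3 : k = 1 → p ≠ 2 → ∀ V : Subgroup T, EA 2 V → Nat.card V = 4 → ∀ t ∈ Nz V, orderOf t = 3 → t ∉ Cz V → d t ≤ 6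
  perm7 : p ≠ 2 → ∀ E : Subgroup T, EA 2 E → Nat.card E = 8 → ∀ g ∈ Nz E, orderOf g = 7 → d g ≤ k + 1
  perm6 : p ≠ 2 → ∀ E : Subgroup T, EA 2 E → Nat.card E = 8 → ∀ t ∈ Nz E, orderOf t = 3 → ∀ a ∈ E, a ≠ 1 →
    t * a = a * t → d (t * a) ≤ k + 1
  scott8 : p ≠ 2 → ∀ E : Subgroup T, EA 2 E → Nat.card E = 8 → ∀ x y, E ≤ Subgroup.closure {x, y} →
    d x + d y + d (x * y) ≤ 7 * (k + 1)
  unip : ∀ x (j : ℕ), x ^ p ^ j = 1 → 7 * (k + 1) ≤ p ^ j * d x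

/-- [Sc] Scott's inequality in `³D₄(q)` -/
structure Sc : Prop where
  four : k = 3 → p ≠ 2 → ∀ x y, 28 < d x + d y + d (x * y) → Subgroup.closure {x, y} ⊔ O4 p (Subgroup.closure {x, y}) ≠ ⊤
  zed : k = 3 → p = 2 → ∀ x y, 30 < d x + d y + d (x * y) → Subgroup.closure {x, y} ⊔ Zd d (Subgroup.closure {x, y}) ≠ ⊤

/-- [Why] the long root subgroup `SL₂(q)` of `³D₄(q)`, `q ≥ 4` even -/
def Why : Prop := k = 3 → p = 2 → 4 ≤ q → ∀ s : T, orderOf s = q + 1 → d s = 10 →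
  Nat.card (Mc s) = q ^ 3 * (q ^ 6 - 1) ∧ ¬ Group.IsSolvable (Cz (Mc s)) ∧
    ∀ x y, s ∈ Subgroup.closure {x, y} → 32 < d x + d y + d (x * y) → Subgroup.closure {x, y} ⊔ Cz (Mc s) ≠ ⊤

/-- [U5] subregular unipotent elements of `³D₄(5^f)` -/
def U5 : Prop := k = 3 → p = 5 → ∀ u : T, orderOf u = 5 → d u ≤ 6 → cn u ≤ q ^ 9

/-- all facts -/
structure Sh : Prop extends ElA p k q T d, ElB p k q T d, ElL p k q T, Lin p k T d, Sc p k T d where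
  prime : p.Prime
  why : Why p k q T d
  u5 : U5 p k q T d

end sheets

/-- a property of the models -/
def OnMod (P : ∀ (p k q : ℕ) (T : Type) [Group T], (T → ℕ) → Prop) : Prop :=
  ∀ (p : ℕ) [Fact p.Prime] (k q : ℕ) (T : Type) [Group T] [Finite T] [IsSimpleGroup T] (d : T → ℕ), Mod p k q T d → P p k q T d

/-- [A] -/
def BoxA : Prop := OnMod fun p k q T _ d => ElA p k q T d
/-- [B] -/
def BoxB : Prop := OnMod fun p k q T _ d => ElB p k q T d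
/-- [L] -/
def BoxL : Prop := OnMod fun p k q T _ _ => ElL p k q T
/-- [Lin] -/
def BoxLin : Prop := OnMod fun p k q T _ d => ElA p k q T d → ElL p k q T → Lin p k T d
/-- [Sc] -/
def BoxSc : Prop := OnMod fun p k q T _ d => ElA p k q T d → ElL p k q T → Sc p k T d
/-- [Why] -/
def BoxWhy : Prop := OnMod fun p k q T _ d => ElA p k q T d → ElB p k q T d → ElL p k q T → Why p k q T d
/-- [U5] -/
def BoxU5 : Prop := OnMod fun p k q T _ d => ElA p k q T d → ElB p k q T d → ElL p k q T → U5 p k q T d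

/-! ### the frame -/

section frame

variable {T : Type} [Group T]

/-- the non-parabolic context -/
structure Cx (p : ℕ) (A : Subgroup T) (Γ : Subgroup (MulAut T)) : Prop where
  mi : MI A Γ
  noP : ∀ E : Subgroup T, Inv Γ E → IsPGroup p E → E = ⊥
  idx : p ∣ A.index

/-- a minimal invariant elementary abelian subgroup -/
structure Loc (Γ : Subgroup (MulAut T)) (E : Subgroup T) (r : ℕ) : Prop extends EA r E where
  inv : Inv Γ E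
  min : ∀ E' ≤ E, Inv Γ E' → E' = ⊥ ∨ E' = E

/-- an invariant simple subgroup with trivial centraliser -/
structure Sim (A : Subgroup T) (Γ : Subgroup (MulAut T)) (S : Subgroup T) : Prop where
  le : S ≤ A
  inv : Inv Γ S
  simple : IsSimpleGroup S
  nonab : ¬ IsMulCommutative S
  cent : ∀ t, (∀ x ∈ S, t * x = x * t) → t = 1

/-- an invariant set of at least two commuting simple subgroups with trivial centraliser -/
structure Mul (A : Subgroup T) (Γ : Subgroup (MulAut T)) (𝓢 : Set (Subgroup T)) : Prop where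
  le : ∀ S ∈ 𝓢, S ≤ A
  simple : ∀ S ∈ 𝓢, IsSimpleGroup S
  nonab : ∀ S ∈ 𝓢, ¬ IsMulCommutative S
  comm : ∀ S ∈ 𝓢, ∀ S' ∈ 𝓢, S ≠ S' → ∀ x ∈ S, ∀ y ∈ S', x * y = y * x
  perm : ∀ σ ∈ Γ, ∀ S ∈ 𝓢, S.map σ.toMonoidHom ∈ 𝓢
  two : 𝓢.Nontrivial
  cent : ∀ t, (∀ S ∈ 𝓢, ∀ x ∈ S, t * x = x * t) → t = 1

end frame

/-- a property of the pairs `(A, Γ)` over the sheet -/
def On (P : ∀ (p k q : ℕ) (T : Type) [Group T], Subgroup T → Subgroup (MulAut T) → Prop) : Prop :=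
  ∀ (p k q : ℕ) (T : Type) [Group T] [Finite T] [IsSimpleGroup T] (d : T → ℕ) (A : Subgroup T) (Γ : Subgroup (MulAut T)),
    Sh p k q T d → Cx p A Γ → P p k q T A Γ

/-- [LocO] odd local subgroups -/
def BoxLocO : Prop := On fun _ _ _ _ _ A Γ => ∀ E r, Loc Γ E r → r ≠ 2 → Good A
/-- [Loc2] `2`-local subgroups -/
def BoxLoc2 : Prop := BoxLocO → On fun _ _ _ _ _ A Γ => ∀ E, Loc Γ E 2 → Good A
/-- [Mul] several components -/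
def BoxMul : Prop := On fun _ _ _ _ _ A Γ => ∀ 𝓢, Mul A Γ 𝓢 → Good A
/-- [Sim] a simple socle in the family `P p` -/
def BoxSim (P : ℕ → Fam) : Prop := On fun p _ _ _ _ A Γ => ∀ S, Sim A Γ S → P p S → Good A

/-- `PSL_n(F)` -/
abbrev PSL (n : ℕ) (F : Type) [Field F] : Type := Matrix.ProjectiveSpecialLinearGroup (Fin n) F

/-- `L₂` in the defining characteristic, `L₂(8)`, `A₅`, `A₆` -/
def pL2 : ℕ → Fam := fun p S _ =>
  (∃ (F : Type) (_ : Field F) (_ : Fintype F), (p ∣ Fintype.card F ∨ Fintype.card F = 5 ∨ Fintype.card F = 8 ∨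
    Fintype.card F = 9) ∧ 4 ≤ Fintype.card F ∧ Nonempty (S ≃* PSL 2 F)) ∨
  Nonempty (S ≃* alternatingGroup (Fin 5)) ∨ Nonempty (S ≃* alternatingGroup (Fin 6))

/-- `L₂` in odd cross characteristic, `L₃`, `U₃` -/
def pL3 : ℕ → Fam := fun p S _ => ∃ (F : Type) (_ : Field F) (_ : Fintype F),
  (Odd (Fintype.card F) ∧ ¬ p ∣ Fintype.card F ∧ 7 ≤ Fintype.card F ∧ Fintype.card F ≠ 9 ∧ Nonempty (S ≃* PSL 2 F)) ∨
  ((Odd (Fintype.card F) ∨ p = 2) ∧ Nonempty (S ≃* PSL 3 F)) ∨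
  ∃ n, Fintype.card F = n ^ 2 ∧ (Odd n ∨ (p = 2 ∧ 4 ≤ n) ∨ n = 4 ∨ n = 8) ∧ Nonempty (S ≃* PSU 3 F n)

/-- the other groups of Lie type of rank at most two -/
def pX : ℕ → Fam := fun p S _ =>
  (∃ (F : Type) (_ : Field F) (_ : Fintype F), (Odd (Fintype.card F) ∨ (p = 2 ∧ 4 ≤ Fintype.card F)) ∧
    Nonempty (S ≃* chevG2.group F)) ∨
  (∃ (K : Type) (_ : Field K) (_ : Fintype K) (n : ℕ), (Odd n ∨ p = 2) ∧ Fintype.card K = n ^ 3 ∧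
    Nonempty (S ≃* twistedD4 K n)) ∨
  IsoRee S ∨ (p = 2 ∧ IsoSuzuki S) ∨
  (∃ (F : Type) (_ : Field F) (_ : Fintype F), Fintype.card F = 8 ∧ Nonempty (S ≃* Sz F 4)) ∨
  (p = 2 ∧ ((∃ (F : Type) (_ : Field F) (_ : Fintype F), CharP F 2 ∧ 4 ≤ Fintype.card F ∧ Nonempty (S ≃* PSp 2 F)) ∨
    (∃ (F : Type) (_ : Field F) (_ : Fintype F) (n : ℕ), 1 ≤ n ∧ Fintype.card F = (2 ^ n) ^ 2 ∧
      Nonempty (S ≃* PSU 4 F (2 ^ n))) ∨
    (∃ (F : Type) (_ : Field F) (_ : Fintype F), Fintype.card F = 16 ∧ Nonempty (S ≃* PSU 5 F 4)) ∨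
    Iso2F4 S ∨ IsoTits S))

/-- finitely many groups -/
def pFin : ℕ → Fam := fun p S _ =>
  Nonempty (S ≃* alternatingGroup (Fin 7)) ∨ IsM11 S ∨ Spor.IsoJ1 S ∨ Spor.IsoM12 S ∨ Spor.IsoON S ∨
  (p = 2 ∧ ((∃ (F : Type) (_ : Field F) (_ : Fintype F), Fintype.card F = 2 ∧
      (Nonempty (S ≃* PSL 4 F) ∨ Nonempty (S ≃* PSL 5 F) ∨ Nonempty (S ≃* PSp 3 F))) ∨
    Nonempty (S ≃* alternatingGroup (Fin 8)) ∨ Nonempty (S ≃* alternatingGroup (Fin 9)) ∨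
    (∃ (F : Type) (_ : Field F) (_ : Fintype F), Fintype.card F = 3 ∧ Nonempty (S ≃* PSL 4 F)) ∨
    (∃ (F : Type) (_ : Field F) (_ : Fintype F), Fintype.card F = 9 ∧ Nonempty (S ≃* PSU 4 F 3)) ∨
    Spor.IsoM11 S ∨ Spor.IsoM22 S ∨ Spor.IsoM23 S ∨ Spor.IsoM24 S ∨ Spor.IsoJ2 S ∨ Spor.IsoJ3 S ∨
    Spor.IsoJ4 S ∨ Spor.IsoHS S ∨ Spor.IsoHe S ∨ Spor.IsoRu S))

/-- [List] the simple groups of small rank -/
def BoxList : Prop := Cf → ∀ (p : ℕ) (S : Type) [Group S] [Finite S] [IsSimpleGroup S], ¬ IsMulCommutative S → p.Prime →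
  (p ≠ 2 → PRankLE 2 3 S) → (∀ r : ℕ, r.Prime → r ≠ 2 → r ≠ p → PRankLE r 2 S) → pL2 p S ∨ pL3 p S ∨ pX p S ∨ pFin p S

/-- all boxes -/
structure Boxes : Prop where
  a : BoxA
  b : BoxB
  l : BoxL
  lin : BoxLin
  sc : BoxSc
  why : BoxWhy
  u5 : BoxU5
  locO : BoxLocO
  loc2 : BoxLoc2
  mul : BoxMul
  list : BoxList
  l2 : BoxSim pL2
  l3 : BoxSim pL3
  x : BoxSim pX
  fin : BoxSim pFin

end Cfsg.Agent.N2.G2
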