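import Cfsg.Agent.N2.G2.Defs
import Cfsg.Agent.FP3.Aff.Scott

/-!
# N2 (S3519), `G₂(q)` and `³D₄(q)`: the box [Lin] (lead)
-/

set_option autoImplicit false
set_option linter.unusedSectionVars false

namespace Cfsg.Agent.N2.G2

open Subgroup Cfsg Cfsg.Lie Cfsg.Agent.FP3 Cfsg.Agent.H316.U6 Module
open Cfsg.Agent.SB.Low (EA Nz Cz hpG2)

namespace Ln

section grp

variable {T : Type} [Group T] [Finite T]

theorem card_mod {E : Subgroup T} {g : T} (hg : g ∈ Nz E) {s : ℕ} (hs : s.Prime) (h : g ^ s = 1) :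
    Nat.card E ≡ Nat.card (E ⊓ centralizer {g} : Subgroup T) [MOD s] := by
  classical
  have : Fact s.Prime := ⟨hs⟩
  have := Fintype.ofFinite E
  let f : Function.End E := fun x => ⟨g * x * g⁻¹, (mem_normalizer_iff.1 hg x).1 x.2⟩
  have h1 : ∀ (n : ℕ) (x : E), (((f ^ n) x : E) : T) = g ^ n * x * (g ^ n)⁻¹ := fun n => by
    induction n with
    | zero => intro x; simp; rfl
    | succ n ih =>
      intro x
      rw [pow_succ' f, pow_succ' g]
      change g * ((f ^ n) x : E) * g⁻¹ = _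
      rw [ih]; group
  have h2 := Equiv.Perm.card_fixedPoints_modEq (f := f) (p := s) (n := 1) (funext fun x => Subtype.ext (by
    rw [pow_one, h1, h, one_mul, inv_one, mul_one]; rfl))
  rw [← Nat.card_eq_fintype_card, ← Nat.card_eq_fintype_card] at h2
  rwa [show Nat.card f.fixedPoints = Nat.card (E ⊓ centralizer {g} : Subgroup T) from Nat.card_congr
    ⟨fun x => ⟨x.1.1, x.1.2, mem_centralizer_singleton_iff.2 (mul_inv_eq_iff_eq_mul.1 (congrArg Subtype.val x.2)).symm⟩,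
      fun x => ⟨⟨x.1, x.2.1⟩, Subtype.ext (mul_inv_eq_iff_eq_mul.2 (mem_centralizer_singleton_iff.1 x.2.2).symm)⟩,
      fun _ => rfl, fun _ => rfl⟩] at h2

theorem card_ne {E : Subgroup T} {g : T} (hg : g ∉ Cz E) : Nat.card (E ⊓ centralizer {g} : Subgroup T) ≠ Nat.card E :=
  fun e => hg (mem_centralizer_iff.2 fun x hx => by
    have h1 := eq_of_le_of_card_ge (inf_le_left : E ⊓ centralizer {g} ≤ E) e.ge
    exact mem_centralizer_singleton_iff.1 (h1.ge hx).2)

theorem exists_four {E : Subgroup T} (hE : EA 2 E) (h8 : Nat.card E = 8) {a : T} (ha : a ∈ E) (h1 : a ≠ 1) :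
    ∃ V ≤ E, a ∈ V ∧ Nat.card V = 4 := by
  have h2 : orderOf (⟨a, ha⟩ : E) = 2 := orderOf_eq_prime (Subtype.ext (hE.pow a ha)) fun e => h1 (congrArg Subtype.val e)
  obtain ⟨V, h3, h4⟩ := Sylow.exists_subgroup_card_pow_prime_le (G := E) 2 (n := 1) (m := 2) (by rw [h8]; norm_num)
    (zpowers ⟨a, ha⟩) (by rw [Nat.card_zpowers, h2, pow_one]) (by norm_num)
  refine ⟨V.map E.subtype, map_subtype_le V, ⟨_, h4 (mem_zpowers _), rfl⟩, ?_⟩
  rw [card_map_of_injective E.subtype_injective, h3]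
  norm_num

theorem eq_or {H : Subgroup T} (h2 : Nat.card H = 2) {a z : T} (ha : a ∈ H) (h1 : a ≠ 1) (hz : z ∈ H) : z = 1 ∨ z = a := by
  obtain ⟨y, -, hy⟩ := (Nat.card_eq_two_iff' (1 : H)).1 h2
  refine or_iff_not_imp_left.2 fun e => ?_
  exact congrArg Subtype.val ((hy ⟨z, hz⟩ fun e' => e (congrArg Subtype.val e')).trans
    (hy ⟨a, ha⟩ fun e' => h1 (congrArg Subtype.val e')).symm)

theorem gen4 {V H : Subgroup T} (h4 : Nat.card V = 4) {a b : T} (ha : a ∈ V ⊓ H) (hb : b ∈ V ⊓ H) (h1 : a ≠ 1) (h2 : b ≠ 1)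
    (h3 : b ≠ a) : V ≤ H := by
  have h5 := card_dvd_of_le (inf_le_left : V ⊓ H ≤ V)
  have h6 : Nat.card (V ⊓ H : Subgroup T) ≠ 1 := fun e => h1 (mem_bot.1 (card_eq_one.1 e ▸ ha))
  have h7 : Nat.card (V ⊓ H : Subgroup T) ≠ 2 := fun e => (eq_or e ha h1 hb).elim h2 h3
  refine inf_eq_left.1 (eq_of_le_of_card_ge inf_le_left ?_)
  rw [h4] at h5 ⊢
  have := Nat.le_of_dvd (by norm_num) h5
  interval_cases Nat.card (V ⊓ H : Subgroup T) <;> simp_all

end grp

variable {K W T : Type} [Field K] [IsAlgClosed K] [AddCommGroup W] [Module K W] [FiniteDimensional K W] [Group T] [Finite T]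
  (ρ : T →* End K W)

/-- the fixed space of a subgroup -/
def Fx (V : Subgroup T) : Submodule K W where
  carrier := {w | ∀ v ∈ V, ρ v w = w}
  zero_mem' := fun _ _ => map_zero _
  add_mem' := fun hv hw y hy => by rw [map_add, hv y hy, hw y hy]
  smul_mem' := fun c _ hw y hy => by rw [map_smul, hw y hy]

/-- the stabiliser of a vector -/
def St (w : W) : Subgroup T where
  carrier := {v | ρ v w = w}
  one_mem' := by change ρ 1 w = w; rw [map_one, End.one_apply]
  mul_mem' := fun {a b} (ha : ρ a w = w) (hb : ρ b w = w) => by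
    change ρ (a * b) w = w
    rw [map_mul, End.mul_apply, hb, ha]
  inv_mem' := fun {a} (ha : ρ a w = w) => by
    change ρ a⁻¹ w = w
    nth_rewrite 1 [← ha]
    rw [← End.mul_apply, ← map_mul, inv_mul_cancel, map_one, End.one_apply]

theorem ev_eq (V : Subgroup T) (e : V) : DS.NT.ev (ρ.comp V.subtype) e 1 = dfx (ρ e) := by
  rw [dfx, DS.NT.ev, End.eigenspace_def, one_smul]
  rfl

theorem pure {r : ℕ} {V : Subgroup T} (hV : EA r V) (hK : (r : K) ≠ 0) {c : ℕ} (hc : ∀ x ∈ V, x ≠ 1 → dfx (ρ x) = c) :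
    ((r : ℤ) - 1) * Nat.card V * finrank K (Fx ρ V) = Nat.card V * (r * c - finrank K W) + r * (finrank K W - c) := by
  have := Fintype.ofFinite V
  rw [Nat.card_eq_fintype_card]
  exact DS.NT.dim_pure (ρ.comp V.subtype) hV.prime hK (fun x y => Subtype.ext (hV.comm _ x.2 _ y.2))
    (fun x => Subtype.ext (hV.pow _ x.2)) (Fx ρ V) (fun v => ⟨fun h e => h e e.2, fun h e he => h ⟨e, he⟩⟩)
    fun e he => (ev_eq ρ V e).trans (hc e e.2 fun h => he (Subtype.ext h))

theorem sum_mem (V : Subgroup T) [Fintype V] (w : W) : ∑ v : V, ρ v w ∈ Fx ρ V := fun e he => by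
  rw [map_sum]
  exact Fintype.sum_equiv (Equiv.mulLeft (⟨e, he⟩ : V)) _ _ fun v => by
    rw [← End.mul_apply, ← map_mul]
    rfl

theorem le_of_inj {A B : Submodule K W} (f : End K W) (h1 : ∀ w ∈ A, f w ∈ B) (h2 : ∀ w ∈ A, f w = 0 → w = 0) :
    finrank K A ≤ finrank K B :=
  LinearMap.finrank_le_finrank_of_injective (f := f.restrict h1) ((injective_iff_map_eq_zero _).2 fun w e =>
    Subtype.ext (h2 w w.2 (congrArg Subtype.val e)))

theorem conj_fix {t b : T} {w : W} (h : ρ t w = w) : ρ (t * b * t⁻¹) w = ρ t (ρ b w) := by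
  have h1 : ρ t⁻¹ w = w := (St ρ w).inv_mem h
  rw [map_mul, map_mul, End.mul_apply, End.mul_apply, h1]

/-- an orbit of length three -/
theorem three {E : Subgroup T} (hc : ∀ x ∈ E, ∀ y ∈ E, x * y = y * x) {t b : T} (ht : t ∈ Nz E) (h3 : t ^ 3 = 1) (hb : b ∈ E)
    {w : W} (h1 : ρ t w = w) (h2 : ρ b w = -w) : ∃ z ∈ E ⊓ centralizer {t}, ρ z w = -w := by
  have a1 := (mem_normalizer_iff.1 ht b).1 hb
  have a2 := (mem_normalizer_iff.1 ht _).1 a1
  have b1 : ρ (t * b * t⁻¹) w = -w := by rw [conj_fix ρ h1, h2, map_neg, h1]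
  have b2 : ρ (t * (t * b * t⁻¹) * t⁻¹) w = -w := by rw [conj_fix ρ h1, b1, map_neg, h1]
  refine ⟨b * (t * b * t⁻¹) * (t * (t * b * t⁻¹) * t⁻¹), ⟨mul_mem (mul_mem hb a1) a2, mem_centralizer_singleton_iff.2 ?_⟩, ?_⟩
  · have h4 : t * (t * (t * b * t⁻¹) * t⁻¹) * t⁻¹ = b := by
      calc _ = t ^ 3 * b * (t ^ 3)⁻¹ := by rw [pow_three]; group
        _ = b := by rw [h3]; group
    refine (mul_inv_eq_iff_eq_mul.1 ?_).symm
    calc _ = (t * b * t⁻¹) * (t * (t * b * t⁻¹) * t⁻¹) * (t * (t * (t * b * t⁻¹) * t⁻¹) * t⁻¹) := by group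
      _ = _ := by rw [h4, ← hc b hb _ (mul_mem a1 a2), mul_assoc b]
  · rw [map_mul, map_mul, End.mul_apply, End.mul_apply, b2, map_neg, b1, neg_neg, h2]

theorem eq_zero_of_neg (h2 : (2 : K) ≠ 0) {w : W} (h : w = -w) : w = 0 :=
  (smul_eq_zero_iff_right h2).1 (by rw [two_smul]; exact add_eq_zero_iff_eq_neg.2 h)

theorem add_fix {b : T} (hb : b ^ 2 = 1) (w : W) : ρ b ((1 + ρ b) w) = (1 + ρ b) w := by
  rw [← End.mul_apply, mul_add, mul_one, ← map_mul, ← sq, hb, map_one, add_comm]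

section two

variable (h2 : (2 : K) ≠ 0) {n : ℕ} (hN : finrank K W = 7 * n) (hi : ∀ x : T, orderOf x = 2 → dfx (ρ x) = 3 * n)
include h2 hN hi

theorem fx_dim {V : Subgroup T} (hV : EA 2 V) : (Nat.card V : ℤ) * finrank K (Fx ρ V) = (8 - Nat.card V) * n := by
  have h := pure ρ hV (by exact_mod_cast h2) fun x hx h1 => hi x (orderOf_eq_prime (hV.pow x hx) h1)
  rw [hN] at h
  push_cast at h
  linear_combination h

theorem fx_eight {E : Subgroup T} (hE : EA 2 E) (h8 : Nat.card E = 8) {w : W} (hw : w ∈ Fx ρ E) : w = 0 := by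
  have h := fx_dim ρ h2 hN hi hE
  rw [h8] at h
  have h1 : finrank K (Fx ρ E) = 0 := by push_cast at h; omega
  rwa [Submodule.finrank_eq_zero.1 h1, Submodule.mem_bot] at hw

theorem fx_four {E V : Subgroup T} (hE : EA 2 E) (hV : V ≤ E) (h4 : Nat.card V = 4) : finrank K (Fx ρ V) = n := by
  have h := fx_dim ρ h2 hN hi (V := V) ⟨hE.prime, fun e => by simp [e] at h4, fun x hx => hE.pow x (hV hx),
    fun x hx y hy => hE.comm x (hV hx) y (hV hy)⟩
  rw [h4] at h
  push_cast at h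
  omega

theorem b3 {V : Subgroup T} (hV : EA 2 V) (h4 : Nat.card V = 4) {t : T} (ht : t ∈ Nz V) (h3 : orderOf t = 3)
    (h0 : t ∉ Cz V) : dfx (ρ t) ≤ 3 * n := by
  have h5 : t ^ 3 = 1 := h3 ▸ pow_orderOf_eq_one t
  have h6 := card_mod ht Nat.prime_three h5
  have h7 := card_ne h0
  have h8 := card_dvd_of_le (inf_le_left : V ⊓ centralizer {t} ≤ V)
  rw [h4] at h6 h7 h8
  have h9 : V ⊓ centralizer {t} = ⊥ := card_eq_one.1 (by
    have := Nat.le_of_dvd (by norm_num) h8
    interval_cases Nat.card (V ⊓ centralizer {t} : Subgroup T) <;> simp_all [Nat.ModEq])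
  obtain ⟨a, ha, h1⟩ := (V.bot_or_exists_ne_one).resolve_left hV.ne_bot
  rw [← hi a (orderOf_eq_prime (hV.pow a ha) h1)]
  refine le_of_inj (1 + ρ a) (fun w _ => mem_fixSp.2 (add_fix ρ (hV.pow a ha) w)) fun w hw e => ?_
  obtain ⟨z, hz, e'⟩ := three ρ hV.comm ht h5 ha (mem_fixSp.1 hw) (eq_neg_of_add_eq_zero_right e)
  rw [h9, mem_bot] at hz
  rw [hz, map_one] at e'
  exact eq_zero_of_neg h2 e'

theorem perm6 {E : Subgroup T} (hE : EA 2 E) (h8 : Nat.card E = 8) (hC : Cz E ≤ E) {t : T} (ht : t ∈ Nz E) (h3 : orderOf t = 3)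
    {a : T} (ha : a ∈ E) (h1 : a ≠ 1) (hc : t * a = a * t) : dfx (ρ (t * a)) ≤ n := by
  have h5 : t ^ 3 = 1 := h3 ▸ pow_orderOf_eq_one t
  have h6 := card_mod ht Nat.prime_three h5
  have h7 := card_ne (g := t) fun e => by
    have := orderOf_dvd_of_pow_eq_one (hE.pow t (hC e))
    rw [h3] at this
    omega
  have h9 := card_dvd_of_le (inf_le_left : E ⊓ centralizer {t} ≤ E)
  rw [h8] at h6 h7 h9
  have h10 : Nat.card (E ⊓ centralizer {t} : Subgroup T) = 2 := by
    have := Nat.le_of_dvd (by norm_num) h9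
    interval_cases Nat.card (E ⊓ centralizer {t} : Subgroup T) <;> simp_all [Nat.ModEq]
  have h11 : ∀ z ∈ E ⊓ centralizer {t}, z = 1 ∨ z = a := fun z hz =>
    eq_or h10 ⟨ha, mem_centralizer_singleton_iff.2 hc.symm⟩ h1 hz
  obtain ⟨V, hV, haV, h4⟩ := exists_four hE h8 ha h1
  obtain ⟨b, hb, hb1, hba⟩ : ∃ b ∈ V, b ≠ 1 ∧ b ≠ a := by
    by_contra h0
    push Not at h0
    have h12 : V ≤ E ⊓ centralizer {t} := fun b hb => ⟨hV hb, by
      by_cases e : b = 1
      · rw [e]; exact one_mem _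
      · rw [h0 b hb e]; exact mem_centralizer_singleton_iff.2 hc.symm⟩
    have := card_le_of_le h12
    omega
  have hfa : ∀ w, ρ (t * a) w = w → ρ a w = w ∧ ρ t w = w := fun w hw => by
    have h12 : ∀ m : ℕ, ρ ((t * a) ^ m) w = w := fun m => (St ρ w).pow_mem hw m
    have h13 := h12 3
    have h14 := h12 4
    rw [(show Commute t a from hc).mul_pow] at h13 h14
    rw [h5, one_mul, pow_succ, hE.pow a ha, one_mul] at h13
    rw [pow_succ t, h5, one_mul, show 4 = 2 * 2 from rfl, pow_mul, hE.pow a ha, one_pow, mul_one] at h14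
    exact ⟨h13, h14⟩
  rw [← fx_four ρ h2 hN hi hE hV h4]
  refine le_of_inj (1 + ρ b) (fun w hw v hv => ?_) fun w hw e => ?_
  · refine gen4 (H := St ρ ((1 + ρ b) w)) h4 ⟨haV, ?_⟩ ⟨hb, add_fix ρ (hE.pow b (hV hb)) w⟩ h1 hb1 hba hv
    change ρ a (w + ρ b w) = w + ρ b w
    rw [map_add, ← End.mul_apply (ρ a), ← map_mul, hE.comm a ha b (hV hb), map_mul, End.mul_apply,
      (hfa w (mem_fixSp.1 hw)).1]
  · obtain ⟨h12, h13⟩ := hfa w (mem_fixSp.1 hw)
    obtain ⟨z, hz, e'⟩ := three ρ hE.comm ht h5 (hV hb) h13 (eq_neg_of_add_eq_zero_right e)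
    refine eq_zero_of_neg h2 (Eq.trans ?_ e')
    rcases h11 z hz with rfl | rfl
    · rw [map_one, End.one_apply]
    · exact h12.symm

theorem perm7 {E : Subgroup T} (hE : EA 2 E) (h8 : Nat.card E = 8) (hC : Cz E ≤ E) {g : T} (hg : g ∈ Nz E)
    (h7 : orderOf g = 7) : dfx (ρ g) ≤ n := by
  classical
  have hp : Nat.Prime 7 := by norm_num
  have h5 : g ^ 7 = 1 := h7 ▸ pow_orderOf_eq_one g
  have h6 : ∀ i : ℕ, ¬ 7 ∣ i → E ⊓ centralizer {g ^ i} = ⊥ := fun i hi => card_eq_one.1 (by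
    have a1 := card_mod (pow_mem hg i) hp (by rw [← pow_mul, mul_comm, pow_mul, h5, one_pow])
    have a2 := card_ne (g := g ^ i) fun e => by
      have := orderOf_dvd_of_pow_eq_one ((pow_mul g i 2).trans (hE.pow _ (hC e)))
      rw [h7] at this
      omega
    have a3 := card_dvd_of_le (inf_le_left : E ⊓ centralizer {g ^ i} ≤ E)
    rw [h8] at a1 a2 a3
    have := Nat.le_of_dvd (by norm_num) a3
    interval_cases Nat.card (E ⊓ centralizer {g ^ i} : Subgroup T) <;> simp_all [Nat.ModEq])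
  have := Fintype.ofFinite E
  have h9 : ∀ x ∈ E, x ≠ 1 → ∀ w, ∑ i ∈ Finset.range 7, ρ (g ^ i * x * (g ^ i)⁻¹) w = -w := fun x hx h1 w => by
    let c : ℕ → E := fun i => ⟨g ^ i * x * (g ^ i)⁻¹, (mem_normalizer_iff.1 (pow_mem hg i) x).1 hx⟩
    have a1 : ∀ i j, i < j → j < 7 → c i ≠ c j := fun i j h3 h4 e => by
      obtain ⟨m, rfl⟩ := Nat.exists_eq_add_of_lt h3
      have a2 : g ^ i * x * (g ^ i)⁻¹ = g ^ (i + m + 1) * x * (g ^ (i + m + 1))⁻¹ := congrArg Subtype.val e
      refine h1 (mem_bot.1 (h6 (m + 1) (by omega) ▸ ⟨hx, mem_centralizer_singleton_iff.2 ?_⟩))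
      calc x * g ^ (m + 1) = (g ^ i)⁻¹ * (g ^ i * x * (g ^ i)⁻¹) * g ^ (i + m + 1) := by group
        _ = _ := by rw [a2]; group
    have a2 : Set.InjOn c (Finset.range 7) := fun i hi j hj e => by
      rcases lt_trichotomy i j with a | a | a
      · exact absurd e (a1 i j a (Finset.mem_range.1 hj))
      · exact a
      · exact absurd e.symm (a1 j i a (Finset.mem_range.1 hi))
    have a3 : (Finset.range 7).image c = Finset.univ.erase 1 := Finset.eq_of_subset_of_card_le (fun y hy => by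
      obtain ⟨i, -, rfl⟩ := Finset.mem_image.1 hy
      exact Finset.mem_erase.2 ⟨fun e => h1 (conj_eq_one_iff.1 (congrArg Subtype.val e)), Finset.mem_univ _⟩) (by
      rw [Finset.card_image_of_injOn a2, Finset.card_erase_of_mem (Finset.mem_univ _), Finset.card_univ,
        ← Nat.card_eq_fintype_card, h8, Finset.card_range])
    have a4 := fx_eight ρ h2 hN hi hE h8 (sum_mem ρ E w)
    rw [← Finset.add_sum_erase _ _ (Finset.mem_univ (1 : E)), ← a3, Finset.sum_image a2, OneMemClass.coe_one, map_one,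
      End.one_apply] at a4
    exact eq_neg_of_add_eq_zero_right a4
  obtain ⟨a, ha, h1⟩ := (E.bot_or_exists_ne_one).resolve_left hE.ne_bot
  obtain ⟨V, hV, -, h4⟩ := exists_four hE h8 ha h1
  have := Fintype.ofFinite V
  rw [← fx_four ρ h2 hN hi hE hV h4]
  refine le_of_inj (∑ v : V, ρ v) (fun w _ => by rw [LinearMap.sum_apply]; exact sum_mem ρ V w) fun w hw e => ?_
  have a1 : ∀ i : ℕ, ρ (g ^ i) w = w := fun i => (St ρ w).pow_mem (mem_fixSp.1 hw) i
  have a2 : ∑ v : V, ∑ i ∈ Finset.range 7, ρ (g ^ i * v * (g ^ i)⁻¹) w = 0 := by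
    rw [Finset.sum_comm]
    refine Finset.sum_eq_zero fun i _ => ?_
    rw [Finset.sum_congr rfl fun (v : V) _ => conj_fix ρ (b := v) (a1 i), ← map_sum, ← LinearMap.sum_apply, e, map_zero]
  rw [← Finset.add_sum_erase _ _ (Finset.mem_univ (1 : V)), Finset.sum_congr rfl fun (v : V) hv =>
    h9 v (hV v.2) (fun e => Finset.ne_of_mem_erase hv (Subtype.ext e)) w, Finset.sum_const,
    Finset.card_erase_of_mem (Finset.mem_univ _), Finset.card_univ, ← Nat.card_eq_fintype_card, h4] at a2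
  simp only [OneMemClass.coe_one, mul_one, mul_inv_cancel, map_one, End.one_apply, Finset.sum_const, Finset.card_range] at a2
  refine (smul_eq_zero_iff_right (mul_ne_zero h2 h2)).1 ?_
  rw [← a2]
  module

theorem scott8 {E : Subgroup T} (hE : EA 2 E) (h8 : Nat.card E = 8) {x y : T} (h : E ≤ Subgroup.closure {x, y}) :
    dfx (ρ x) + dfx (ρ y) + dfx (ρ (x * y)) ≤ 7 * n := by
  rw [← hN, map_mul]
  refine scott _ _ (fun w h1 h3 => fx_eight ρ h2 hN hi hE h8 fun e he => (closure_le (St ρ w)).2 ?_ (h he))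
    (eq_top_iff.2 fun w _ => ?_)
  · rintro _ (rfl | rfl)
    exacts [h1, h3]
  have h1 : ∀ z ∈ Subgroup.closure {x, y}, ∀ v, ρ z v - v ∈ comSp (ρ x) ⊔ comSp (ρ y) := fun z hz => by
    induction hz using closure_induction with
    | mem z hz =>
      rcases hz with rfl | rfl
      · exact fun v => Submodule.mem_sup_left ⟨v, rfl⟩
      · exact fun v => Submodule.mem_sup_right ⟨v, rfl⟩
    | one => intro v; rw [map_one, End.one_apply, sub_self]; exact zero_mem _
    | mul z u _ _ hz hu =>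
      intro v
      rw [map_mul, End.mul_apply, ← sub_add_sub_cancel _ (ρ u v)]
      exact add_mem (hz _) (hu _)
    | inv z _ hz =>
      intro v
      have h4 := neg_mem (hz (ρ z⁻¹ v))
      rwa [← End.mul_apply, ← map_mul, mul_inv_cancel, map_one, End.one_apply, neg_sub] at h4
  have := Fintype.ofFinite E
  have h3 := neg_mem (Submodule.sum_mem _ fun (e : E) (_ : e ∈ Finset.univ) => h1 e (h e.2) w)
  rw [Finset.sum_sub_distrib, fx_eight ρ h2 hN hi hE h8 (sum_mem ρ E w), Finset.sum_const, Finset.card_univ,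
    ← Nat.card_eq_fintype_card, h8, zero_sub, neg_neg, ← Nat.cast_smul_eq_nsmul K] at h3
  refine (Submodule.smul_mem_iff _ ?_).1 h3
  rw [show ((8 : ℕ) : K) = 2 ^ 3 by norm_num]
  exact pow_ne_zero 3 h2

end two

theorem ker_pow_le (f : End K W) (a : ℕ) : finrank K (LinearMap.ker (f ^ a)) ≤ a * finrank K (LinearMap.ker f) := by
  induction a with
  | zero => rw [pow_zero, End.one_eq_id, LinearMap.ker_id, finrank_bot, zero_mul]
  | succ a ih =>
    let r : LinearMap.ker (f ^ (a + 1)) →ₗ[K] LinearMap.ker (f ^ a) :=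
      (f ∘ₗ (LinearMap.ker (f ^ (a + 1))).subtype).codRestrict _ fun v => by
        have h : (f ^ (a + 1)) (v : W) = 0 := v.2
        exact (congrArg (fun g : End K W => g (v : W)) (pow_succ f a)).symm.trans h
    have h1 := LinearMap.finrank_range_add_finrank_ker r
    have h2 := Submodule.finrank_le (LinearMap.range r)
    have h3 : finrank K (LinearMap.ker r) ≤ finrank K (LinearMap.ker f) :=
      LinearMap.finrank_le_finrank_of_injective
        (f := ((LinearMap.ker (f ^ (a + 1))).subtype ∘ₗ (LinearMap.ker r).subtype).codRestrict (LinearMap.ker f)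
          fun v => congrArg Subtype.val v.2)
        fun v w h => Subtype.ext (Subtype.ext (congrArg (fun z : LinearMap.ker f => (z : W)) h))
    rw [Nat.succ_mul]
    omega

theorem unip {p : ℕ} [Fact p.Prime] [CharP K p] {x : T} {j : ℕ} (h : x ^ p ^ j = 1) : finrank K W ≤ p ^ j * dfx (ρ x) := by
  have h1 := ker_pow_le (ρ x - 1) (p ^ j)
  rcases subsingleton_or_nontrivial W with h0 | h0
  · rw [finrank_zero_of_subsingleton]
    exact Nat.zero_le _
  · have : CharP (End K W) p := charP_of_injective_algebraMap (algebraMap K _).injective p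
    rwa [sub_pow_char_pow_of_commute p j (Commute.one_right _), ← map_pow, h, map_one, one_pow, sub_self,
      LinearMap.ker_zero, finrank_top] at h1

/-- the sheet from a representation -/
theorem lin {p k q : ℕ} [hp : Fact p.Prime] [CharP K p] {d : T → ℕ} (hd : ∀ x, d x = dfx (ρ x))
    (hN : finrank K W = 7 * (k + 1)) (A : ElA p k q T d) (L : ElL p k q T) : Lin p k T d := by
  obtain rfl : d = fun x => dfx (ρ x) := funext hd
  have h2 : p ≠ 2 → (2 : K) ≠ 0 := fun h e => h ((Nat.prime_dvd_prime_iff_eq hp.out Nat.prime_two).1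
    ((CharP.cast_eq_zero_iff K p 2).1 (by exact_mod_cast e)))
  refine ⟨fun hk r E hE h5 hr hc => ?_, fun hk h V hV h4 t ht h3 h0 => ?_,
    fun h E hE h8 g hg h7 => perm7 ρ (h2 h) hN (A.inv h) hE h8 (L.eight h E hE h8) hg h7,
    fun h E hE h8 t ht h3 a ha h1 hc => perm6 ρ (h2 h) hN (A.inv h) hE h8 (L.eight h E hE h8) ht h3 ha h1 hc,
    fun h E hE h8 x y hxy => scott8 ρ (h2 h) hN (A.inv h) hE h8 hxy, fun x j h => hN ▸ unip ρ h⟩
  · by_contra h0
    push Not at h0
    subst hk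
    have := Fact.mk hE.prime
    have h1 := pure ρ hE (c := 10) (fun e => hr ((Nat.prime_dvd_prime_iff_eq hp.out hE.prime).1
      ((CharP.cast_eq_zero_iff K p r).1 e)).symm) fun x hx h1 => by
      have h3 : orderOf x = r := orderOf_eq_prime (hE.pow x hx) h1
      have h4 := h0 x hx h1
      rcases A.cls x (h3 ▸ (Nat.coprime_primes hE.prime hp.out).2 hr) h1 with e | e | e | e
      · omega
      · omega
      · exact e.1
      · have := Nat.le_of_dvd two_pos (h3 ▸ orderOf_dvd_of_pow_eq_one e.2)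
        omega
    rw [hN, hc] at h1
    push_cast at h1
    have h3 : (r : ℤ) ∣ 18 := ⟨(r - 1) * finrank K (Fx ρ E) - (r * 10 - 28), mul_left_cancel₀ (a := (r : ℤ)) (by omega)
      (by linear_combination -h1)⟩
    have h4 : r ∣ 2 * 3 ^ 2 := by exact_mod_cast h3
    rcases (Nat.Prime.dvd_mul hE.prime).1 h4 with e | e
    · have := Nat.le_of_dvd two_pos e
      omega
    · have := Nat.le_of_dvd three_pos (hE.prime.dvd_of_dvd_pow e)
      omega
  · subst hk
    exact b3 ρ (h2 h) hN (A.inv h) hV h4 ht h3 h0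

theorem dd_eq {D : ChevalleyDatum} {p : ℕ} [Fact p.Prime] (y : DS.Ex.YY D p) : DS.Nt.dd p y = dfx (DS.Nt.ad D p y) := by
  rw [dfx, DS.Nt.dd, DS.NT.ev, End.eigenspace_def, one_smul]
  rfl

end Ln

/-- **[Lin]** -/
theorem boxLin : BoxLin := by
  rintro p _ k q T _ _ _ d (⟨rfl, -, ⟨m, -, -, h⟩, -⟩ | ⟨rfl, -, ⟨m, -, -, h⟩, -⟩) A L
  · exact Ln.lin ((DS.Nt.ad _ p).comp m.ι) (fun x => (h x).trans (Ln.dd_eq _))
      ((finrank_fintype_fun_eq_card _).trans (by decide +kernel)) A L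
  · exact Ln.lin ((DS.Nt.ad _ p).comp m.ι) (fun x => (h x).trans (Ln.dd_eq _))
      ((finrank_fintype_fun_eq_card _).trans (by decide +kernel)) A L

end Cfsg.Agent.N2.G2
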