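import Cfsg.Agent.N2.G2.Defs
import Cfsg.Agent.N2.G2.SzE
import Cfsg.Agent.S0482
import Cfsg.Agent.S1730
import Cfsg.Agent.S1765
import Cfsg.Agent.Omega.Quasithin.Table
import Cfsg.Agent.StrQ.Main
import Cfsg.Agent.QTKE.Final
import Cfsg.Agent.H427.Fc.AltA
import Cfsg.Agent.H583.SecRank
import Cfsg.Agent.ClassicalGeometry.PSL2Basic

/-!
# N2 (S3519), `G₂(q)` and `³D₄(q)` : the list of the simple groups of small rank (helper87)
-/

set_option autoImplicit false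

namespace Cfsg.Agent.N2.G2

open Cfsg Cfsg.Lie

namespace Ls

variable {p : ℕ} {S : Type} [Group S]

theorem l2 {F : Type} [Field F] [Fintype F] (h1 : Odd (Fintype.card F)) (h2 : 5 ≤ Fintype.card F)
    (e : Nonempty (S ≃* PSL 2 F)) : pL2 p S ∨ pL3 p S ∨ pX p S ∨ pFin p S := by
  by_cases h : p ∣ Fintype.card F ∨ Fintype.card F = 5 ∨ Fintype.card F = 8 ∨ Fintype.card F = 9
  · exact .inl (.inl ⟨F, _, _, h, by omega, e⟩)
  · push Not at h
    obtain ⟨k, hk⟩ := id h1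
    exact .inr (.inl ⟨F, _, _, .inl ⟨h1, h.1, by omega, h.2.2.2, e⟩⟩)

theorem l3 {F : Type} [Field F] [Fintype F] (h1 : Odd (Fintype.card F) ∨ p = 2) (e : Nonempty (S ≃* PSL 3 F)) :
    pL2 p S ∨ pL3 p S ∨ pX p S ∨ pFin p S := .inr (.inl ⟨F, _, _, .inr (.inl ⟨h1, e⟩)⟩)

theorem u3 {F : Type} [Field F] [Fintype F] {n : ℕ} (h0 : Fintype.card F = n ^ 2)
    (h1 : Odd n ∨ (p = 2 ∧ 4 ≤ n) ∨ n = 4 ∨ n = 8) (e : Nonempty (S ≃* PSU 3 F n)) :
    pL2 p S ∨ pL3 p S ∨ pX p S ∨ pFin p S := .inr (.inl ⟨F, _, _, .inr (.inr ⟨n, h0, h1, e⟩)⟩)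

theorem x (h : pX p S) : pL2 p S ∨ pL3 p S ∨ pX p S ∨ pFin p S := .inr (.inr (.inl h))

theorem fn (h : pFin p S) : pL2 p S ∨ pL3 p S ∨ pX p S ∨ pFin p S := .inr (.inr (.inr h))

variable [Finite S] [IsSimpleGroup S] (hG : ¬ IsMulCommutative S)
include hG

theorem odd (h3 : PRankLE 2 3 S) : pL2 p S ∨ pL3 p S ∨ pX p S ∨ pFin p S := by
  by_cases h2 : PRankLE 2 2 S
  · rcases S0482.result hG h2 with ⟨F, _, _, h, h', e⟩ | ⟨F, _, _, h, e⟩ | ⟨F, _, _, q, h, h', e⟩ | ⟨F, _, _, h, e⟩ | h | h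
    · exact l2 h h' e
    · exact l3 (.inl h) e
    · exact u3 h (.inl h') e
    · exact u3 (n := 4) h (.inr (.inr (.inl rfl))) e
    · exact fn (.inl h)
    · exact fn (.inr (.inl h))
  · rcases S1730.result hG h3 h2 with ⟨F, _, _, h, e⟩ | ⟨F, _, _, q, h, h', e⟩ | h | ⟨F, _, _, h, e | e | ⟨E, _, _, h', e⟩⟩ |
      h | h | h
    · exact x (.inl ⟨F, _, _, .inl h, e⟩)
    · exact x (.inr (.inl ⟨F, _, _, q, .inl h, h', e⟩))
    · exact x (.inr (.inr (.inl h)))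
    · exact .inl (.inl ⟨F, _, _, .inr (.inr (.inl h)), by omega, e⟩)
    · exact x (.inr (.inr (.inr (.inr (.inl ⟨F, _, _, h, ⟨e.some.trans (sz_four h).some.symm⟩⟩)))))
    · exact u3 (n := 8) h' (.inr (.inr (.inr rfl))) e
    · exact fn (.inr (.inr (.inl h)))
    · exact fn (.inr (.inr (.inr (.inl h))))
    · exact fn (.inr (.inr (.inr (.inr (.inl h)))))

theorem qt (h : IsOnQTKEList S) : pL2 2 S ∨ pL3 2 S ∨ pX 2 S ∨ pFin 2 S := by
  have x2 : ∀ {P : Prop}, P → 2 = 2 ∧ P := fun h => ⟨rfl, h⟩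
  rcases h with (((⟨F, _, _, h, h', e⟩ | ⟨F, _, _, n, h, h', e⟩ | h) | ⟨F, _, _, h, e | ⟨h', e⟩ | ⟨h', e⟩⟩ | h | h |
    ⟨F, _, _, n, h, h', e⟩ | h | h) | h | (h | h | h | h) | (⟨F, _, _, h, e⟩ | ⟨F, _, _, h, e | e | e⟩ | ⟨F, _, _, h, e | e⟩) |
    (h | h | h))
  · refine .inl (.inl ⟨F, _, _, .inl ?_, h', e⟩)
    obtain ⟨n, -, hn⟩ := FiniteField.card F 2
    exact hn ▸ dvd_pow_self 2 n.ne_zero
  · exact u3 h' (.inr (.inl ⟨rfl, Nat.pow_le_pow_right two_pos h⟩)) e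
  · exact x (.inr (.inr (.inr (.inl (x2 h)))))
  · exact l3 (.inr rfl) e
  · exact x (.inr (.inr (.inr (.inr (.inr (x2 (.inl ⟨F, _, _, h, h', e⟩)))))))
  · exact x (.inl ⟨F, _, _, .inr ⟨rfl, h'⟩, e⟩)
  · exact x (.inr (.inr (.inr (.inr (.inr (x2 (.inr (.inl h))))))))
  · exact x (.inr (.inr (.inr (.inr (.inr (x2 (.inr (.inr (.inl h)))))))))
  · exact x (.inr (.inl ⟨F, _, _, _, .inr rfl, h', e⟩))
  · exact x (.inr (.inr (.inr (.inr (.inr (x2 (.inr (.inr (.inr (.inl h))))))))))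
  · exact x (.inr (.inr (.inr (.inr (.inr (x2 (.inr (.inr (.inr (.inr h))))))))))
  · exact fn (.inr (.inr (.inr (.inr (.inr (x2 (.inl h)))))))
  · exact .inl (.inr (.inl h))
  · exact .inl (.inr (.inr h))
  · exact fn (.inr (.inr (.inr (.inr (.inr (x2 (.inr (.inl h))))))))
  · exact fn (.inr (.inr (.inr (.inr (.inr (x2 (.inr (.inr (.inl h)))))))))
  · have h1 := ClassicalGeometry.PSL2Basic.card_PSL2_gcd (F := F)
    have h2 := H427.Fc.sixty_le ‹_› hG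
    rw [Nat.card_congr e.some.toEquiv] at h2
    have h3 : 5 ≤ Fintype.card F := h.1.five_le_of_ne_two_of_ne_three
      (fun k => by rw [k] at h1; norm_num at h1; omega) fun k => by rw [k] at h1; norm_num at h1; omega
    exact l2 (h.1.odd_of_ne_two (by omega)) h3 e
  · exact l3 (.inr rfl) e
  · exact fn (.inr (.inr (.inr (.inr (.inr (x2 (.inr (.inr (.inr (.inl ⟨F, _, _, h, e⟩))))))))))
  · exact x (.inl ⟨F, _, _, .inl (by rw [h]; decide), e⟩)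
  · exact u3 (n := 3) h (.inl (by decide)) e
  · exact fn (.inr (.inr (.inr (.inr (.inr (x2 (.inr (.inr (.inr (.inr (.inl ⟨F, _, _, h, e⟩)))))))))))
  · exact fn (.inr (.inr (.inr (.inr (.inr (x2 (.inr (.inr (.inr (.inr (.inr (.inl h))))))))))))
  · exact fn (.inr (.inr (.inr (.inl h))))
  · exact fn (.inr (.inr (.inr (.inr (.inr (x2 (.inr (.inr (.inr (.inr (.inr (.inr h))))))))))))

theorem two (hC : Cf) (hq : ∀ r : ℕ, r.Prime → r ≠ 2 → PRankLE r 2 S) : pL2 2 S ∨ pL3 2 S ∨ pX 2 S ∨ pFin 2 S := by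
  by_cases hE : IsOfEvenCharacteristic S
  · exact qt hG (QTKE.onList QTKE.rows hG
      (fun r h1 h2 H _ => H583.SecRank.pRankLE_of_injective (hq r h1 h2) H.subtype H.subtype_injective) hE (hC S))
  · rcases StrQ.main (fun _ _ _ _ h1 h2 h3 => S1765.result h1 h2 h3) Omega.Quasithin.rows hG
      (fun _ _ _ _ _ _ _ => hC _) hq hE with h | h | ⟨r, h1, h2, F, _, _, ⟨h3, e⟩ | ⟨h3, e⟩ | ⟨h3, e⟩⟩
    · exact fn (.inl h)
    · exact fn (.inr (.inr (.inl h)))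
    · have h4 := h1.odd_of_ne_two (by omega)
      rcases h3 with h3 | h3
      · exact l2 (h3 ▸ h4) (h3 ▸ h2) e
      · exact l2 (h3 ▸ h4.pow) (h3 ▸ h2.trans (Nat.le_self_pow two_ne_zero r)) e
    · exact l3 (.inr rfl) e
    · exact u3 h3 (.inl (h1.odd_of_ne_two (by omega))) e

end Ls

/-- **[List]** -/
theorem boxList : BoxList := fun hC p S _ _ _ hG _ h2 h => by
  by_cases hp : p = 2
  · subst hp
    exact Ls.two hG hC fun r h1 h3 => h r h1 h3 h3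
  · exact Ls.odd hG (h2 hp)

end Cfsg.Agent.N2.G2
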