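import Cfsg.Agent.N2.G2.Loc2A
import Cfsg.Agent.H164.HallGen

/-!
# N2, `G₂(q)` and `³D₄(q)`: the `2`-local subgroups, box `Loc2` (helper35)
-/

set_option autoImplicit false
set_option linter.unusedSectionVars false

namespace Cfsg.Agent.N2.G2

open Subgroup Cfsg Cfsg.Agent.FP3
open Cfsg.Agent.SB.Low (EA Nz Cz)

namespace L35

variable {T : Type} [Group T] [Finite T] [IsSimpleGroup T] {p k q : ℕ} {d : T → ℕ} {A : Subgroup T}
  {Γ : Subgroup (MulAut T)}

/-- an invariant abelian subgroup contains a minimal invariant elementary abelian subgroup -/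
theorem ex_loc {B : Subgroup T} (hi : Inv Γ B) (h0 : B ≠ ⊥) (hc : ∀ x ∈ B, ∀ y ∈ B, x * y = y * x) :
    ∃ E r, E ≤ B ∧ Loc Γ E r := by
  obtain ⟨E, ⟨h1, h2, h3⟩, hmin⟩ := WellFounded.has_min (wellFounded_lt (α := Subgroup T))
    {E : Subgroup T | E ≤ B ∧ Inv Γ E ∧ E ≠ ⊥} ⟨B, le_rfl, hi, h0⟩
  have hm : ∀ E' ≤ E, Inv Γ E' → E' = ⊥ ∨ E' = E := fun E' h4 h5 => by
    by_cases h6 : E' = ⊥
    · exact Or.inl h6
    · exact Or.inr (eq_of_le_of_not_lt h4 (hmin E' ⟨h4.trans h1, h5, h6⟩))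
  obtain ⟨r, hr, hd⟩ := Nat.exists_prime_and_dvd (n := Nat.card E) fun k => h3 (card_eq_one.1 k)
  have := Fact.mk hr
  obtain ⟨x, hx⟩ := exists_prime_orderOf_dvd_card' r hd
  let Ω : Subgroup T :=
    { carrier := {y | y ∈ E ∧ y ^ r = 1}
      one_mem' := ⟨one_mem _, one_pow _⟩
      mul_mem' := fun {a b} ha hb => ⟨mul_mem ha.1 hb.1, by
        rw [(show Commute a b from hc a (h1 ha.1) b (h1 hb.1)).mul_pow, ha.2, hb.2, one_mul]⟩
      inv_mem' := fun {a} ha => ⟨inv_mem ha.1, by rw [inv_pow, ha.2, inv_one]⟩ }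
  have h4 : Ω = E := (hm Ω (fun _ h => h.1) fun σ hσ y hy => ⟨h2 σ hσ y hy.1, by rw [← map_pow, hy.2, map_one]⟩).resolve_left
    fun k => by
      have h5 : (x : T) ∈ Ω := ⟨x.2, by rw [← hx, ← coe_pow, pow_orderOf_eq_one, coe_one]⟩
      rw [k, mem_bot] at h5
      rw [show x = 1 from Subtype.ext h5, orderOf_one] at hx
      exact hr.one_lt.ne hx
  exact ⟨E, r, h1, ⟨⟨hr, h3, fun y hy => (h4.ge hy).2, fun a ha b hb => hc a (h1 ha) b (h1 hb)⟩, h2, hm⟩⟩

theorem norm_ab (C : Cx p A Γ) {B : Subgroup T} (hi : Inv Γ B) (h0 : B ≠ ⊥) (hc : ∀ x ∈ B, ∀ y ∈ B, x * y = y * x) :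
    Nz B = A := mi_norm C.mi hi h0 fun k => by
  have : A.Normal := ⟨fun a ha g => by rwa [hc g (k ▸ mem_top g) a (k ▸ mem_top a), mul_inv_cancel_right]⟩
  exact this.eq_bot_or_eq_top.elim C.mi.ne_bot C.mi.ne_top

theorem ea_pg {r : ℕ} {E : Subgroup T} (h : EA r E) : IsPGroup r E :=
  fun x => ⟨1, Subtype.ext (by simpa using h.pow x x.2)⟩

theorem cz_le_nz (E : Subgroup T) : Cz E ≤ Nz E := centralizer_le_normalizer _

theorem card_nz (E : Subgroup T) : Nat.card (Nz E) = Nat.card (Cz E) * Nat.card E.normalizerMonoidHom.range := by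
  rw [← SB.Low.twoA_relIndex, relIndex, ← Nat.card_congr (subgroupOfEquivOfLe (cz_le_nz E)).toEquiv, card_mul_index]

/-- Cauchy's theorem in a subgroup -/
theorem cauchy {H : Subgroup T} {l : ℕ} (hl : l.Prime) (h : l ∣ Nat.card H) : ∃ x ∈ H, orderOf x = l := by
  have := Fact.mk hl
  obtain ⟨x, hx⟩ := exists_prime_orderOf_dvd_card' l h
  exact ⟨x, x.2, by rw [← hx]; exact orderOf_coe x⟩

/-- an element of order `3` which normalises a subgroup of order `8` centralises a non-trivial element -/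
theorem fix_three {F : Subgroup T} (h8 : Nat.card F = 8) {t : T} (ht : t ∈ Nz F) (h3 : orderOf t = 3) :
    ∃ w ∈ F, w ≠ 1 ∧ t * w = w * t := by
  have : Fact (Nat.Prime 3) := ⟨Nat.prime_three⟩
  let φ : MulAut F := F.normalizerMonoidHom ⟨t, ht⟩
  have h1 : φ ^ 3 = 1 := by
    rw [← map_pow, show (⟨t, ht⟩ : Nz F) ^ 3 = 1 from Subtype.ext (by rw [← h3]; exact pow_orderOf_eq_one t), map_one]
  have h2 : IsPGroup 3 (zpowers φ) := by
    rcases (Nat.dvd_prime Nat.prime_three).1 (orderOf_dvd_of_pow_eq_one h1) with k | k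
    · exact IsPGroup.of_card (n := 0) (by rw [Nat.card_zpowers, k]; rfl)
    · exact IsPGroup.of_card (n := 1) (by rw [Nat.card_zpowers, k]; rfl)
  have h4 := h2.card_modEq_card_fixedPoints F
  rw [h8] at h4
  have h5 : Nontrivial (MulAction.fixedPoints (zpowers φ) F) := by
    rw [← Finite.one_lt_card_iff_nontrivial]
    have : 0 < Nat.card (MulAction.fixedPoints (zpowers φ) F) := by
      have : Nonempty (MulAction.fixedPoints (zpowers φ) F) := ⟨⟨1, fun σ => map_one (σ : MulAut F)⟩⟩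
      exact Nat.card_pos
    unfold Nat.ModEq at h4
    omega
  obtain ⟨w, hw⟩ := exists_ne (⟨1, fun σ => map_one (σ : MulAut F)⟩ : MulAction.fixedPoints (zpowers φ) F)
  refine ⟨w.1, w.1.2, fun e => hw (Subtype.ext (Subtype.ext e)), ?_⟩
  have h6 : t * (w.1 : T) * t⁻¹ = w.1 := congrArg Subtype.val (w.2 ⟨φ, mem_zpowers φ⟩)
  exact mul_inv_eq_iff_eq_mul.1 h6

section sheet

variable (h : Sh p k q T d) (hp : p ≠ 2)
include h hp

theorem hk : k = 1 ∨ k = 3 := h.par.imp And.left And.left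

theorem q_odd : Odd q := by
  obtain ⟨f, -, rfl⟩ := h.pw
  exact (h.prime.odd_of_ne_two hp).pow

theorem q_ge : 3 ≤ q := by
  obtain ⟨u, hu⟩ := q_odd h hp
  rcases h.par with k | k <;> omega

theorem cop_two {n j : ℕ} (hn : n ∣ 2 ^ j) : n.Coprime p :=
  Nat.Coprime.coprime_dvd_left hn (((Nat.coprime_primes Nat.prime_two h.prime).2 hp.symm).pow_left j)

/-- the regular elements -/
theorem reg_of {x : T} (hx : (orderOf x).Coprime p) (h1 : ¬ orderOf x ∣ q ^ k - 1) (h2 : ¬ orderOf x ∣ q ^ k + 1) :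
    d x = k + 1 := by
  have hq := q_ge h hp
  have h0 : x ≠ 1 := fun e => h1 (by rw [e, orderOf_one]; exact one_dvd _)
  have a1 : q - 1 ∣ q ^ k - 1 := by simpa using Nat.sub_dvd_pow_sub_pow q 1 k
  have a2 : q + 1 ∣ q ^ k + 1 := by
    have : Odd k := by rcases hk h hp with rfl | rfl <;> decide
    simpa using this.nat_add_dvd_pow_add_pow q 1
  rcases h.cls x hx h0 with e | e | ⟨e, e'⟩ | ⟨-, e⟩
  · exact e
  · obtain ⟨m, hm | hm, -, e'⟩ := h.mild x hx e
    exacts [(h1 (hm ▸ orderOf_dvd_of_pow_eq_one e')).elim, (h2 (hm ▸ orderOf_dvd_of_pow_eq_one e')).elim]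
  · rcases hk h hp with rfl | rfl
    · have k3 := orderOf_dvd_of_pow_eq_one (e' rfl)
      obtain ⟨m, ⟨-, hm⟩ | ⟨-, hm⟩, -⟩ := h.bad1 rfl x hx e
      exacts [(h1 ((k3.trans hm).trans a1)).elim, (h2 ((k3.trans hm).trans a2)).elim]
    · obtain ⟨m, n, z, hb, -, hz, hxz, -⟩ := h.bad3 rfl x hx e
      have k1 : orderOf x ∣ m := hz ▸ orderOf_dvd_of_mem_zpowers hxz
      obtain ⟨s, rfl⟩ : ∃ s, q = s + 1 := ⟨q - 1, by omega⟩
      rcases hb with ⟨hm | hm, -⟩ | ⟨hm, -⟩ | ⟨hm, -⟩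
      · exact (h1 ((hm ▸ k1).trans a1)).elim
      · exact (h2 ((hm ▸ k1).trans a2)).elim
      · exact (h1 ((hm ▸ k1).trans ⟨s, Nat.sub_eq_of_eq_add (by ring)⟩)).elim
      · rw [Nat.sub_eq_of_eq_add (c := s ^ 2 + s) (by ring)] at hm
        exact (h2 ((hm ▸ k1).trans ⟨s + 2, by ring⟩)).elim
  · refine (h1 ((orderOf_dvd_of_pow_eq_one e).trans ?_)).elim
    obtain ⟨u, hu⟩ := (q_odd h hp).pow (n := k)
    exact ⟨u, by omega⟩

theorem reg_le {x : T} (hx : (orderOf x).Coprime p) (h0 : x ≠ 1) (h1 : d x ≤ k + 1) : d x = k + 1 := by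
  rcases h.cls x hx h0 with e | e | ⟨e, -⟩ | ⟨e, -⟩ <;> omega

theorem cn_reg {x : T} (hx : (orderOf x).Coprime p) (h1 : d x = k + 1) : cn x ≤ tau k q := tor_le (h.reg x hx h1).2.2.1

theorem cyc_cop : ((q ^ k - 1) * (q + 1)).Coprime p := by
  obtain ⟨f, hf, e⟩ := h.pw
  have h1 : p ∣ q := e ▸ dvd_pow_self p hf.ne'
  have h2 : p ∣ q ^ k := h1.trans (dvd_pow_self q (by rcases hk h hp with rfl | rfl <;> decide))
  have h3 : 1 ≤ q ^ k := Nat.one_le_pow _ _ (q_odd h hp).pos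
  refine ((h.prime.coprime_iff_not_dvd).2 fun c => ?_).symm
  rcases (h.prime.dvd_mul).1 c with c | c
  · exact h.prime.not_dvd_one ((Nat.dvd_add_right c).1 (by rwa [Nat.sub_add_cancel h3]))
  · exact h.prime.not_dvd_one ((Nat.dvd_add_right h1).1 c)

variable (C : Cx p A Γ)
include C

/-- an invariant involution -/
theorem good_inv {z : T} (hz : orderOf z = 2) (hf : ∀ σ ∈ Γ, σ z = z) : Good A := by
  have hq := q_ge h hp
  have h1 : Nz (zpowers z) = A := norm_ab C (fun σ hσ w hw => by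
      obtain ⟨j, rfl⟩ := mem_zpowers_iff.1 hw
      rw [map_zpow, hf σ hσ]
      exact zpow_mem (mem_zpowers _) j)
    (fun e => by rw [zpowers_eq_bot.1 e, orderOf_one] at hz; exact absurd hz (by decide)) fun a ha b hb => by
      obtain ⟨i, rfl⟩ := mem_zpowers_iff.1 ha
      obtain ⟨j, rfl⟩ := mem_zpowers_iff.1 hb
      exact zpow_mul_comm z i j
  have h2 : A ≤ centralizer {z} := fun a ha =>
    mem_centralizer_singleton_iff.2 (mul_inv_eq_iff_eq_mul.1 (hf _ ((C.mi.conj a).2 ha)))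
  obtain ⟨x, hx⟩ := h.cyc
  have h3 : 3 ≤ q ^ k := hq.trans (Nat.le_self_pow (by rcases hk h hp with rfl | rfl <;> decide) q)
  have h4 : q ^ k + 1 < (q ^ k - 1) * (q + 1) := by
    obtain ⟨s, hs⟩ : ∃ s, q ^ k = s + 1 := ⟨q ^ k - 1, by omega⟩
    rw [hs, Nat.add_sub_cancel]
    nlinarith
  have h5 : 2 ∣ orderOf x := by
    obtain ⟨u, hu⟩ := q_odd h hp
    exact hx ▸ Dvd.dvd.mul_left ⟨u + 1, by omega⟩ _
  obtain ⟨c, hc⟩ := isConj_iff.1 (h.one hp _ z (orderOf_pow_orderOf_div (orderOf_pos x).ne' h5) hz)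
  have h6 : orderOf (c * x * c⁻¹) = (q ^ k - 1) * (q + 1) := by
    rw [← hx]
    exact (MulAut.conj c).orderOf_eq x
  have h7 : c * x * c⁻¹ ∈ A := by
    refine h1 ▸ cz_le_nz _ (mem_centralizer_iff.2 fun w hw => ?_)
    obtain ⟨j, rfl⟩ := mem_zpowers_iff.1 hw
    rw [← hc, ← conj_pow]
    exact ((Commute.refl _).pow_left _).zpow_left j
  have h8 : (orderOf (c * x * c⁻¹)).Coprime p := h6 ▸ cyc_cop h hp
  refine good_of_cn h7 (cn_reg h hp h8 (reg_of h hp h8 (fun e => ?_) fun e => ?_)) ?_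
  · have := Nat.le_of_dvd (by omega) e
    omega
  · have := Nat.le_of_dvd (by omega) e
    omega
  · rw [h.card]
    exact (Nat.mul_le_mul_left _ ((card_le_of_le h2).trans (h.invc hp z hz))).trans (n_inv (hk h hp) hq)

/-- an invariant subgroup of order `2` -/
theorem good_two {W : Subgroup T} (hi : Inv Γ W) (h2 : Nat.card W = 2) : Good A := by
  obtain ⟨z, hz, e⟩ := cauchy Nat.prime_two h2.symm.dvd
  obtain ⟨y, -, hy⟩ := (Nat.card_eq_two_iff' (1 : W)).1 h2
  have h1 : z ≠ 1 := fun k => by rw [k, orderOf_one] at e; exact absurd e (by decide)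
  refine good_inv h hp C e fun σ hσ => ?_
  have a1 := hy ⟨z, hz⟩ fun k => h1 (congrArg Subtype.val k)
  have a2 := hy ⟨σ z, hi σ hσ z hz⟩ fun k => h1 ((MulEquiv.map_eq_one_iff σ).1 (congrArg Subtype.val k))
  exact congrArg Subtype.val (a2.trans a1.symm)

variable {E : Subgroup T} (hE : Loc Γ E 2)
include hE

theorem nz : Nz E = A := norm_ab C hE.inv hE.ne_bot hE.comm

/-- a four-group in `³D₄(q)` -/
theorem good_four3 (h3 : k = 3) (h4 : Nat.card E = 4) : Good A := by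
  subst h3
  have hq := q_ge h hp
  obtain ⟨B, b1, b2, b3, b4, b5, -, -, b6, -⟩ := h.tor 2 E hE.toEA hp.symm h4
  have hBA : B ≤ A := nz h hp C hE ▸ b2.trans (cz_le_nz E)
  obtain ⟨l, hl, l2, ld, l3, l4⟩ := exists_l hq (q_odd h hp) b5 (Dvd.dvd.trans (h4 ▸ by decide) (card_dvd_of_le b1))
  obtain ⟨a, ha, oa⟩ := cauchy (H := E) Nat.prime_two (h4 ▸ by decide)
  obtain ⟨b, hb, ob⟩ := cauchy hl ld
  have hx : a * b ∈ B := mul_mem (b1 ha) hb
  have o1 : orderOf (a * b) = 2 * l := by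
    rw [(show Commute a b from b3 a (b1 ha) b hb).orderOf_mul_eq_mul_orderOf_of_coprime
      (by rw [oa, ob]; exact (Nat.coprime_primes Nat.prime_two hl).2 l2.symm), oa, ob]
  have o2 : (orderOf (a * b)).Coprime p := Nat.Coprime.coprime_dvd_left (orderOf_dvd_natCard B hx) b4
  have o3 : a * b ≠ 1 := fun e => by
    rw [e, orderOf_one] at o1
    omega
  have c1 : cn (a * b) ≤ cm 3 q := by
    rcases h.cls _ o2 o3 with e | e | ⟨e, -⟩ | ⟨-, e⟩
    · exact (cn_reg h hp o2 e).trans (tau_le_cm hq)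
    · obtain ⟨m, hm, e', -⟩ := h.mild _ o2 e
      rw [e', cm]
      exact Nat.mul_le_mul_left _ (by omega)
    · obtain ⟨m, n, z, hb, -, hz, hxz, -⟩ := h.bad3 rfl _ o2 e
      have k1 : 2 * l ∣ m := o1 ▸ hz ▸ orderOf_dvd_of_mem_zpowers hxz
      have k2 : 2 ∣ m := (Dvd.intro _ rfl).trans k1
      have k3 : l ∣ m := (Dvd.intro_left _ rfl).trans k1
      obtain ⟨u, hu⟩ := q_odd h hp
      obtain ⟨v, hv⟩ := (q_odd h hp).pow (n := 2)
      have : q ≤ q ^ 2 := Nat.le_self_pow (by decide) q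
      rcases hb with ⟨hm | hm, -⟩ | ⟨hm, -⟩ | ⟨hm, -⟩
      · exact (l3 (hm ▸ k3)).elim
      · exact (l4 (hm ▸ k3)).elim
      · omega
      · omega
    · have k1 := Nat.le_of_dvd (by decide) (orderOf_dvd_of_pow_eq_one e)
      have := hl.two_le
      omega
  refine good_of_cn (hBA hx) c1 ?_
  rw [h.card]
  refine (Nat.mul_le_mul_left _ ?_).trans (n_cm hq)
  have e1 : B.relIndex A * Nat.card B = Nat.card A := by
    rw [relIndex, ← Nat.card_congr (subgroupOfEquivOfLe hBA).toEquiv, index_mul_card]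
  rw [← e1, ← nz h hp C hE]
  exact Nat.mul_le_mul b6 (tor_le b5)

/-- a four-group in `G₂(3)` with normaliser of order `48` -/
theorem good_48 (h4 : Nat.card E = 4) (h8 : Nat.card (Cz E) ≤ 8) (h48 : Nat.card (Nz E) = 48) : Good A := by
  have hA := nz h hp C hE
  have hEF : E ≤ Cz E := fun a ha => mem_centralizer_iff.2 fun b hb => hE.comm b hb a ha
  have c8 : Nat.card (Cz E) = 8 := by
    have k1 := card_nz E
    have k2 := (card_le_card_group E.normalizerMonoidHom.range).trans (SB.Low.twoA_card_aut_four h4)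
    rw [h48] at k1
    nlinarith
  have hFi : Inv Γ (Cz E) := hE.inv.centralizer
  have i2 : (E.subgroupOf (Cz E)).index = 2 := by
    have k := (E.subgroupOf (Cz E)).index_mul_card
    rw [Nat.card_congr (subgroupOfEquivOfLe hEF).toEquiv, h4, c8] at k
    omega
  have hFc : ∀ a ∈ Cz E, ∀ b ∈ Cz E, a * b = b * a := fun a ha b hb => by
    by_cases k1 : a ∈ E
    · exact mem_centralizer_iff.1 hb a k1
    by_cases k2 : b ∈ E
    · exact (mem_centralizer_iff.1 ha b k2).symm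
    have k3 : (⟨a, ha⟩ : Cz E)⁻¹ * ⟨b, hb⟩ ∈ E.subgroupOf (Cz E) :=
      (mul_mem_iff_of_index_two i2).2 (iff_of_false (fun c => k1 (inv_mem_iff.1 c)) k2)
    have k4 : a⁻¹ * b * a = a * (a⁻¹ * b) := mem_centralizer_iff.1 ha _ k3
    rw [mul_inv_cancel_left, mul_assoc, inv_mul_eq_iff_eq_mul] at k4
    exact k4.symm
  have hFA : Nz (Cz E) = A := norm_ab C hFi (fun e => hE.ne_bot (le_bot_iff.1 (e ▸ hEF))) hFc
  rw [hA] at h48
  obtain ⟨t, ht, o3⟩ := cauchy (H := A) Nat.prime_three (h48 ▸ by decide)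
  obtain ⟨w, hw, w1, hwt⟩ := fix_three c8 (hFA ▸ ht) o3
  let W : Subgroup T := Cz E ⊓ centralizer {g | g ∈ A ∧ orderOf g = 3}
  have hWi : Inv Γ W := fun σ hσ x hx => ⟨hFi σ hσ x hx.1, mem_centralizer_iff.2 fun g hg => by
    obtain ⟨g, rfl⟩ := σ.surjective g
    rw [← map_mul, ← map_mul, mem_centralizer_iff.1 hx.2 g ⟨(C.mi.inv σ hσ g).1 hg.1, by rw [← hg.2, σ.orderOf_eq]⟩]⟩
  have hwW : w ∈ W := by
    refine ⟨hw, mem_centralizer_iff.2 fun g hg => ?_⟩
    have k1 : 8 ∣ Nat.card ↥(centralizer {w} ⊓ A) := c8 ▸ card_dvd_of_le (le_inf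
      (fun a ha => mem_centralizer_singleton_iff.2 (hFc a ha w hw)) (hFA ▸ le_normalizer))
    have k2 : 3 ∣ Nat.card ↥(centralizer {w} ⊓ A) :=
      o3 ▸ orderOf_dvd_natCard _ (⟨mem_centralizer_singleton_iff.2 hwt, ht⟩ : t ∈ centralizer {w} ⊓ A)
    have k3 := ((centralizer {w} ⊓ A).subgroupOf A).index_mul_card
    rw [Nat.card_congr (subgroupOfEquivOfLe inf_le_right).toEquiv, h48] at k3
    obtain ⟨c, hc⟩ := Nat.Coprime.mul_dvd_of_dvd_of_dvd (by decide) k1 k2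
    have k4 : ((centralizer {w} ⊓ A).subgroupOf A).index ∣ 2 := ⟨c, by rw [hc] at k3; nlinarith⟩
    have k5 : (⟨g, hg.1⟩ : A) ^ 2 ∈ (centralizer {w} ⊓ A).subgroupOf A := by
      rcases (Nat.dvd_prime Nat.prime_two).1 k4 with k | k
      · rw [index_eq_one.1 k]
        exact mem_top _
      · exact sq_mem_of_index_two k _
    have k6 : (g ^ 2) ^ 2 ∈ centralizer {w} := pow_mem (show g ^ 2 ∈ centralizer {w} ⊓ A from k5).1 2
    rw [← pow_mul, show 2 * 2 = 3 + 1 from rfl, pow_succ, ← hg.2, pow_orderOf_eq_one, one_mul] at k6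
    exact mem_centralizer_singleton_iff.1 k6
  have hWE : W ⊓ E = ⊥ := (hE.min _ inf_le_right fun σ hσ x hx => ⟨hWi σ hσ x hx.1, hE.inv σ hσ x hx.2⟩).resolve_right
    fun e => by
      have k1 : t ∈ Cz E := mem_centralizer_iff.2 fun a ha =>
        (mem_centralizer_iff.1 (e.ge ha).1.2 t ⟨ht, o3⟩).symm
      have k2 := orderOf_dvd_natCard _ k1
      rw [o3, c8] at k2
      exact absurd k2 (by decide)
  have hwE : w ∉ E := fun c => w1 (mem_bot.1 (hWE ▸ ⟨hwW, c⟩))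
  refine good_inv h hp C (z := w) ?_ fun σ hσ => ?_
  · have : Fact (Nat.Prime 2) := ⟨Nat.prime_two⟩
    refine orderOf_eq_prime (mem_bot.1 (hWE ▸ ⟨pow_mem hwW 2, ?_⟩)) w1
    exact sq_mem_of_index_two i2 (⟨w, hw⟩ : Cz E)
  · have k1 := hWi σ hσ w hwW
    have k2 : (⟨w, hw⟩ : Cz E)⁻¹ * ⟨σ w, k1.1⟩ ∈ E.subgroupOf (Cz E) :=
      (mul_mem_iff_of_index_two i2).2 (iff_of_false (fun c => hwE (inv_mem_iff.1 c))
        fun c => hwE ((hE.inv.iff hσ w).1 c))
    have k3 : w⁻¹ * σ w ∈ W ⊓ E := ⟨W.mul_mem (W.inv_mem hwW) k1, k2⟩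
    rw [hWE, mem_bot, inv_mul_eq_one] at k3
    exact k3.symm

/-- a four-group in `G₂(q)` whose centraliser is a `2`-group -/
theorem good_four1' (h1 : k = 1) (h4 : Nat.card E = 4) (h2 : ∀ l : ℕ, l.Prime → l ∣ Nat.card (Cz E) → l = 2) :
    Good A := by
  subst h1
  have hq := q_ge h hp
  obtain ⟨n, B, hn, -, b2, -, b4, b5, b6⟩ := h.nV rfl hp E hE.toEA h4
  have n2 : 2 ≤ n := by omega
  have e1 : n = 2 ^ n.primeFactorsList.length := Nat.eq_prime_pow_of_unique_prime_dvd (by omega) fun {l} hl hd =>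
    h2 l hl ((hd.trans (b4 ▸ dvd_pow_self n two_ne_zero)).trans (card_dvd_of_le b2))
  generalize n.primeFactorsList.length = j at e1
  rcases j with _ | _ | j
  · omega
  · have e2 : n = 2 := e1
    rw [e2] at b5 b6
    exact good_48 h hp C hE h4 b5 b6
  obtain ⟨u, hu, e2⟩ := two_part hq hn e1
  rw [nz h hp C hE] at b6
  have i2 : ¬ 2 ∣ A.index := odd_index (q_odd h hp) (by omega) hu e2 (by rw [← b6, A.index_mul_card, h.card])
  obtain ⟨x, hx⟩ := h.cyc
  rw [pow_one, e2] at hx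
  have o1 : orderOf (x ^ u) = 2 ^ (j + 3) := by
    rw [orderOf_pow_of_dvd hu.pos.ne' (hx ▸ Dvd.intro_left _ rfl), hx, Nat.mul_div_cancel _ hu.pos, e1]
    ring
  have : Fact (Nat.Prime 2) := ⟨Nat.prime_two⟩
  obtain ⟨g, hg⟩ := H164.exists_conj_mem_of_isPGroup Nat.prime_two i2
    (IsPGroup.of_card (G := zpowers (x ^ u)) (n := j + 3) (by rw [Nat.card_zpowers, o1]))
  have o2 : orderOf (g⁻¹ * x ^ u * g) = 2 ^ (j + 3) := by
    rw [← o1]
    simpa using (MulAut.conj g⁻¹).orderOf_eq (x ^ u)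
  have o3 : (orderOf (g⁻¹ * x ^ u * g)).Coprime p := cop_two h hp o2.dvd
  have o4 : orderOf (g⁻¹ * x ^ u * g) = 2 * n := by
    rw [o2, e1]
    ring
  have n4 : 4 ≤ n := by
    have : 0 < 2 ^ j := by positivity
    rw [e1, pow_succ, pow_succ]
    omega
  refine good_of_cn (hg _ (mem_zpowers _)) (cn_reg h hp o3 (reg_of h hp o3 (fun e => ?_) fun e => ?_)) ?_
  · rw [pow_one] at e
    have := Nat.le_of_dvd (by omega) e
    omega
  · rw [pow_one] at e
    have := Nat.le_of_dvd (by omega) e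
    omega
  · rw [h.card, b6]
    exact (Nat.mul_le_mul_left _ (Nat.mul_le_mul_left _ (Nat.pow_le_pow_left (by omega) 2))).trans (n_four hq)

/-- a four-group in `G₂(q)` -/
theorem good_four1 (hO : BoxLocO) (h1 : k = 1) (h4 : Nat.card E = 4) : Good A := by
  obtain ⟨B, -, -, b3, -, -, -, -, -, -, b4⟩ := h.tor 2 E hE.toEA hp.symm h4
  have hB : ∀ g ∈ Cz E, Odd (orderOf g) → g ∈ B := fun g hg ho => by
    obtain ⟨m, hm⟩ := exists_pow_eq_self_of_coprime (x := g) (n := 4)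
      (Nat.Coprime.pow_left 2 (Nat.coprime_two_left.2 ho))
    exact hm ▸ pow_mem (b4 g hg) m
  let O : Subgroup T :=
    { carrier := {g | g ∈ Cz E ∧ Odd (orderOf g)}
      one_mem' := ⟨one_mem _, by rw [orderOf_one]; exact odd_one⟩
      mul_mem' := fun {a b} ha hb => ⟨mul_mem ha.1 hb.1, (ha.2.mul hb.2).of_dvd_nat
        (show Commute a b from b3 a (hB a ha.1 ha.2) b (hB b hb.1 hb.2)).orderOf_mul_dvd_mul_orderOf⟩
      inv_mem' := fun {a} ha => ⟨inv_mem ha.1, by rw [orderOf_inv]; exact ha.2⟩ }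
  by_cases h0 : O = ⊥
  · refine good_four1' h hp C hE h1 h4 fun l hl hd => ?_
    by_contra l2
    obtain ⟨x, hx, ox⟩ := cauchy hl hd
    have k1 : x ∈ O := ⟨hx, ox ▸ hl.odd_of_ne_two l2⟩
    rw [h0, mem_bot] at k1
    rw [k1, orderOf_one] at ox
    exact hl.one_lt.ne ox
  · obtain ⟨E', r, e1, e2⟩ := ex_loc (Γ := Γ) (B := O)
      (fun σ hσ x hx => ⟨hE.inv.centralizer σ hσ x hx.1, by rw [σ.orderOf_eq]; exact hx.2⟩) h0
      fun a ha b hb => b3 a (hB a ha.1 ha.2) b (hB b hb.1 hb.2)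
    refine hO p k q T d A Γ h C E' r e2 ?_
    rintro rfl
    refine e2.ne_bot (eq_bot_iff.2 fun x hx => mem_bot.2 (orderOf_eq_one_iff.1 ?_))
    exact (Nat.coprime_two_right.2 (e1 hx).2).eq_one_of_dvd (orderOf_dvd_of_pow_eq_one (e2.pow x hx))

/-- the normaliser of an eight-group -/
theorem card_eight (h8 : Nat.card E = 8) : Nat.card A = 1344 := by
  have hA := nz h hp C hE
  have : Fact (Nat.Prime 2) := ⟨Nat.prime_two⟩
  have hC : Cz E = E := le_antisymm (h.eight hp E hE.toEA h8) fun a ha => mem_centralizer_iff.2 fun b hb => hE.comm b hb a ha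
  have c1 := card_nz E
  rw [hC, h8] at c1
  have c2 : 16 ∣ Nat.card (Nz E) := by
    obtain ⟨K, hK, hle⟩ := Sylow.exists_subgroup_card_pow_succ (p := 2) (n := 3) (H := E)
      (h.card ▸ sixteen (q_odd h hp)) h8
    have k1 := (E.subgroupOf K).index_mul_card
    rw [Nat.card_congr (subgroupOfEquivOfLe hle).toEquiv, h8, hK] at k1
    have k2 := normal_of_index_eq_two (H := E.subgroupOf K) (by omega)
    exact (show 16 = Nat.card K from hK.symm) ▸ card_dvd_of_le ((normal_subgroupOf_iff_le_normalizer hle).1 k2)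
  have c3 : 2 ∣ Nat.card E.normalizerMonoidHom.range := by omega
  have hsq : ∀ v : E, v * v = 1 := fun v => Subtype.ext ((pow_two (v : T)).symm.trans (hE.pow v v.2))
  have c4 := StdL2.G23Aut.card_aut hsq h8
  have := StdL2.G23Aut.simple_aut hsq h8
  let X : Subgroup (MulAut E) :=
    { carrier := {φ | ∃ σ ∈ Γ, ∀ x : E, (φ x : T) = σ x}
      one_mem' := ⟨1, one_mem _, fun _ => rfl⟩
      mul_mem' := fun {a b} ⟨σ, hσ, e⟩ ⟨τ, hτ, e'⟩ => ⟨σ * τ, mul_mem hσ hτ, fun x => by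
        rw [MulAut.mul_apply, MulAut.mul_apply, e, e']⟩
      inv_mem' := fun {a} ⟨σ, hσ, e⟩ => ⟨σ⁻¹, inv_mem hσ, fun x => by
        rw [MulAut.inv_apply, MulAut.inv_apply, eq_comm, MulEquiv.symm_apply_eq, ← e, MulEquiv.apply_symm_apply]⟩ }
  have hX : E.normalizerMonoidHom.range ≤ X := by
    rintro _ ⟨a, rfl⟩
    exact ⟨MulAut.conj (a : T), (C.mi.conj a).2 (hA ▸ a.2), fun _ => rfl⟩
  have c7 : 7 ∣ Nat.card X := by
    let _ : CommGroup E := { (inferInstance : Group E) with mul_comm := fun a b => Subtype.ext (hE.comm a a.2 b b.2) }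
    refine seven_dvd (fun v => by rw [pow_two]; exact hsq v) h8 X fun W hW => ?_
    refine (hE.min (W.map E.subtype) (map_subtype_le W) ?_).imp (fun e => ?_) fun e => ?_
    · rintro σ hσ _ ⟨w, hw, rfl⟩
      let φ : MulAut E :=
        { toFun := fun a => ⟨σ a, hE.inv σ hσ a a.2⟩
          invFun := fun a => ⟨σ.symm a, (hE.inv.iff hσ _).1 (by simp)⟩
          left_inv := fun a => Subtype.ext (by simp)
          right_inv := fun a => Subtype.ext (by simp)
          map_mul' := fun a b => Subtype.ext (by simp) }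
      exact ⟨φ w, hW φ ⟨σ, hσ, fun _ => rfl⟩ w hw, rfl⟩
    · exact (map_eq_bot_iff_of_injective W E.subtype_injective).1 e
    · exact eq_top_iff.2 fun x _ => (mem_map_iff_mem E.subtype_injective).1 (e.ge x.2)
  have hT := top_of_fourteen c4 X (c3.trans (card_dvd_of_le hX)) c7
  have hN : E.normalizerMonoidHom.range.Normal := ⟨by
    rintro _ ⟨a, rfl⟩ φ
    obtain ⟨σ, hσ, e⟩ : φ ∈ X := hT ▸ mem_top φ
    refine ⟨⟨σ a, hE.inv.normalizer σ hσ a a.2⟩, MulEquiv.ext fun x => Subtype.ext ?_⟩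
    obtain ⟨x, rfl⟩ := φ.surjective x
    rw [MulAut.mul_apply, MulAut.mul_apply, MulAut.inv_apply, MulEquiv.symm_apply_apply, e]
    change σ a * (φ x : T) * (σ a)⁻¹ = σ ((a : T) * x * (a : T)⁻¹)
    rw [e, map_mul, map_mul, map_inv]⟩
  rcases hN.eq_bot_or_eq_top with e | e
  · rw [e, card_bot] at c3
    exact absurd c3 (by decide)
  · rw [e, card_top, c4] at c1
    exact hA ▸ c1

/-- an eight-group -/
theorem good_eight (h8 : Nat.card E = 8) : Good A := by
  have hA := nz h hp C hE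
  have hc := card_eight h hp C hE h8
  have hq := q_ge h hp
  have key : ∀ x ∈ A, (orderOf x).Coprime p → x ≠ 1 → d x ≤ k + 1 → (q = 3 → 7 ∣ orderOf x) → Good A :=
    fun x hx o1 o2 o3 o4 => by
      have r1 := reg_le h hp o1 o2 o3
      have r2 := cn_reg h hp o1 r1
      rcases hk h hp with rfl | rfl
      · rcases hq.eq_or_lt with e | e
        · subst e
          have r3 := (h.reg x o1 r1).2.2.1
          have r4 : 7 ∣ cn x := (o4 rfl).trans (orderOf_dvd_natCard _ (mem_centralizer_singleton_iff.2 rfl))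
          refine good_of_cn hx (c := 7) ?_ (by rw [h.card, hc, ord_one]; norm_num)
          rcases r3 with ⟨-, r3⟩ | ⟨r3, -⟩
          · omega
          · exact absurd r3 (by decide)
        · exact good_of_cn hx r2 (by rw [h.card, hc]; exact n_eight1 e)
      · exact good_of_cn hx r2 (by rw [h.card, hc]; exact n_eight3 hq)
  by_cases h7 : p = 7
  · obtain ⟨t, ht, o3⟩ := cauchy (H := A) Nat.prime_three (hc ▸ by decide)
    obtain ⟨a, ha, a1, hta⟩ := fix_three h8 (hA ▸ ht) o3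
    have : Fact (Nat.Prime 2) := ⟨Nat.prime_two⟩
    have oa : orderOf a = 2 := orderOf_eq_prime (hE.pow a ha) a1
    have o6 : orderOf (t * a) = 6 := by
      rw [(show Commute t a from hta).orderOf_mul_eq_mul_orderOf_of_coprime (by rw [o3, oa]; decide), o3, oa]
    refine key _ (mul_mem ht (hA ▸ le_normalizer ha)) (by rw [o6, h7]; decide) (fun e => ?_)
      (h.perm6 hp E hE.toEA h8 t (hA ▸ ht) o3 a ha a1 hta) fun e => ?_
    · rw [e, orderOf_one] at o6
      exact absurd o6 (by decide)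
    · obtain ⟨f, hf, e'⟩ := h.pw
      have : p ∣ q := e' ▸ dvd_pow_self p hf.ne'
      rw [h7, e] at this
      exact absurd this (by decide)
  · have p7 : Nat.Prime 7 := by norm_num
    obtain ⟨g, hg, o7⟩ := cauchy (H := A) p7 (hc ▸ by decide)
    refine key g hg (o7 ▸ (Nat.coprime_primes p7 h.prime).2 (Ne.symm h7)) (fun e => ?_)
      (h.perm7 hp E hE.toEA h8 g (hA ▸ hg) o7) fun _ => o7.symm.dvd
    rw [e, orderOf_one] at o7
    exact absurd o7 (by decide)

end sheet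

end L35

/-- **[Loc2]** -/
theorem boxLoc2 : BoxLoc2 := by
  intro hO p k q T _ _ _ d A Γ h C E hE
  have hp : p ≠ 2 := by
    rintro rfl
    exact hE.ne_bot (C.noP E hE.inv (L35.ea_pg hE.toEA))
  have : Fact (Nat.Prime 2) := ⟨Nat.prime_two⟩
  obtain ⟨j, hj⟩ := IsPGroup.iff_card.1 (L35.ea_pg hE.toEA)
  have h1 : Nat.card E ≤ 2 ^ 3 := h.rk2 hp E ⟨⟨fun a b => Subtype.ext (hE.comm a a.2 b b.2)⟩⟩ hE.pow
  have h2 : j ≤ 3 := (Nat.pow_le_pow_iff_right (by decide)).1 (hj ▸ h1)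
  interval_cases j
  · exact absurd (card_eq_one.1 hj) hE.ne_bot
  · exact L35.good_two h hp C hE.inv hj
  · rcases L35.hk h hp with e | e
    exacts [L35.good_four1 h hp C hE hO e hj, L35.good_four3 h hp C hE e hj]
  · exact L35.good_eight h hp C hE hj

end Cfsg.Agent.N2.G2
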