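import Cfsg.Agent.N2.G2.Defs
import Cfsg.Agent.SB.Low.TwoAut

/-!
# N2, `G₂(q)` and `³D₄(q)`, the `2`-local subgroups: numbers and groups of automorphisms of `2³` (helper35)
-/

set_option autoImplicit false

namespace Cfsg.Agent.N2.G2.L35

open Subgroup

/-! ### numbers -/

theorem tor_le {k q n : ℕ} (h : Tor k q n) : n ≤ tau k q := by
  have h1 : ∀ a b : ℕ, a - b ≤ a := Nat.sub_le
  have h2 : q - 1 ≤ q + 1 := by omega
  have h3 : q ^ 3 - 1 ≤ q ^ 3 + 1 := by omega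
  have h4 : (q ^ 3 + 1) * (q + 1) ≤ (q ^ 2 + q + 1) ^ 2 :=
    Nat.le.intro (k := q ^ 3 + 3 * q ^ 2 + q) (by ring)
  rcases h with ⟨rfl, h⟩ | ⟨rfl, h⟩
  · have e : tau 1 q = (q + 1) ^ 2 := if_pos rfl
    have e' : (q + 1) ^ 2 = q ^ 2 + 2 * q + 1 := by ring
    rw [e]
    rcases h with rfl | rfl | rfl | rfl | rfl
    · exact Nat.pow_le_pow_left h2 2
    · exact le_rfl
    · omega
    · omega
    · omega
  · have e : tau 3 q = (q ^ 2 + q + 1) ^ 2 := if_neg (by decide)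
    rw [e]
    rcases h with rfl | rfl | rfl | rfl | rfl | rfl | rfl
    · exact (Nat.mul_le_mul h3 h2).trans h4
    · exact (Nat.mul_le_mul h3 le_rfl).trans h4
    · exact (Nat.mul_le_mul le_rfl h2).trans h4
    · exact h4
    · exact le_rfl
    · exact Nat.pow_le_pow_left (by omega) 2
    · have e' : (q ^ 2 + q + 1) ^ 2 = q ^ 4 + 1 + (2 * q ^ 3 + 3 * q ^ 2 + 2 * q) := by ring
      omega

theorem ord_one (q : ℕ) : ord 1 q = q ^ 6 * (q ^ 2 - 1) * (q ^ 6 - 1) := if_pos rfl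

theorem ord_three (q : ℕ) : ord 3 q = q ^ 12 * (q ^ 2 - 1) * (q ^ 6 - 1) * (q ^ 8 + q ^ 4 + 1) := if_neg (by decide)

theorem tau_one (q : ℕ) : tau 1 q = (q + 1) ^ 2 := if_pos rfl

theorem tau_three (q : ℕ) : tau 3 q = (q ^ 2 + q + 1) ^ 2 := if_neg (by decide)

theorem n_inv {k q : ℕ} (hk : k = 1 ∨ k = 3) (hq : 3 ≤ q) :
    tau k q ^ 3 * (q * (q ^ 2 - 1) * (q ^ k * ((q ^ k) ^ 2 - 1))) ≤ ord k q := by
  have h : ∀ j, 1 ≤ q ^ j := fun j => Nat.one_le_pow _ _ (by omega)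
  have h' : 1 ≤ (q ^ k) ^ 2 := Nat.one_le_pow _ _ (h k)
  obtain ⟨t, rfl⟩ := Nat.exists_eq_add_of_le hq
  rcases hk with rfl | rfl
  · rw [ord_one, tau_one]
    zify [h 2, h 6, h']
    rw [← sub_nonneg]
    ring_nf
    positivity
  · rw [ord_three, tau_three]
    zify [h 2, h 6, h']
    rw [← sub_nonneg]
    ring_nf
    positivity

theorem n_cm {q : ℕ} (hq : 3 ≤ q) : cm 3 q ^ 3 * (24 * tau 3 q) ≤ ord 3 q := by
  have h : ∀ j, 1 ≤ q ^ j := fun j => Nat.one_le_pow _ _ (by omega)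
  obtain ⟨t, rfl⟩ := Nat.exists_eq_add_of_le hq
  rw [ord_three, tau_three, cm]
  zify [h 2, h 6]
  rw [← sub_nonneg]
  ring_nf
  positivity

theorem tau_le_cm {q : ℕ} (hq : 3 ≤ q) : tau 3 q ≤ cm 3 q := by
  have h : ∀ j, 1 ≤ q ^ j := fun j => Nat.one_le_pow _ _ (by omega)
  obtain ⟨t, rfl⟩ := Nat.exists_eq_add_of_le hq
  rw [tau_three, cm]
  zify [h 2]
  rw [← sub_nonneg]
  ring_nf
  positivity

theorem n_four {q : ℕ} (hq : 3 ≤ q) : tau 1 q ^ 3 * (12 * (q + 1) ^ 2) ≤ ord 1 q := by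
  have h : ∀ j, 1 ≤ q ^ j := fun j => Nat.one_le_pow _ _ (by omega)
  obtain ⟨t, rfl⟩ := Nat.exists_eq_add_of_le hq
  rw [ord_one, tau_one]
  zify [h 2, h 6]
  rw [← sub_nonneg]
  ring_nf
  positivity

theorem n_eight1 {q : ℕ} (hq : 4 ≤ q) : tau 1 q ^ 3 * 1344 ≤ ord 1 q := by
  have h : ∀ j, 1 ≤ q ^ j := fun j => Nat.one_le_pow _ _ (by omega)
  obtain ⟨t, rfl⟩ := Nat.exists_eq_add_of_le hq
  rw [ord_one, tau_one]
  zify [h 2, h 6]
  rw [← sub_nonneg]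
  ring_nf
  positivity

theorem n_eight3 {q : ℕ} (hq : 3 ≤ q) : tau 3 q ^ 3 * 1344 ≤ ord 3 q := by
  have h : ∀ j, 1 ≤ q ^ j := fun j => Nat.one_le_pow _ _ (by omega)
  obtain ⟨t, rfl⟩ := Nat.exists_eq_add_of_le hq
  rw [ord_three, tau_three]
  zify [h 2, h 6]
  rw [← sub_nonneg]
  ring_nf
  positivity

theorem sixteen {k q : ℕ} (hq : Odd q) : 16 ∣ ord k q := by
  have h1 : 8 ∣ q ^ 2 - 1 := by
    obtain ⟨t, rfl⟩ := hq
    obtain ⟨u, hu⟩ := Nat.even_mul_succ_self t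
    refine ⟨u, Nat.sub_eq_of_eq_add ?_⟩
    calc (2 * t + 1) ^ 2 = 4 * (t * (t + 1)) + 1 := by ring
      _ = _ := by rw [hu]; ring
  have h2 : 2 ∣ q ^ 6 - 1 := by
    obtain ⟨u, hu⟩ := hq.pow (n := 6)
    exact ⟨u, by omega⟩
  have h3 : 16 ∣ (q ^ 2 - 1) * (q ^ 6 - 1) := Nat.mul_dvd_mul h1 h2
  unfold ord
  split_ifs
  · rw [mul_assoc]
    exact h3.mul_left _
  · rw [mul_assoc (q ^ 12)]
    exact (h3.mul_left _).mul_right _

/-- a prime divisor other than `3` -/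
theorem exists_prime {n : ℕ} (h3 : 3 < n) (h9 : ¬ 9 ∣ n) : ∃ l : ℕ, l.Prime ∧ l ≠ 3 ∧ l ∣ n := by
  by_contra hc
  push Not at hc
  have h1 : n = 3 ^ n.primeFactorsList.length :=
    Nat.eq_prime_pow_of_unique_prime_dvd (by omega) fun {d} hd hn => by
      by_contra h
      exact hc d hd h hn
  generalize n.primeFactorsList.length = j at h1
  rcases j with _ | _ | j
  · omega
  · omega
  · exact h9 ⟨3 ^ j, by rw [h1]; ring⟩

/-- the even orders of tori in `³D₄(q)` -/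
theorem exists_l {q n : ℕ} (hq : 3 ≤ q) (ho : Odd q) (h : Tor 3 q n) (he : 2 ∣ n) :
    ∃ l : ℕ, l.Prime ∧ l ≠ 2 ∧ l ∣ n ∧ ¬ l ∣ q - 1 ∧ ¬ l ∣ q + 1 := by
  obtain ⟨s, rfl⟩ : ∃ s, q = s + 1 := ⟨q - 1, by omega⟩
  have hs : Even s := by simpa [parity_simps] using ho
  have e1 : (s + 1) ^ 2 - (s + 1) + 1 = s ^ 2 + s + 1 := by
    rw [Nat.sub_eq_of_eq_add (c := s ^ 2 + s) (by ring)]
  have e2 : (s + 1) ^ 3 - 1 = s * ((s + 1) ^ 2 + (s + 1) + 1) := Nat.sub_eq_of_eq_add (by ring)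
  have e3 : (s + 1) ^ 3 + 1 = (s + 2) * (s ^ 2 + s + 1) := by ring
  have o1 : ∀ x : ℕ, Odd (x ^ 2 + x + 1) := fun x => by
    have := Nat.even_mul_succ_self x
    rw [show x ^ 2 + x + 1 = x * (x + 1) + 1 by ring]
    exact this.add_one
  have n9 : ∀ x : ℕ, ¬ 9 ∣ x ^ 2 + x + 1 := fun x hx => by
    have h1 : (x ^ 2 + x + 1) % 9 = ((x % 9) ^ 2 + x % 9 + 1) % 9 := by simp [Nat.add_mod, Nat.pow_mod]
    have h2 : x % 9 < 9 := Nat.mod_lt _ (by decide)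
    have h3 := Nat.mod_eq_zero_of_dvd hx
    rw [h1] at h3
    generalize x % 9 = y at h2 h3
    interval_cases y <;> simp at h3
  have key : ∀ x : ℕ, x = s ∨ x = s + 1 → x ^ 2 + x + 1 ∣ n →
      ∃ l : ℕ, l.Prime ∧ l ≠ 2 ∧ l ∣ n ∧ ¬ l ∣ s + 1 - 1 ∧ ¬ l ∣ s + 1 + 1 := fun x hx hd => by
    obtain ⟨l, hl, l3, hd'⟩ := exists_prime (n := x ^ 2 + x + 1) (by rcases hx with rfl | rfl <;> nlinarith) (n9 x)
    have k1 : ¬ l ∣ 1 := hl.not_dvd_one
    have k3 : ¬ l ∣ 3 := fun k => l3 ((Nat.prime_dvd_prime_iff_eq hl Nat.prime_three).1 k)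
    refine ⟨l, hl, ?_, hd'.trans hd, fun k => ?_, fun k => ?_⟩
    · rintro rfl
      exact (Nat.not_even_iff_odd.2 (o1 x)) (even_iff_two_dvd.2 hd')
    · rw [Nat.add_sub_cancel] at k
      rcases hx with rfl | rfl
      · exact k1 ((Nat.dvd_add_right (k.mul_right (x + 1))).1 (by rwa [show x * (x + 1) + 1 = x ^ 2 + x + 1 by ring]))
      · exact k3 ((Nat.dvd_add_right (k.mul_right (s + 3))).1
          (by rwa [show s * (s + 3) + 3 = (s + 1) ^ 2 + (s + 1) + 1 by ring]))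
    · rcases hx with rfl | rfl
      · refine k3 ((Nat.dvd_add_right (k.mul_right x)).1 ?_)
        rw [show (x + 1 + 1) * x + 3 = (x ^ 2 + x + 1) + (x + 1 + 1) by ring]
        exact Nat.dvd_add hd' k
      · exact k1 ((Nat.dvd_add_right (k.mul_right (s + 1))).1
          (by rwa [show (s + 1 + 1) * (s + 1) + 1 = (s + 1) ^ 2 + (s + 1) + 1 by ring]))
  have no : ∀ {m : ℕ}, Odd m → n = m → False := fun hm e =>
    (Nat.not_even_iff_odd.2 hm) (even_iff_two_dvd.2 (e ▸ he))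
  rcases h with ⟨h, -⟩ | ⟨-, h⟩
  · exact absurd h (by decide)
  rcases h with h | h | h | h | h | h | h
  · exact key _ (Or.inr rfl) (h ▸ e2 ▸ (Dvd.intro_left _ rfl).mul_right _)
  · exact key _ (Or.inr rfl) (h ▸ e2 ▸ (Dvd.intro_left _ rfl).mul_right _)
  · exact key _ (Or.inl rfl) (h ▸ e3 ▸ (Dvd.intro_left _ rfl).mul_right _)
  · exact key _ (Or.inl rfl) (h ▸ e3 ▸ (Dvd.intro_left _ rfl).mul_right _)
  · exact (no (o1 _).pow h).elim
  · exact (no (e1 ▸ (o1 s).pow) h).elim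
  · refine (no ?_ h).elim
    obtain ⟨a, ha⟩ := ho.pow (n := 4)
    obtain ⟨b, hb⟩ := ho.pow (n := 2)
    have : (s + 1) ^ 2 ≤ (s + 1) ^ 4 := Nat.pow_le_pow_right (by omega) (by decide)
    exact ⟨a - b, by omega⟩

/-- the case `n = 2 ^ b ≥ 4` -/
theorem two_part {q n b : ℕ} (hq : 3 ≤ q) (hn : n = q - 1 ∨ n = q + 1) (hb : n = 2 ^ (b + 2)) :
    ∃ u, Odd u ∧ (q - 1) * (q + 1) = 2 * n * u := by
  have h4 : n = 4 * 2 ^ b := by rw [hb]; ring
  have h5 : 0 < 2 ^ b := by positivity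
  generalize 2 ^ b = c at h4 h5
  rcases hn with hn | hn
  · refine ⟨2 * c + 1, ⟨c, rfl⟩, ?_⟩
    rw [← hn, show q + 1 = 2 * (2 * c + 1) by omega]
    ring
  · obtain ⟨c, rfl⟩ : ∃ c', c = c' + 1 := ⟨c - 1, by omega⟩
    refine ⟨2 * c + 1, ⟨c, rfl⟩, ?_⟩
    rw [← hn, show q - 1 = 2 * (2 * c + 1) by omega]
    ring

theorem odd_index {q n u i : ℕ} (hq : Odd q) (hn : 0 < n) (hu : Odd u) (h : (q - 1) * (q + 1) = 2 * n * u)
    (hi : i * (12 * n ^ 2) = ord 1 q) : ¬ 2 ∣ i := by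
  have h0 : 1 ≤ q := hq.pos
  obtain ⟨s, rfl⟩ : ∃ s, q = s + 1 := ⟨q - 1, by omega⟩
  rw [Nat.add_sub_cancel] at h
  have e1 : (s + 1) ^ 2 - 1 = s * (s + 1 + 1) := Nat.sub_eq_of_eq_add (by ring)
  have e2 : (s + 1) ^ 6 - 1 = s * (s + 1 + 1) * ((s + 1) ^ 4 + (s + 1) ^ 2 + 1) := Nat.sub_eq_of_eq_add (by ring)
  rw [ord_one, e1, e2, h] at hi
  have h1 : 3 * i = (s + 1) ^ 6 * u ^ 2 * ((s + 1) ^ 4 + (s + 1) ^ 2 + 1) :=
    Nat.eq_of_mul_eq_mul_right (m := 4 * n ^ 2) (by positivity) (by linear_combination hi)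
  have h2 : Odd (3 * i) := h1 ▸ (hq.pow.mul hu.pow).mul ((hq.pow.add_odd hq.pow).add_one)
  exact fun k => (Nat.not_even_iff_odd.2 h2) (even_iff_two_dvd.2 (k.mul_left 3))

/-! ### automorphisms of `2³` -/

section eight

variable {V : Type*} [CommGroup V] [Finite V]

theorem four_le (hsq : ∀ v : V, v ^ 2 = 1) (h8 : Nat.card V = 8) (X : Subgroup (MulAut V))
    (hirr : ∀ W : Subgroup V, (∀ σ ∈ X, ∀ w ∈ W, σ w ∈ W) → W = ⊥ ∨ W = ⊤) (U : Finset V) (h1 : 1 ∉ U)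
    (hU : ∀ σ ∈ X, ∀ w ∈ U, σ w ∈ U) (hne : U.Nonempty) : 4 ≤ U.card := by
  classical
  obtain ⟨a, ha⟩ := hne
  have rk : ∀ S : Finset V, closure (S : Set V) = ⊤ → 3 ≤ S.card := fun S hS => by
    by_contra hc
    have k1 := card_dvd_exponent_pow_rank' V hsq
    have k2 := Group.rank_le hS
    have k3 : 2 ^ Group.rank V ≤ 2 ^ 2 := Nat.pow_le_pow_right (by decide) (by omega)
    have := Nat.le_of_dvd (by positivity) k1
    omega
  have hc : closure (U : Set V) = ⊤ := (hirr _ fun σ hσ w hw => by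
    have k : closure (U : Set V) ≤ (closure (U : Set V)).comap σ.toMonoidHom :=
      (closure_le _).2 fun y hy => subset_closure (hU σ hσ y hy)
    exact k hw).resolve_left fun k => h1 (mem_bot.1 (k ▸ subset_closure ha : a ∈ (⊥ : Subgroup V)) ▸ ha)
  have hp : ∏ x ∈ U, x = 1 := by
    have k1 : ∀ σ ∈ X, σ (∏ x ∈ U, x) = ∏ x ∈ U, x := fun σ hσ => by
      rw [map_prod]
      refine Finset.prod_bij (fun x _ => σ x) (fun x hx => hU σ hσ x hx) (fun x _ y _ e => σ.injective e)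
        (fun y hy => ⟨σ⁻¹ y, hU _ (X.inv_mem hσ) y hy, by simp⟩) fun _ _ => rfl
    rcases hirr (zpowers (∏ x ∈ U, x)) (fun σ hσ w hw => by
      obtain ⟨j, rfl⟩ := mem_zpowers_iff.1 hw
      rw [map_zpow, k1 σ hσ]
      exact zpow_mem (mem_zpowers _) j) with k | k
    · exact zpowers_eq_bot.1 k
    · have := rk {∏ x ∈ U, x} (by rwa [Finset.coe_singleton, ← zpowers_eq_closure])
      simp at this
  have k2 : closure ((U.erase a : Finset V) : Set V) = ⊤ := by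
    refine top_le_iff.1 (hc ▸ (closure_le _).2 fun x hx => ?_)
    by_cases e : x = a
    · rw [← Finset.mul_prod_erase U _ ha] at hp
      have k : (∏ x ∈ U.erase a, x)⁻¹ ∈ closure ((U.erase a : Finset V) : Set V) :=
        inv_mem (Subgroup.prod_mem _ fun y hy => Subgroup.subset_closure hy)
      rw [← eq_inv_of_mul_eq_one_left hp] at k
      exact e ▸ k
    · exact subset_closure (Finset.mem_coe.2 (Finset.mem_erase.2 ⟨e, hx⟩))
  have k3 := rk _ k2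
  rw [Finset.card_erase_of_mem ha] at k3
  omega

theorem seven_dvd (hsq : ∀ v : V, v ^ 2 = 1) (h8 : Nat.card V = 8) (X : Subgroup (MulAut V))
    (hirr : ∀ W : Subgroup V, (∀ σ ∈ X, ∀ w ∈ W, σ w ∈ W) → W = ⊥ ∨ W = ⊤) : 7 ∣ Nat.card X := by
  classical
  have := Fintype.ofFinite V
  have : Nontrivial V := Finite.one_lt_card_iff_nontrivial.1 (by omega)
  obtain ⟨a, ha⟩ := exists_ne (1 : V)
  let O : Finset V := (MulAction.orbit X a).toFinset
  have hO : ∀ x, x ∈ O ↔ ∃ σ ∈ X, σ a = x := fun x => by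
    rw [Set.mem_toFinset, MulAction.mem_orbit_iff]
    exact ⟨fun ⟨σ, e⟩ => ⟨σ, σ.2, e⟩, fun ⟨σ, h, e⟩ => ⟨⟨σ, h⟩, e⟩⟩
  have h1 : (1 : V) ∉ O := fun k => by
    obtain ⟨σ, -, e⟩ := (hO 1).1 k
    exact ha ((MulEquiv.map_eq_one_iff σ).1 e)
  have h2 : ∀ σ ∈ X, ∀ w ∈ O, σ w ∈ O := fun σ hσ w hw => by
    obtain ⟨τ, hτ, rfl⟩ := (hO w).1 hw
    exact (hO _).2 ⟨σ * τ, X.mul_mem hσ hτ, rfl⟩
  have h3 := four_le hsq h8 X hirr O h1 h2 ⟨a, (hO a).2 ⟨1, X.one_mem, rfl⟩⟩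
  have h4 : (insert 1 O)ᶜ.card + (O.card + 1) = 8 := by
    rw [← Finset.card_insert_of_notMem h1, Finset.card_compl_add_card, ← h8, Nat.card_eq_fintype_card]
  have h5 : O.card = 7 := by
    rcases (insert 1 O)ᶜ.eq_empty_or_nonempty with k | k
    · rw [k] at h4
      simpa using h4
    · have := four_le hsq h8 X hirr _ (by simp) (fun σ hσ w hw => by
        rw [Finset.mem_compl, Finset.mem_insert, not_or] at hw ⊢
        refine ⟨fun e => hw.1 ((MulEquiv.map_eq_one_iff σ).1 e), fun e => hw.2 ?_⟩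
        simpa using h2 _ (X.inv_mem hσ) _ e) k
      omega
  have h6 : (MulAction.stabilizer X a).index = 7 := by
    rw [MulAction.index_stabilizer, ← h5, Set.ncard_eq_toFinset_card']
  exact h6 ▸ index_dvd_card _

end eight

/-- a simple group of order `168` has no proper subgroup of order divisible by `14` -/
theorem top_of_fourteen {G : Type*} [Group G] [Finite G] [IsSimpleGroup G] (h : Nat.card G = 168) (X : Subgroup G)
    (h2 : 2 ∣ Nat.card X) (h7 : 7 ∣ Nat.card X) : X = ⊤ := by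
  by_contra hne
  have : Fact (Nat.Prime 7) := ⟨by norm_num⟩
  have h1 := SmallSimple.Simple168Klein.index_ge_seven h _ hne
  have h3 := X.card_mul_index
  have h4 : Nat.card X = 14 := by
    have k1 : Nat.card X * 7 ≤ 168 := by
      rw [← h, ← h3]
      exact Nat.mul_le_mul_left _ h1
    have k2 : 0 < Nat.card X := Nat.card_pos
    omega
  obtain ⟨s, hs⟩ := exists_prime_orderOf_dvd_card' 7 h7
  obtain ⟨P, hP⟩ := SmallSimple.Simple168.exists_sylow_zpowers 7 (SmallSimple.Simple168.card_of_sylow_seven h) (s : G)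
    (by rw [← hs]; exact orderOf_coe s)
  have h5 : (zpowers s).index = 2 := by
    have k := (zpowers s).card_mul_index
    rw [Nat.card_zpowers, hs, h4] at k
    omega
  have h6 := normal_of_index_eq_two h5
  have h8 : X ≤ normalizer ((P : Subgroup G) : Set G) := by
    rw [hP]
    intro x hx
    refine mem_normalizer_fintype fun y hy => ?_
    obtain ⟨j, rfl⟩ := mem_zpowers_iff.1 hy
    obtain ⟨i, hi⟩ := mem_zpowers_iff.1 (h6.conj_mem _ (zpow_mem (mem_zpowers s) j) ⟨x, hx⟩)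
    exact mem_zpowers_iff.2 ⟨i, congrArg Subtype.val hi⟩
  have h9 := card_dvd_of_le h8
  rw [h4, SmallSimple.Simple168.card_normalizer_seven h] at h9
  omega

end Cfsg.Agent.N2.G2.L35
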