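import Cfsg.Agent.N2.G2.L2T
import Cfsg.Agent.N2.Cl.RAlt.Tri
import Cfsg.Agent.N2.Tri.Mat
import Cfsg.Agent.N2.L2.Mat
import Cfsg.Agent.N2.D4m.Dat
import Cfsg.Agent.S0813
import Cfsg.Agent.S0204

/-!
# N2, `³D₄(q)`, `q` odd: the socles `A₅`, `A₆`, `L₂(7)`, `L₂(8)` (helper85)
-/

set_option autoImplicit false
set_option linter.unusedSectionVars false

namespace Cfsg.Agent.N2.G2

open Subgroup Cfsg Cfsg.Agent.FP3 Cfsg.Agent.N2C.N4 Cfsg.Agent.N2.Tg Cfsg.Agent.N2.Tg.Eng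
open Cfsg.Agent.SB.Low (EA Nz Cz)

namespace Ods

/-- generating triples -/
def T3 (S : Type) [Group S] (a b c : ℕ) : Prop :=
  ∃ x y : S, x ^ a = 1 ∧ y ^ b = 1 ∧ closure ({x, y} : Set S) = ⊤ ∧ (x * y) ^ c = 1 ∧ x * y ≠ 1

section data

variable {S : Type} [Group S]

theorem of_tri {a b c : ℕ} (h : Tri S a b c) (hc : c ≠ 1) : T3 S a b c := by
  obtain ⟨x, y, h1, h2, h3, h4⟩ := h
  exact ⟨x, y, h1, h2, h4, h3 ▸ pow_orderOf_eq_one _, fun e => hc (by rw [← h3, e, orderOf_one])⟩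

theorem of_has {p B n o a b c : ℕ} {X Y : List ℕ} (H : Has p B n S o [X, Y]) (L : List (ℕ × ℕ × ℕ × List (List ℕ)))
    (h : chkT p B n X Y L o a b c = true) : T3 S a b c :=
  let ⟨_, _, _, _, _, _, _, C, k⟩ := H
  C.core k h

theorem a5 : Tri (alternatingGroup (Fin 5)) 2 5 5 :=
  N2C.RAlt.tri_of (a := 1) (b := 4) (x := 3277888) (y := 69729) (w := [false, true, true]) (k := 1) (m := 5)
    (by norm_num) (by decide +kernel)

theorem a6 : Tri (alternatingGroup (Fin 6)) 3 4 3 :=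
  N2C.RAlt.tri_of (a := 2) (b := 3) (x := 106039328) (y := 67245153) (w := [false]) (k := 1) (m := 7)
    (by norm_num) (by decide +kernel)

theorem l27 (h : OrdDiv.Real (.psl 2 7) S) : T3 S 3 3 4 :=
  of_has ((has_L (B := 128) (n := 2) (o := 336) (rg_prime 7 (by norm_num)) (il_fin 2 (by decide)) h (by decide)
    (by decide +kernel) (by decide)
    [mat 7 ([1] : List (ZMod 7)) Fin.val [[6, 6], [2, 1]], mat 7 ([1] : List (ZMod 7)) Fin.val [[1, 5], [5, 5]]]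
    (two_mem (by simp only [Matrix.det_fin_two]; decide +kernel))).ext [[1], [0, 1, 1, 0]] [[641, 645], [641, 4]]
    (by decide +kernel)) [(1, 48, 48, [[0, 0, 1]]), (128, 7, 7, [])] (by decide +kernel)

theorem l28 (h : OrdDiv.Real (.psl 2 8) S) : T3 S 2 7 7 ∧ T3 S 2 3 9 := by
  have H := has_L (B := 8) (n := 6) (o := 504) rg8 (il_fin 2 (by decide)) h (by decide) (by decide +kernel) (by decide)
    [mat 2 (b3 2) Fin.val [[4, 4], [3, 4]], mat 2 (b3 2) Fin.val [[7, 2], [7, 6]]]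
    (two_mem (by simp only [Matrix.det_fin_two]; decide +kernel))
  exact ⟨of_has (H.ext [[0], [1, 0, 1]]
      [[4672, 36873, 37448, 32832, 4617, 36936], [584, 4169, 32833, 33288, 576, 4105]] (by decide +kernel))
      [(1, 63, 63, [[0, 1, 1, 0, 1, 1, 1], [0, 1, 0, 1, 0, 1, 1, 1], [1, 1, 0, 1, 1, 1, 1, 1]]), (512, 8, 8, [])]
      (by decide +kernel),
    of_has (H.ext [[0], [1, 0, 1, 0, 1, 1]]
      [[4672, 36873, 37448, 32832, 4617, 36936], [32833, 4609, 36872, 32776, 4672, 36873]] (by decide +kernel))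
      [(1, 63, 63, [[1, 1, 0, 1, 0, 1, 1, 0, 1], [0, 1, 1, 0, 1, 1, 0, 1, 0, 1, 0],
        [0, 1, 1, 0, 1, 0, 1, 1, 0, 1, 0, 1, 0, 1]]), (512, 8, 8, [])] (by decide +kernel)⟩

theorem v4 (F : Type) [Field F] [Fintype F] [IsSimpleGroup (PSL 2 F)] (hn : ¬ IsMulCommutative (PSL 2 F))
    (hF : Fintype.card F ≤ 10) : V4 (PSL 2 F) := by
  obtain ⟨p, hc⟩ := CharP.exists F
  have hp := CharP.char_is_prime F p
  have := Fact.mk hp
  obtain ⟨V, hV⟩ := S0204.result (G := PSL 2 F) fun k => hn inferInstance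
  have h1 : ∀ x ∈ V, x ^ 2 = 1 := fun x hx =>
    congrArg Subtype.val (hV.exponent_two ▸ Monoid.pow_exponent_eq_one (⟨x, hx⟩ : V))
  have h2 : V ≠ ⊥ := fun e => by
    have := hV.card_four
    rw [e, card_bot] at this
    omega
  have h3 : ∀ x ∈ V, ∀ y ∈ V, x * y = y * x := fun x hx y hy => by
    have k : ∀ z ∈ V, z⁻¹ = z := fun z hz => inv_eq_of_mul_eq_one_right (sq z ▸ h1 z hz)
    rw [← k _ (mul_mem hx hy), mul_inv_rev, k x hx, k y hy]
  refine ⟨V, ⟨Nat.prime_two, h2, h1, h3⟩, hV.card_four, fun g hg ho => by_contra fun h4 => ?_⟩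
  obtain ⟨⟨u, hu⟩, h5⟩ := ne_bot_iff_exists_ne_one.1 h2
  have h6 : Commute u g := hg u hu
  have h7 : 3 ≤ orderOf g := by
    have := mt orderOf_eq_one_iff.1 h4
    obtain ⟨a, ha⟩ := ho
    omega
  have h8 : orderOf u = 2 := orderOf_eq_prime (h1 u hu) fun e => h5 (Subtype.ext e)
  have h9 : orderOf (u * g) = 2 * orderOf g := by
    rw [h6.orderOf_mul_eq_mul_orderOf_of_coprime (h8.symm ▸ ho.coprime_two_left), h8]
  have h10 : ∀ r : ℕ, r.Prime → (u * g) ^ r ≠ 1 := fun r hr e => by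
    have k := h9 ▸ orderOf_dvd_of_pow_eq_one e
    have := Nat.le_of_dvd hr.pos k
    have := (Nat.prime_dvd_prime_iff_eq Nat.prime_two hr).1 ((dvd_mul_right _ _).trans k)
    omega
  have h11 := L2.cn_le p (x := u * g) (sq (u * g) ▸ h10 2 Nat.prime_two) (h10 p hp)
  have h12 : 4 * orderOf g ∣ cn (u * g) := by
    rw [← hV.card_four, ← Nat.card_zpowers]
    refine Nat.Coprime.mul_dvd_of_dvd_of_dvd ?_ (card_dvd_of_le fun v hv => mem_centralizer_singleton_iff.2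
      (Commute.mul_right (h3 v hv u hu) (hg v hv))) (card_dvd_of_le (zpowers_le.2 (mem_centralizer_singleton_iff.2
        (h6.symm.mul_right (Commute.refl g)))))
    rw [hV.card_four, Nat.card_zpowers]
    exact ho.coprime_two_left.pow_left 2
  have h13 : 4 * orderOf g ≤ cn (u * g) := Nat.le_of_dvd Nat.card_pos h12
  have h14 := Nat.le_mul_of_pos_right (cn (u * g)) (Nat.gcd_pos_of_pos_left (Fintype.card F - 1) two_pos)
  omega

/-- the data of `L₂(n)` -/
theorem l2 [IsSimpleGroup S] (hn : ¬ IsMulCommutative S) {F : Type} [Field F] [Fintype F] (e : S ≃* PSL 2 F) {r f : ℕ}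
    (hr : r.Prime) (hF : Fintype.card F = r ^ f) (h4 : 1 ≤ f ∧ 4 ≤ r ^ f ∧ r ^ f ≤ 10) :
    V4 S ∧ Nat.card S * Nat.gcd 2 (r ^ f - 1) = r ^ f * ((r ^ f) ^ 2 - 1) ∧
      Nat.card (MulAut S) = f * (r ^ f * ((r ^ f) ^ 2 - 1)) := by
  have := Fact.mk hr
  have : IsSimpleGroup (PSL 2 F) := e.symm.isSimpleGroup
  refine ⟨(v4 F (fun k => hn ⟨⟨fun a b => e.injective (by rw [map_mul, map_mul, mul_comm'])⟩⟩) (hF ▸ h4.2.2)).congr e, ?_, ?_⟩
  · rw [Nat.card_congr e.toEquiv, ← hF]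
    exact ClassicalGeometry.PSL2Basic.card_PSL2_gcd F
  · rw [Nat.card_congr (MulAut.congr e).toEquiv, S0813.result r f h4.1 hF 2 le_rfl fun _ => h4.2.1,
      ClassicalGeometry.PSL2Basic.card_PGL2, hF, if_pos rfl, one_mul]

theorem ne_one {x y : S} (hn : ¬ IsMulCommutative S) (h : closure ({x, y} : Set S) = ⊤) : x ≠ 1 ∧ y ≠ 1 := by
  have k : ∀ z : S, closure ({x, y} : Set S) ≤ zpowers z → False := fun z hz => hn ⟨⟨fun a b => by
    obtain ⟨i, rfl⟩ := hz (h.ge (mem_top a))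
    obtain ⟨j, rfl⟩ := hz (h.ge (mem_top b))
    exact (Commute.refl z).zpow_zpow i j⟩⟩
  refine ⟨fun e => k y ((closure_le _).2 ?_), fun e => k x ((closure_le _).2 ?_)⟩ <;> rintro _ (rfl | rfl)
  exacts [e ▸ one_mem _, mem_zpowers _, mem_zpowers _, e ▸ one_mem _]

end data

theorem num {q : ℕ} (h : 5 ≤ q) : (4 * q ^ 9) ^ 3 * 60 ≤ 10 ^ 3 * ord 3 q := by
  obtain ⟨a, rfl⟩ := Nat.exists_eq_add_of_le' h
  zify
  rw [ordZ3 (by omega), ← sub_nonneg]
  push_cast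
  ring_nf
  positivity

variable {p q : ℕ} {T : Type} [Group T] [Finite T] [IsSimpleGroup T] {d : T → ℕ} {A S : Subgroup T}
  {Γ : Subgroup (MulAut T)} (h : Sh p 3 q T d) (C : Cx p A Γ) (hS : Sim A Γ S) (hp : p ≠ 2)
include h C hS hp

theorem good {o a b c : ℕ} (hV : V4 S) (ho : Nat.card (MulAut S) = o * Nat.card S)
    (hi : 0 < o ∧ o ≤ 6 ∧ o * Nat.card S ≤ 3 ^ 10) (t : T3 S a b c) (hc : ¬ p ∣ a * b * c) : Good A := by
  obtain ⟨x, y, h1, h2, h3, h4, h5⟩ := t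
  have h6 : 3 ≤ q := by
    have := h.par
    obtain ⟨a, rfl⟩ := h.q_odd hp
    omega
  have k : ∀ (z : S) (m : ℕ), z ^ m = 1 → m ∣ a * b * c → (orderOf z).Coprime p := fun z m k1 k2 =>
    ((h.prime.coprime_iff_not_dvd.2 hc).coprime_dvd_right ((orderOf_dvd_of_pow_eq_one k1).trans k2)).symm
  exact good_tri h C hS hp ho.dvd hi.1 (by omega) hV h3 (ne_one hS.nonab h3).1 (ne_one hS.nonab h3).2 h5
    (k x a h1 ((dvd_mul_right _ _).mul_right _)) (k y b h2 ((dvd_mul_left _ _).mul_right _)) (k _ c h4 (dvd_mul_left _ _))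
    (hi.2.2.trans (Nat.pow_le_pow_left h6 10))

/-- `A₅` in characteristic five -/
theorem five (h5 : p = 5) (hV : V4 S) (hc : Nat.card S = 60) (ho : Nat.card (MulAut S) = 2 * Nat.card S) (t : Tri S 2 3 5) :
    Good A := by
  obtain ⟨x, y, h1, h2, h3, h4⟩ := t
  subst h5
  have h6 : 5 ≤ q := by
    obtain ⟨f, hf, rfl⟩ := h.pw
    exact Nat.le_self_pow hf.ne' 5
  obtain ⟨k1, k2⟩ := ne_one hS.nonab h4
  have h7 := no_four h C hS hp ho.dvd two_pos (by omega) hV h4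
  rw [h.inv hp x (by rw [orderOf_coe]; exact orderOf_eq_prime h1 k1)] at h7
  have : Fact (Nat.Prime 3) := ⟨Nat.prime_three⟩
  have h8 : (orderOf (y : T)).Coprime 5 := by
    rw [orderOf_coe, orderOf_eq_prime h2 k2]
    decide
  have h9 : (y : T) ≠ 1 := fun e => k2 (Subtype.ext e)
  by_cases k3 : d y ≤ 7
  · exact h.good_cm (hS.le y.2) h8 h9 k3 ((hS.card_le C).trans (by rw [ho, hc]; exact le_trans (by norm_num) (Nat.pow_le_pow_left h6 10)))
      (num_c3 (by omega))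
  have k4 : d (x * y) ≤ 6 := by rcases h.cls y h8 h9 with e | e | e | e <;> omega
  have k5 : Cy1 S 5 10 := cy1_of_prime (n := 12) Nat.prime_five hc (by decide) fun m hm e => by
    have := Nat.le_of_dvd (by decide) hm
    interval_cases m <;> omega
  refine hS.good C ho.dvd (by decide) k5 (by decide) (c := 4 * q ^ 9) (fun u hu e => (card_norm_le ?_).trans
    (Nat.mul_le_mul_left 4 (h.u5 rfl rfl u e ?_))) (by rw [hc, h.card]; exact num h6)
  · have k6 : ((zpowers u : Set T) \ {1}).ncard = 4 := by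
      rw [Set.ncard_sdiff_singleton_of_mem (one_mem (zpowers u)), ← Nat.card_coe_set_eq, SetLike.coe_sort_coe,
        Nat.card_zpowers, e]
    refine k6 ▸ Set.ncard_le_ncard fun z hz => ⟨hz.1, fun k => ?_⟩
    rw [isConj_one_left.1 (show IsConj u 1 from Set.mem_singleton_iff.1 k ▸ hz.2), orderOf_one] at e
    omega
  · rwa [h.d_cy k5 hu (mul_mem x.2 y.2) e (by rw [← coe_mul, orderOf_coe, h3])]

end Ods

open Ods in
/-- **[Ods]** -/
theorem boxOds : BoxOds := by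
  rintro p k q T _ _ _ d A Γ h C ⟨rfl, hp⟩ S hS hP
  have := hS.simple
  have hq := h.prime
  have nd : ∀ {m r : ℕ}, r.Prime → p ≠ r → m ∣ (2 * r) ^ 3 → ¬ p ∣ m := fun hr k1 k2 k3 =>
    (hq.dvd_mul.1 (hq.dvd_of_dvd_pow (k3.trans k2))).elim (fun k => hp ((Nat.prime_dvd_prime_iff_eq hq Nat.prime_two).1 k))
      fun k => k1 ((Nat.prime_dvd_prime_iff_eq hq hr).1 k)
  rcases hP with ⟨⟨e⟩⟩ | ⟨⟨e⟩⟩ | ⟨F, _, _, hF, ⟨e⟩⟩ | ⟨rfl, F, _, _, hF, ⟨e⟩⟩
  · have : Fact (Nat.Prime 5) := ⟨Nat.prime_five⟩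
    obtain ⟨e'⟩ := S0253.result (ZMod.card 5)
    obtain ⟨h1, h2, h3⟩ := l2 hS.nonab (e.trans e'.symm) (r := 5) (f := 1) Nat.prime_five (ZMod.card 5) (by decide)
    have h4 : Nat.card S = 60 := by norm_num at h2; omega
    have h5 : Nat.card (MulAut S) = 2 * Nat.card S := by rw [h3, h4]; norm_num
    by_cases k : p = 5
    · exact five h C hS hp k h1 h4 h5 (N2C.RAlt.tri_5_2_3_5.congr e.symm)
    · exact good h C hS hp h1 h5 (by rw [h4]; norm_num) (of_tri (a5.congr e.symm) (by decide))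
        (nd Nat.prime_five k (by decide))
  · have : Fact (Nat.Prime 3) := ⟨Nat.prime_three⟩
    have := Fintype.ofFinite (GaloisField 3 2)
    have hF : Fintype.card (GaloisField 3 2) = 3 ^ 2 := Nat.card_eq_fintype_card.symm.trans (GaloisField.card 3 2 two_ne_zero)
    obtain ⟨e'⟩ := S0254.result hF
    obtain ⟨h1, h2, h3⟩ := l2 hS.nonab (e.trans e'.symm) Nat.prime_three hF (by decide)
    have h4 : Nat.card S = 360 := by norm_num at h2; omega
    have h5 : Nat.card (MulAut S) = 4 * Nat.card S := by rw [h3, h4]; norm_num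
    by_cases k : p = 5
    · exact good h C hS hp h1 h5 (by rw [h4]; norm_num) (of_tri (a6.congr e.symm) (by decide)) (k ▸ by decide)
    · exact good h C hS hp h1 h5 (by rw [h4]; norm_num) (of_tri (N2C.RAlt.tri_6_2_4_5.congr e.symm) (by decide))
        (nd Nat.prime_five k (by decide))
  · obtain ⟨h1, h2, h3⟩ := l2 hS.nonab e (r := 2) (f := 3) Nat.prime_two hF (by decide)
    have h4 : Nat.card S = 504 := by norm_num at h2; omega
    have h5 : Nat.card (MulAut S) = 3 * Nat.card S := by rw [h3, h4]; norm_num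
    obtain ⟨t1, t2⟩ := l28 (S := S) ⟨F, _, _, hF, ⟨e⟩⟩
    by_cases k : p = 7
    · exact good h C hS hp h1 h5 (by rw [h4]; norm_num) t2 (k ▸ by decide)
    · exact good h C hS hp h1 h5 (by rw [h4]; norm_num) t1 (nd (by norm_num) k (by decide))
  · obtain ⟨h1, h2, h3⟩ := l2 hS.nonab e (r := 7) (f := 1) hq hF (by decide)
    have h4 : Nat.card S = 168 := by norm_num at h2; omega
    exact good h C hS hp h1 (o := 2) (by rw [h3, h4]; norm_num) (by rw [h4]; norm_num) (l27 ⟨F, _, _, hF, ⟨e⟩⟩) (by decide)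

end Cfsg.Agent.N2.G2
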