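import Cfsg.Agent.SB.Low.TabD1

/-!
# N2 (S3519), `³D₄(q)`, box [Why]: the finite checks (helper75)
-/

set_option autoImplicit false

namespace Cfsg.Agent.N2.G2.Wy

open Cfsg.Agent.SB.Low.Tab.D

/-- small integers -/
def sm : List ℤ := [0, 1, -1, 2, -2, 3, -3]

theorem chk_A : (WL.all fun m => RL.all fun a => RL.all fun b => ip b a != -1 ||
    !((ap (tm m) a == a && ap (tm m) b == b) || (ap (tm m) a == b && ap (tm m) b == a)) ||
    [r18, r14, r13, r12].all fun x => [1, -1].any fun e : ℤ => sm.any fun i => sm.any fun j =>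
      ap (tm m) (ap (tm m) x) + e • ap (tm m) x + x == i • a + j • b) = true := by decide +kernel

theorem chk_B : (WL.all fun m => RL.all fun c => ip (ap (tm m) c) c != 0 || RL.any fun a =>
    (ap (tm m) a == a || ap (tm m) a == -a) && RL.all fun b =>
      (ip b a != 0 || [c, -c, ap (tm m) c, -ap (tm m) c, ap (tm m) (ap (tm m) c), -ap (tm m) (ap (tm m) c)].contains b) &&
      (ip b a == 0 || [a, -a].contains b || ([1, -1].contains (ip b c) && [1, -1].contains (ip b (ap (tm m) c)) &&
        [1, -1].contains (ip b (ap (tm m) (ap (tm m) c))))) &&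
      (ip c a == 0 && ip (ap (tm m) c) a == 0 && ip (ap (tm m) (ap (tm m) c)) a == 0)) = true := by decide +kernel

end Cfsg.Agent.N2.G2.Wy
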