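import Cfsg.Agent.N2.G2.Lin
import Cfsg.Agent.N2.Ex.K.Base
import Cfsg.Agent.H605.MX.Act
import Cfsg.Agent.DL.Dat.Base

/-!
# N2 (S3519), `³D₄(q)`, box [Why]: the adjoint module (helper75)
-/

set_option autoImplicit false
set_option linter.unusedSectionVars false

namespace Cfsg.Agent.N2.G2.Wy

open CoxeterSystem Cfsg Cfsg.Lie Cfsg.Lie.ChevalleyDatum Matrix Module Cfsg.Agent.FP3
open Cfsg.Agent.ChevalleyStructure Cfsg.Agent.ChevalleyStructure.Elts Cfsg.Agent.ChevalleyStructure.CoxeterGeom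
  Cfsg.Agent.ChevalleyStructure.CoxeterGeomTypes
open Cfsg.Agent.Tits.Roots Cfsg.Agent.Nodes Cfsg.Agent.Nodes.RGDChev Cfsg.Agent.Nodes.Coroot
open Cfsg.Agent.KFacts.RgdField Cfsg.Agent.KFacts.RgdChevCoord
open Cfsg.Agent.H469.Exc Cfsg.Agent.H129.TorusChar Cfsg.Agent.DS.Ex Cfsg.Agent.DS.Ex.Tor Cfsg.Agent.DS.Nt
  Cfsg.Agent.N2.Ex

section Lin

variable {K L G : Type} [Field K] [AddCommGroup L] [Module K L] [Group G] (ρ : G →* End K L)

/-- the elements which fix `W` and act trivially modulo `V` -/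
def Gm (W V : Submodule K L) : Subgroup G where
  carrier := {g | (∀ v ∈ W, ρ g v = v) ∧ ∀ v, ρ g v - v ∈ V}
  one_mem' := ⟨fun v _ => by rw [map_one, End.one_apply], fun v => by
    rw [map_one, End.one_apply, sub_self]
    exact zero_mem _⟩
  mul_mem' := fun {a b} ha hb => ⟨fun v hv => by rw [map_mul, End.mul_apply, hb.1 v hv, ha.1 v hv], fun v => by
    rw [map_mul, End.mul_apply, ← sub_add_sub_cancel _ (ρ b v)]
    exact add_mem (ha.2 _) (hb.2 _)⟩
  inv_mem' := fun {a} ha => ⟨fun v hv => by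
    conv_lhs => rw [← ha.1 v hv]
    rw [← End.mul_apply, ← map_mul, inv_mul_cancel, map_one, End.one_apply], fun v => by
    have h := neg_mem (ha.2 (ρ a⁻¹ v))
    rwa [← End.mul_apply, ← map_mul, mul_inv_cancel, map_one, End.one_apply, neg_sub] at h⟩

theorem mem_Gm {W V : Submodule K L} {g : G} : g ∈ Gm ρ W V ↔ (∀ v ∈ W, ρ g v = v) ∧ ∀ v, ρ g v - v ∈ V := Iff.rfl

theorem scott_key [FiniteDimensional K L] {x y s : G} (hs : s ∈ Subgroup.closure {x, y}) {C : Subgroup G} (f : L →ₗ[K] K)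
    (h : L) (hC : C ≤ Gm ρ (fixSp (ρ s) ⊓ LinearMap.ker f) (comSp (ρ s) ⊔ Submodule.span K {h}))
    (ht : Subgroup.closure {x, y} ⊔ C = ⊤) {n : ℕ} (h1 : ∀ X : Submodule K L, (∀ g, ∀ v ∈ X, ρ g v = v) → finrank K X ≤ n)
    (h2 : ∀ V : Submodule K L, (∀ g v, ρ g v - v ∈ V) → V = ⊤) :
    dfx (ρ x) + dfx (ρ y) + dfx (ρ (x * y)) ≤ finrank K L + n + 2 := by
  have h3 := scott_corr (ρ x) (ρ y)
  have h4 : Subgroup.closure {x, y} ≤ Gm ρ (fixSp (ρ x) ⊓ fixSp (ρ y)) (comSp (ρ x) ⊔ comSp (ρ y)) :=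
    (Subgroup.closure_le _).2 (by
      rintro _ (rfl | rfl)
      exacts [⟨fun v hv => mem_fixSp.1 hv.1, fun v => Submodule.mem_sup_left ⟨v, rfl⟩⟩,
        ⟨fun v hv => mem_fixSp.1 hv.2, fun v => Submodule.mem_sup_right ⟨v, rfl⟩⟩])
  generalize fixSp (ρ x) ⊓ fixSp (ρ y) = A at h3 h4
  generalize comSp (ρ x) ⊔ comSp (ρ y) = B at h3 h4
  have h5 : ⊤ ≤ Gm ρ (A ⊓ LinearMap.ker f) (B ⊔ Submodule.span K {h}) := ht ▸ sup_le
    (fun g hg => ⟨fun v hv => (h4 hg).1 v hv.1, fun v => Submodule.mem_sup_left ((h4 hg).2 v)⟩)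
    fun g hg => ⟨fun v hv => (hC hg).1 v ⟨mem_fixSp.2 ((h4 hs).1 v hv.1), hv.2⟩, fun v =>
      (sup_le_sup_right (show comSp (ρ s) ≤ B by rintro _ ⟨w, rfl⟩; exact (h4 hs).2 w) _) ((hC hg).2 v)⟩
  have h6 := h1 _ fun g => (h5 (Subgroup.mem_top g)).1
  have h7 := Submodule.finrank_add_le_finrank_add_finrank B (Submodule.span K {h})
  rw [h2 _ fun g => (h5 (Subgroup.mem_top g)).2, finrank_top] at h7
  have h8 : finrank K (Submodule.span K {h}) ≤ 1 := (finrank_span_le_card _).trans (by simp)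
  have h9 := Submodule.finrank_quotient_add_finrank B
  have h10 := LinearMap.finrank_range_add_finrank_ker (f.domRestrict A)
  rw [LinearMap.ker_domRestrict, ← Submodule.finrank_map_subtype_eq, Submodule.map_comap_subtype] at h10
  have h11 := Submodule.finrank_le (LinearMap.range (f.domRestrict A))
  rw [finrank_self] at h11
  rw [map_mul]
  omega

end Lin

variable {D : ChevalleyDatum} {l : ℕ} {M : CoxeterMatrix (Fin l)} (hp : IsType D l M) {p : ℕ} [Fact p.Prime]

/-- the value of a root on the toral part -/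
noncomputable def rf (a : Fin l → ℤ) : (D.Idx → KK p) →ₗ[KK p] KK p where
  toFun v := K.rl hp v a
  map_add' v w := K.rl_add hp v w a
  map_smul' c v := K.rl_smul hp c v a

/-- the coroot -/
noncomputable def hv (D : ChevalleyDatum) (p : ℕ) [Fact p.Prime] (r : ℕ) : D.Idx → KK p :=
  Sum.elim (fun i => (Columns.cor D r i : KK p)) fun _ => 0

variable {t : YY D p} (ht : t ∈ TT D (KK p))

include ht

theorem mem_fix {v : D.Idx → KK p} : v ∈ fixSp (ad D p t) ↔ ∀ i, cX hp t (K.wL D l i) ≠ 1 → v i = 0 := by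
  rw [mem_fixSp, K.ad_eq, K.mx_T hp ht, funext_iff]
  refine forall_congr' fun i => ?_
  rw [mulVec_diagonal]
  refine ⟨fun h h1 => of_not_not fun e => h1 ((mul_eq_right₀ e).1 h), fun h => ?_⟩
  by_cases e : cX hp t (K.wL D l i) = 1
  · rw [e, one_mul]
  · rw [h e, mul_zero]

theorem mem_com {v : D.Idx → KK p} (h : ∀ i, cX hp t (K.wL D l i) = 1 → v i = 0) : v ∈ comSp (ad D p t) := by
  refine ⟨fun i => v i / (cX hp t (K.wL D l i) - 1), funext fun i => ?_⟩
  rw [LinearMap.sub_apply, End.one_apply, Pi.sub_apply, K.ad_eq, K.mx_T hp ht, mulVec_diagonal]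
  by_cases e : cX hp t (K.wL D l i) = 1
  · rw [h i e, zero_div, mul_zero, sub_zero]
  · have := sub_ne_zero.2 e
    field_simp

theorem T_mem {u : YY D p} (hu : u ∈ TT D (KK p)) (h : ∀ b, RT hp b → cX hp t b = 1 → cX hp u b = 1)
    (W V : Submodule (KK p) (D.Idx → KK p)) : u ∈ Gm (ad D p) (fixSp (ad D p t) ⊓ W) (comSp (ad D p t) ⊔ V) := by
  have h1 : ∀ i, cX hp t (K.wL D l i) = 1 → cX hp u (K.wL D l i) = 1 := by
    rintro (i | s) e
    exacts [(isMC_cX hp hu).zero, h _ (K.rt_vec hp s) e]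
  refine ⟨fun v hv => mem_fixSp.1 ((mem_fix hp hu).2 fun i e => (mem_fix hp ht).1 hv.1 i fun e' => e (h1 i e')), fun v =>
    Submodule.mem_sup_left (mem_com hp ht fun i e => ?_)⟩
  rw [Pi.sub_apply, K.ad_eq, K.mx_T hp hu, mulVec_diagonal, h1 i e, one_mul, sub_self]

omit ht in
theorem wt (hs : ∀ a b, RT hp a → RT hp b → cpr M.toCoxeterSystem hp.isCartan a b = cpr M.toCoxeterSystem hp.isCartan b a)
    {a ν μ : Fin l → ℤ} (ha : RT hp a) (hν : RT hp ν) (h0 : cpr M.toCoxeterSystem hp.isCartan ν a = 0) (hμ : μ = 0 ∨ RT hp μ)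
    {m : ℕ} (hm : 1 ≤ m) (e : μ = ν + (m : ℤ) • a) : False := by
  have := finite_W hp M.toCoxeterSystem
  have h1 : cpr M.toCoxeterSystem hp.isCartan μ a = m * 2 := by
    rw [e, cpr_add _ _ _ _ ha, cpr_smul _ _ _ _ ha, h0, cpr_self _ _ ha, zero_add]
  rcases hμ with rfl | hμ
  · have h2 := cpr_smul M.toCoxeterSystem hp.isCartan 0 a ha
    rw [zero_smul, h1] at h2
    omega
  by_cases h2 : μ = a
  · rw [h2, cpr_self _ _ ha] at h1
    rw [show (m : ℤ) = 1 by omega, one_smul, h2] at e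
    exact hν.ne_zero (by simpa using e.symm)
  by_cases h3 : μ = -a
  · rw [h3, cpr_neg _ _ _ ha, cpr_self _ _ ha] at h1
    omega
  have h4 := DL.Base.cpr_mul_lt hμ ha h2 h3
  rw [hs a μ ha hμ, h1] at h4
  have h5 : (1 : ℤ) ≤ m := by exact_mod_cast hm
  nlinarith

omit ht in
theorem wL_or (i : D.Idx) : K.wL D l i = 0 ∨ RT hp (K.wL D l i) := by
  rcases i with i | s
  exacts [Or.inl rfl, Or.inr (K.rt_vec hp s)]

theorem X_mem (hs : ∀ a b, RT hp a → RT hp b → cpr M.toCoxeterSystem hp.isCartan a b = cpr M.toCoxeterSystem hp.isCartan b a)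
    (r : Fin D.nroots) (h : ∀ b, RT hp b → cX hp t b = 1 → cpr M.toCoxeterSystem hp.isCartan b (vec D l r) = 0) :
    XX D l (KK p) (vec D l r) ≤ Gm (ad D p) (fixSp (ad D p t) ⊓ LinearMap.ker (rf hp (vec D l r)))
      (comSp (ad D p t) ⊔ Submodule.span (KK p) {hv D p r}) := by
  have := finite_W hp M.toCoxeterSystem
  intro x hx
  have ha := K.rt_vec hp r
  have k : ∀ v, ad D p x v - v = (K.mx x - 1) *ᵥ v := fun v => by rw [sub_mulVec, one_mulVec, K.ad_eq]
  refine ⟨fun v ⟨h1, h2⟩ => ?_, fun v => ?_⟩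
  · have h3 : v = Sum.elim (fun j => v (Sum.inl j)) (fun _ => 0) + Sum.elim (fun _ => 0) fun s => v (Sum.inr s) := by
      funext i
      rcases i with i | s <;> simp
    have h4 : ad D p x (Sum.elim (fun j => v (Sum.inl j)) fun _ => 0) = Sum.elim (fun j => v (Sum.inl j)) fun _ => 0 := by
      obtain ⟨u, rfl⟩ := (K.mem_XX hp ha).1 hx
      rw [K.ad_xc_T hp r u fun _ => rfl, show K.rl hp (Sum.elim (fun j => v (Sum.inl j)) fun _ => 0) (vec D l r) = 0 from h2,
        zero_mul, Pi.single_zero, sub_zero]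
    rw [h3, map_add, h4, add_right_inj, ← sub_eq_zero, k]
    funext i
    rw [mulVec, dotProduct]
    refine Finset.sum_eq_zero fun j _ => ?_
    rcases j with j | s
    · exact mul_zero _
    by_contra e
    obtain ⟨e1, e2⟩ := mul_ne_zero_iff.1 e
    obtain ⟨m, hm, e3⟩ := K.xc_sub_entry hp ha hx e1
    exact wt hp hs ha (K.rt_vec hp s) (h _ (K.rt_vec hp s) (of_not_not fun e4 =>
      e2 ((mem_fix hp ht).1 h1 (Sum.inr s) e4))) (wL_or hp i) hm e3
  · obtain ⟨u, rfl⟩ := (K.mem_XX hp ha).1 hx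
    let r' : Fin D.nroots := ⟨D.neg r, NPerm.neg_lt hp.inList r.2⟩
    rw [← sub_add_cancel (ad D p _ v - v) ((u * v (Sum.inr r')) • hv D p r)]
    refine Submodule.add_mem_sup (mem_com hp ht fun i e => ?_) (Submodule.smul_mem _ _ (Submodule.subset_span rfl))
    rw [k]
    rcases i with i | s
    · have h1 : K.mx (xc hp (vec D l r) u : YY D p) = D.xMat (KK p) r u := by
        rw [← H605.MX.xs_eq_xc hp r.2]
        exact dif_pos r.2
      have h2 : r' ≠ r := fun e' => ha.ne_zero (by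
        have h3 := vec_neg hp r.2
        rw [show D.neg r = r from congrArg Fin.val e'] at h3
        funext j
        have := congrFun h3 j
        rw [Pi.neg_apply] at this
        rw [Pi.zero_apply]
        omega)
      have h3 : ∀ s : Fin D.nroots, (s.val = D.negIdx.getD r.val 0) ↔ s = r' := fun s =>
        ⟨fun e => Fin.ext e, fun e => congrArg Fin.val e⟩
      rw [Pi.sub_apply, h1, sub_mulVec, one_mulVec, Pi.sub_apply, mulVec, dotProduct, Fintype.sum_sum_type,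
        Finset.sum_eq_single i (fun j _ e' => by rw [Columns.xMat_inl_inl, if_neg e'.symm, zero_mul]) (by simp),
        Finset.sum_eq_single r' (fun s _ e' => by rw [Columns.xMat_inl_inr, if_neg ((h3 s).not.2 e'), ite_self, zero_mul])
          (by simp), Columns.xMat_inl_inl, if_pos rfl, Columns.xMat_inl_inr, if_neg h2, if_pos ((h3 _).2 rfl)]
      show _ - u * v (Sum.inr r') * (Columns.cor D r i : KK p) = 0
      ring
    · rw [Pi.sub_apply, show ((u * v (Sum.inr r')) • hv D p r) (Sum.inr s) = 0 from mul_zero _, sub_zero, mulVec, dotProduct]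
      refine Finset.sum_eq_zero fun j _ => ?_
      by_contra e'
      obtain ⟨m, hm, e3⟩ := K.xc_sub_entry hp ha hx (mul_ne_zero_iff.1 e').1
      refine wt hp hs ha (K.rt_vec hp s).neg (μ := -K.wL D l j) (by
        rw [cpr_neg _ _ _ ha, h _ (K.rt_vec hp s) e, neg_zero]) ((wL_or hp j).imp neg_eq_zero.2 IsRoot.neg) hm ?_
      rw [show vec D l s = _ from e3]
      abel

end Cfsg.Agent.N2.G2.Wy
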